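import Cfsg.Agent.H37.ThreeCycleBlocks

/-!
# The even permutations of a set form an alternating group
-/

set_option autoImplicit false

namespace Cfsg.Agent.H37

open Equiv

variable {α : Type*} [Fintype α] [DecidableEq α]

theorem evenOn_equiv_alternating (S : Finset α) :
    Nonempty (↥(evenOn S) ≃* ↥(alternatingGroup (Fin S.card))) := by
  let f : ↥(alternatingGroup (Fin S.card)) →* ↥(evenOn S) :=
    ((finPerm S).comp (alternatingGroup (Fin S.card)).subtype).codRestrict _
      fun a => finPerm_mem S a.2
  refine ⟨(MulEquiv.ofBijective f ⟨fun a b h => ?_, fun σ => ?_⟩).symm⟩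
  · have h1 : finPerm S a.1 = finPerm S b.1 := congrArg Subtype.val h
    exact Subtype.ext (S.equivFin.symm.permCongrHom.injective (Perm.ofSubtype_injective h1))
  · have hmem : ∀ x, (σ : Perm α) x ∈ S ↔ x ∈ S := fun x => by
      by_cases hx : x ∈ (σ : Perm α).support
      · exact iff_of_true (σ.2.2 (Perm.apply_mem_support.2 hx)) (σ.2.2 hx)
      · rw [Perm.notMem_support.1 hx]
    refine ⟨⟨S.equivFin.permCongr ((σ : Perm α).subtypePerm hmem), ?_⟩, Subtype.ext ?_⟩
    · rw [Perm.mem_alternatingGroup, Perm.sign_permCongr]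
      convert! (Perm.sign_subtypePerm (σ : Perm α) hmem
        fun x hx => σ.2.2 (Perm.mem_support.2 hx)).trans σ.2.1
    · show Perm.ofSubtype
        (S.equivFin.symm.permCongr (S.equivFin.permCongr ((σ : Perm α).subtypePerm hmem))) = _
      rw [← Equiv.permCongr_symm, Equiv.symm_apply_apply]
      exact Perm.ofSubtype_subtypePerm hmem fun x hx => σ.2.2 (Perm.mem_support.2 hx)

end Cfsg.Agent.H37
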