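import Mathlib

/-! Opposite flags over the field with two elements. -/

namespace Cfsg.Agent.H37.Flags

open Matrix

variable {n : ℕ}

local notation "SL" => Matrix.SpecialLinearGroup (Fin n) (ZMod 2)
local notation "V" => Fin n → ZMod 2

/-- Vectors supported below `j`. -/
def low (j : ℕ) : Submodule (ZMod 2) V where
  carrier := {v | ∀ i : Fin n, j ≤ i.val → v i = 0}
  zero_mem' := fun _ _ => rfl
  add_mem' := fun ha hb i hi => by simp [ha i hi, hb i hi]
  smul_mem' := fun c v hv i hi => by simp [hv i hi]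

/-- Vectors supported at or above `j`. -/
def high (j : ℕ) : Submodule (ZMod 2) V where
  carrier := {v | ∀ i : Fin n, i.val < j → v i = 0}
  zero_mem' := fun _ _ => rfl
  add_mem' := fun ha hb i hi => by simp [ha i hi, hb i hi]
  smul_mem' := fun c v hv i hi => by simp [hv i hi]

theorem card_low {j : ℕ} (hj : j ≤ n) : Nat.card (low (n := n) j) = 2 ^ j := by
  let e : low (n := n) j ≃ (Fin j → ZMod 2) :=
    { toFun := fun v i => v.1 ⟨i.val, by omega⟩
      invFun := fun f => ⟨fun i => if h : i.val < j then f ⟨i.val, h⟩ else 0, fun i hi => dif_neg (by omega)⟩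
      left_inv := fun v => by
        ext i
        by_cases h : i.val < j
        · simp [h]
        · simp [h, v.2 i (by omega)]
      right_inv := fun f => funext fun i => by simp }
  rw [Nat.card_congr e, Nat.card_eq_fintype_card, Fintype.card_fun, Fintype.card_fin, ZMod.card]

theorem card_high {j : ℕ} (hj : j ≤ n) : Nat.card (high (n := n) j) = 2 ^ (n - j) := by
  let e : high (n := n) j ≃ (Fin (n - j) → ZMod 2) :=
    { toFun := fun v i => v.1 ⟨j + i.val, by omega⟩
      invFun := fun f => ⟨fun i => if h : i.val < j then 0 else f ⟨i.val - j, by omega⟩, fun i hi => dif_pos hi⟩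
      left_inv := fun v => by
        ext i
        by_cases h : i.val < j
        · simp [h, v.2 i h]
        · simp only [h, dif_neg, not_false_iff]
          exact congrArg v.1 (Fin.ext (by simp; omega))
      right_inv := fun f => funext fun i => by simp }
  rw [Nat.card_congr e, Nat.card_eq_fintype_card, Fintype.card_fun, Fintype.card_fin, ZMod.card]

/-- The stabiliser of the standard flag. -/
def flagStab (n : ℕ) : Subgroup (Matrix.SpecialLinearGroup (Fin n) (ZMod 2)) :=
  let S : Submonoid (Matrix.SpecialLinearGroup (Fin n) (ZMod 2)) :=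
    { carrier := {A | ∀ j : ℕ, ∀ v ∈ low (n := n) j, (A : Matrix (Fin n) (Fin n) (ZMod 2)) *ᵥ v ∈ low j}
      one_mem' := fun j v hv => by simpa using hv
      mul_mem' := fun {A B} hA hB j v hv => by
        rw [Matrix.SpecialLinearGroup.coe_mul, ← mulVec_mulVec]; exact hA j _ (hB j v hv) }
  { S with
    inv_mem' := fun {A} hA => by
      have e : A⁻¹ = A ^ (orderOf A - 1) := by
        refine inv_eq_of_mul_eq_one_right ?_
        rw [← pow_succ', Nat.sub_add_cancel (orderOf_pos A), pow_orderOf_eq_one]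
      rw [e]
      exact S.pow_mem hA _ }

theorem mem_flagStab {A : SL} : A ∈ flagStab n ↔ ∀ j : ℕ, ∀ v ∈ low (n := n) j, (A : Matrix (Fin n) (Fin n) (ZMod 2)) *ᵥ v ∈ low j :=
  Iff.rfl

theorem mulVec_cancel (A : SL) {v w : V} (h : (A : Matrix (Fin n) (Fin n) (ZMod 2)) *ᵥ v = (A : Matrix _ _ _) *ᵥ w) : v = w := by
  have h2 : ((A⁻¹ : SL) : Matrix (Fin n) (Fin n) (ZMod 2)) * (A : Matrix _ _ _) = 1 := by
    rw [← Matrix.SpecialLinearGroup.coe_mul, inv_mul_cancel, Matrix.SpecialLinearGroup.coe_one]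
  have := congrArg (fun x => ((A⁻¹ : SL) : Matrix (Fin n) (Fin n) (ZMod 2)) *ᵥ x) h
  simp only [mulVec_mulVec, h2, one_mulVec] at this
  exact this

theorem single_mem_low (i : Fin n) : (Pi.single i 1 : V) ∈ low (i.val + 1) := fun k hk =>
  Pi.single_eq_of_ne (Fin.ne_of_val_ne (by omega)) 1

theorem diag_one {A : SL} (hA : A ∈ flagStab n) (i : Fin n) : (A : Matrix (Fin n) (Fin n) (ZMod 2)) i i = 1 := by
  by_contra hne
  have h0 : (A : Matrix (Fin n) (Fin n) (ZMod 2)) i i = 0 := by
    revert hne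
    generalize (A : Matrix (Fin n) (Fin n) (ZMod 2)) i i = a
    revert a
    decide
  have hinto : ∀ v ∈ low (n := n) (i.val + 1), (A : Matrix (Fin n) (Fin n) (ZMod 2)) *ᵥ v ∈ low i.val := by
    intro v hv k hk
    rcases eq_or_lt_of_le hk with hk | hk
    · obtain rfl : i = k := Fin.ext hk
      set v' : V := v - v i • Pi.single i 1
      have hv' : v' ∈ low i.val := fun k hk => by
        rcases eq_or_lt_of_le hk with hk | hk
        · obtain rfl : i = k := Fin.ext hk
          simp [v']
        · simp [v', hv k hk, Pi.single_eq_of_ne (show k ≠ i from Fin.ne_of_val_ne (by omega))]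
      have h1 := hA i.val v' hv' i le_rfl
      simp only [v', mulVec_sub, mulVec_smul, mulVec_single_one, Pi.sub_apply, Pi.smul_apply, smul_eq_mul,
        Matrix.col_apply, h0, mul_zero, sub_zero] at h1
      exact h1
    · exact hA (i.val + 1) v hv k hk
  have h := Nat.card_le_card_of_injective
    (fun v : low (n := n) (i.val + 1) => (⟨_, hinto v.1 v.2⟩ : low (n := n) i.val))
    (fun v w e => Subtype.ext (mulVec_cancel A (congrArg Subtype.val e)))
  rw [card_low (by omega), card_low (by omega)] at h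
  exact absurd h (not_le.2 (Nat.pow_lt_pow_right (by norm_num) (Nat.lt_succ_self _)))

theorem sub_one_shift {A : SL} (hA : A ∈ flagStab n) (j : ℕ) (v : V) (hv : v ∈ low (j + 1)) :
    ((A : Matrix (Fin n) (Fin n) (ZMod 2)) - 1) *ᵥ v ∈ low j := by
  intro k hk
  rw [sub_mulVec, one_mulVec, Pi.sub_apply]
  rcases eq_or_lt_of_le hk with hk | hk
  · subst hk
    set v' : V := v - v k • Pi.single k 1
    have hv' : v' ∈ low k.val := fun i hi => by
      rcases eq_or_lt_of_le hi with hi | hi
      · obtain rfl : k = i := Fin.ext hi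
        simp [v']
      · simp [v', hv i hi, Pi.single_eq_of_ne (show i ≠ k from Fin.ne_of_val_ne (by omega))]
    have h1 := hA k.val v' hv' k le_rfl
    simp only [v', mulVec_sub, mulVec_smul, mulVec_single_one, Pi.sub_apply, Pi.smul_apply, smul_eq_mul,
      Matrix.col_apply, diag_one hA, mul_one] at h1
    exact h1
  · rw [hA (j + 1) v hv k hk, hv k hk, sub_zero]

theorem isPGroup_flagStab : IsPGroup 2 (flagStab n) := by
  rcases Nat.eq_zero_or_pos n with rfl | hn
  · exact fun A => ⟨0, Subsingleton.elim _ _⟩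
  rintro ⟨A, hA⟩
  refine ⟨n, Subtype.ext (Subtype.ext ?_)⟩
  rw [SubmonoidClass.coe_pow, Matrix.SpecialLinearGroup.coe_pow, OneMemClass.coe_one, Matrix.SpecialLinearGroup.coe_one]
  haveI : Nonempty (Fin n) := ⟨⟨0, hn⟩⟩
  set N : Matrix (Fin n) (Fin n) (ZMod 2) := (A : Matrix (Fin n) (Fin n) (ZMod 2)) - 1 with hN
  have hpow : ∀ k j : ℕ, ∀ v ∈ low (n := n) (j + k), (N ^ k) *ᵥ v ∈ low j := by
    intro k
    induction k with
    | zero => intro j v hv; simpa using hv
    | succ k ih =>
      intro j v hv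
      rw [pow_succ, ← mulVec_mulVec]
      exact ih j _ (sub_one_shift hA (j + k) v hv)
  have hzero : N ^ n = 0 := by
    refine Matrix.ext_of_mulVec_single fun i => funext fun k => ?_
    rw [zero_mulVec]
    exact hpow n 0 _ (fun l hl => absurd l.isLt (by omega)) k (Nat.zero_le _)
  have hle : n ≤ 2 ^ n := Nat.lt_two_pow_self.le
  obtain ⟨c, hc⟩ := Nat.exists_eq_add_of_le hle
  haveI : Fact (Nat.Prime 2) := ⟨Nat.prime_two⟩
  rw [show (A : Matrix (Fin n) (Fin n) (ZMod 2)) = N + 1 by rw [hN, sub_add_cancel],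
    add_pow_char_pow_of_commute 2 _ (Commute.one_right N), one_pow, hc, pow_add, hzero, zero_mul, zero_add]

/-- An invariant subspace is a member of the flag. -/
theorem invariant_eq_low (W : Submodule (ZMod 2) V) (hW : ∀ A ∈ flagStab n, ∀ w ∈ W, (A : Matrix (Fin n) (Fin n) (ZMod 2)) *ᵥ w ∈ W) :
    ∀ w ∈ W, ∀ i : Fin n, w i ≠ 0 → ∀ l : Fin n, l.val < i.val → (Pi.single l 1 : V) ∈ W := by
  intro w hw i hi l hl
  let T : SL := ⟨transvection l i 1, det_transvection_of_ne l i (Fin.ne_of_val_ne (by omega)) 1⟩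
  have hT : T ∈ flagStab n := fun j v hv k hk => by
    show (transvection l i (1 : ZMod 2) *ᵥ v) k = 0
    rw [transvection, add_mulVec, one_mulVec, single_mulVec, Pi.add_apply, hv k hk, zero_add]
    by_cases hkl : k = l
    · subst hkl
      rw [Function.update_self, hv i (by omega), mul_zero]
    · exact Function.update_of_ne hkl _ _
  have h := W.sub_mem (hW T hT w hw) hw
  have e : transvection l i (1 : ZMod 2) *ᵥ w - w = Pi.single l 1 := by
    rw [transvection, add_mulVec, one_mulVec, single_mulVec, add_sub_cancel_left, one_mul]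
    have : w i = 1 := by
      revert hi
      generalize w i = a
      revert a
      decide
    rw [this]
    rfl
  exact e ▸ h

/-- The flag stabiliser is self-normalising. -/
theorem normalizer_flagStab {g : SL} (hg : ∀ A ∈ flagStab n, g * A * g⁻¹ ∈ flagStab n) : g ∈ flagStab n := by
  intro j v hv k hk
  by_contra hne
  set M := (g : Matrix (Fin n) (Fin n) (ZMod 2))
  let W : Submodule (ZMod 2) V := (low j).map (Matrix.mulVecLin M)
  have hsurj : ∀ A ∈ flagStab n, ∃ B ∈ flagStab n, g * B * g⁻¹ = A := by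
    intro A hA
    have hinj : Function.Injective fun B : flagStab n => (⟨_, hg B.1 B.2⟩ : flagStab n) := fun B C e => by
      have e' : g * B.1 * g⁻¹ = g * C.1 * g⁻¹ := congrArg Subtype.val e
      exact Subtype.ext (mul_left_cancel (mul_right_cancel e'))
    obtain ⟨⟨B, hB⟩, e⟩ := Finite.injective_iff_surjective.1 hinj ⟨A, hA⟩
    exact ⟨B, hB, congrArg Subtype.val e⟩
  have hW : ∀ A ∈ flagStab n, ∀ w ∈ W, (A : Matrix (Fin n) (Fin n) (ZMod 2)) *ᵥ w ∈ W := by
    intro A hA w hw
    obtain ⟨u, hu, rfl⟩ := Submodule.mem_map.1 hw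
    obtain ⟨B, hB, rfl⟩ := hsurj A hA
    refine Submodule.mem_map.2 ⟨_, hB j u hu, ?_⟩
    simp only [mulVecLin_apply, mulVec_mulVec, M, ← Matrix.SpecialLinearGroup.coe_mul, inv_mul_cancel_right]
  have hmem : ∀ l : Fin n, l.val < j → (Pi.single l 1 : V) ∈ W := fun l hl =>
    invariant_eq_low W hW _ (Submodule.mem_map.2 ⟨v, hv, rfl⟩) k hne l (by omega)
  have hjn : j ≤ n := by omega
  have hle : low (n := n) j ≤ W := by
    intro u hu
    rw [show u = ∑ l : Fin n, u l • (Pi.single l 1 : V) by ext k; simp [Finset.sum_apply, Pi.single_apply]]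
    refine W.sum_mem fun l _ => ?_
    by_cases hl : l.val < j
    · exact W.smul_mem _ (hmem l hl)
    · rw [hu l (by omega), zero_smul]; exact W.zero_mem
  have hc : Nat.card W = Nat.card (low (n := n) j) := by
    refine (Nat.card_congr (Equiv.ofBijective (fun u : low (n := n) j => (⟨_, Submodule.mem_map_of_mem u.2⟩ : W)) ⟨?_, ?_⟩)).symm
    · exact fun a b e => Subtype.ext (mulVec_cancel g (congrArg Subtype.val e))
    · rintro ⟨w, hw⟩
      obtain ⟨u, hu, rfl⟩ := Submodule.mem_map.1 hw
      exact ⟨⟨u, hu⟩, rfl⟩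
  have hb := (Nat.bijective_iff_injective_and_card (fun u : low (n := n) j => (⟨u.1, hle u.2⟩ : W))).2
    ⟨fun a b e => Subtype.ext (congrArg (fun x : W => x.1) e), hc.symm⟩
  obtain ⟨u, hu⟩ := hb.2 ⟨_, Submodule.mem_map.2 ⟨v, hv, rfl⟩⟩
  exact hne ((show M *ᵥ v = u.1 from (congrArg Subtype.val hu).symm) ▸ u.2 k hk)

end Cfsg.Agent.H37.Flags
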