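import Cfsg.Agent.H37.Flags

/-! Trivially intersecting flag stabilisers. -/

namespace Cfsg.Agent.H37.Flags

open Matrix

variable {n : ℕ}

local notation "SL" => Matrix.SpecialLinearGroup (Fin n) (ZMod 2)
local notation "V" => Fin n → ZMod 2
local notation "M" A:max => ((A : Matrix.SpecialLinearGroup (Fin n) (ZMod 2)) : Matrix (Fin n) (Fin n) (ZMod 2))

/-- The flag moved by `g`. -/
def moved (g : SL) (j : ℕ) : Submodule (ZMod 2) V := (low j).map (Matrix.mulVecLin (M g))

theorem mem_moved {g : SL} {j : ℕ} {v : V} : v ∈ moved g j ↔ ∃ u ∈ low j, M g *ᵥ u = v := Submodule.mem_map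

theorem card_moved (g : SL) {j : ℕ} (hj : j ≤ n) : Nat.card (moved g j) = 2 ^ j := by
  rw [← card_low hj]
  refine (Nat.card_congr (Equiv.ofBijective (fun u : low (n := n) j => (⟨_, Submodule.mem_map_of_mem u.2⟩ : moved g j)) ⟨?_, ?_⟩)).symm
  · exact fun a b e => Subtype.ext (mulVec_cancel g (congrArg Subtype.val e))
  · rintro ⟨w, hw⟩
    obtain ⟨u, hu, rfl⟩ := Submodule.mem_map.1 hw
    exact ⟨⟨u, hu⟩, rfl⟩

/-- Trivial intersection forces complementary flags. -/
theorem disjoint_of_trivial {g : SL}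
    (h : ∀ A ∈ flagStab n, g⁻¹ * A * g ∈ flagStab n → A = 1) {i : ℕ} (hi : i ≤ n) :
    ∀ v : V, v ∈ low i → v ∈ moved g (n - i) → v = 0 := by
  intro v hv hv'
  by_contra hne
  let σ : low (n := n) i × moved g (n - i) → V := fun x => x.1.1 + x.2.1
  have hninj : ¬ Function.Injective σ := fun hinj => by
    have := hinj (a₁ := (⟨v, hv⟩, 0)) (a₂ := (0, ⟨v, hv'⟩)) (by simp [σ])
    exact hne (congrArg Subtype.val (Prod.ext_iff.1 this).1)
  have hnsurj : ¬ Function.Surjective σ := fun hs => hninj (hs.bijective_of_nat_card_le (by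
    rw [Nat.card_prod, card_low hi, card_moved g (by omega), ← pow_add, Nat.card_eq_fintype_card, Fintype.card_fun,
      ZMod.card, Fintype.card_fin, Nat.add_sub_cancel' hi])).1
  have hlt : low (n := n) i ⊔ moved g (n - i) < ⊤ := by
    refine lt_top_iff_ne_top.2 fun htop => hnsurj fun x => ?_
    obtain ⟨a, ha, b, hb, e⟩ := Submodule.mem_sup.1 (htop ▸ Submodule.mem_top : x ∈ low (n := n) i ⊔ moved g (n - i))
    exact ⟨(⟨a, ha⟩, ⟨b, hb⟩), e⟩
  obtain ⟨φ, hφ0, hφ⟩ := Submodule.exists_le_ker_of_lt_top _ hlt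
  have hφl : ∀ x ∈ low (n := n) i, φ x = 0 := fun x hx => hφ (Submodule.mem_sup_left hx)
  have hφm : ∀ x ∈ moved g (n - i), φ x = 0 := fun x hx => hφ (Submodule.mem_sup_right hx)
  let A : Matrix (Fin n) (Fin n) (ZMod 2) := LinearMap.toMatrix' (LinearMap.id + φ.smulRight v)
  have hA : ∀ x, A *ᵥ x = x + φ x • v := fun x => by
    simp only [A, ← Matrix.toLin'_apply, Matrix.toLin'_toMatrix', LinearMap.add_apply, LinearMap.id_apply,
      LinearMap.smulRight_apply]
  have hsq : A * A = 1 := Matrix.ext_of_mulVec_single fun k => by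
    rw [← mulVec_mulVec, one_mulVec, hA, hA, map_add, map_smul, hφl v hv, smul_zero, add_zero, add_assoc,
      ← add_smul, CharTwo.add_self_eq_zero, zero_smul, add_zero]
  have hdet : A.det = 1 := by
    have h2 := congrArg Matrix.det hsq
    rw [det_mul, det_one] at h2
    revert h2
    generalize A.det = a
    revert a
    decide
  let u : SL := ⟨A, hdet⟩
  have hu : ∀ x, M u *ᵥ x = x + φ x • v := hA
  have hlow : u ∈ flagStab n := fun j x hx => by
    rw [hu]
    by_cases hji : j ≤ i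
    · rw [hφl x (fun k hk => hx k (by omega)), zero_smul, add_zero]
      exact hx
    · exact add_mem hx ((low j).smul_mem _ (fun k hk => hv k (by omega)))
  have hmov : g⁻¹ * u * g ∈ flagStab n := fun j x hx => by
    have hmem : M u *ᵥ (M g *ᵥ x) ∈ moved g j := by
      rw [hu]
      by_cases hji : j ≤ n - i
      · rw [hφm _ (mem_moved.2 ⟨x, fun k hk => hx k (by omega), rfl⟩), zero_smul, add_zero]
        exact mem_moved.2 ⟨x, hx, rfl⟩
      · obtain ⟨w, hw, hwv⟩ := mem_moved.1 hv'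
        exact add_mem (mem_moved.2 ⟨x, hx, rfl⟩)
          ((moved g j).smul_mem _ (mem_moved.2 ⟨w, fun k hk => hw k (by omega), hwv⟩))
    obtain ⟨y, hy, hye⟩ := mem_moved.1 hmem
    have e : M (g⁻¹ * u * g) *ᵥ x = y := by
      refine mulVec_cancel g ?_
      rw [hye, mulVec_mulVec, mulVec_mulVec, ← Matrix.SpecialLinearGroup.coe_mul, ← Matrix.SpecialLinearGroup.coe_mul]
      simp [mul_assoc]
    rw [e]
    exact hy
  have hu1 := h u hlow hmov
  refine hφ0 (LinearMap.ext fun x => ?_)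
  have hx := hu x
  rw [hu1, Matrix.SpecialLinearGroup.coe_one, one_mulVec, eq_comm, add_eq_left, smul_eq_zero] at hx
  exact hx.resolve_right hne

/-- Adapted bases of opposite flags. -/
theorem exists_adapted {g : SL} (h : ∀ A ∈ flagStab n, g⁻¹ * A * g ∈ flagStab n → A = 1) :
    ∃ B ∈ flagStab n, ∀ j ≤ n, ∀ y ∈ high (n := n) (n - j), M (g⁻¹ * B) *ᵥ y ∈ low j := by
  have hcol : ∀ i : Fin n, ∃ b : V, b ∈ moved g (n - i.val) ∧ b i = 1 ∧ b ∈ low (i.val + 1) := by
    intro i
    let σ : low (n := n) i.val × moved g (n - i.val) → V := fun x => x.1.1 + x.2.1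
    have hinj : Function.Injective σ := fun x y e => by
      have e' : x.1.1 - y.1.1 = y.2.1 - x.2.1 :=
        sub_eq_sub_iff_add_eq_add.2 (show x.1.1 + x.2.1 = y.2.1 + y.1.1 by rw [add_comm y.2.1]; exact e)
      have h0 := disjoint_of_trivial h i.isLt.le _ (sub_mem x.1.2 y.1.2) (e' ▸ sub_mem y.2.2 x.2.2)
      have h1 : x.1.1 = y.1.1 := sub_eq_zero.1 h0
      have h2 : x.2.1 = y.2.1 := add_left_cancel (a := x.1.1) (by rw [show x.1.1 + x.2.1 = y.1.1 + y.2.1 from e, h1])
      exact Prod.ext (Subtype.ext h1) (Subtype.ext h2)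
    obtain ⟨⟨a, b⟩, hab⟩ := (hinj.bijective_of_nat_card_le (by
      rw [Nat.card_prod, card_low i.isLt.le, card_moved g (by omega), ← pow_add, Nat.card_eq_fintype_card,
        Fintype.card_fun, ZMod.card, Fintype.card_fin, Nat.add_sub_cancel' i.isLt.le])).2 (Pi.single i 1)
    have hb : b.1 = Pi.single i 1 - a.1 := eq_sub_of_add_eq' hab
    refine ⟨b.1, b.2, ?_, fun k hk => ?_⟩
    · rw [hb, Pi.sub_apply, Pi.single_eq_same, a.2 i le_rfl, sub_zero]
    · rw [hb, Pi.sub_apply, Pi.single_eq_of_ne (show k ≠ i from Fin.ne_of_val_ne (by omega)), a.2 k (by omega), sub_zero]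
  choose b hb hbi hbl using hcol
  let B : Matrix (Fin n) (Fin n) (ZMod 2) := Matrix.of fun k i => b i k
  have hupper : ∀ k i : Fin n, i.val < k.val → B k i = 0 := fun k i hki => hbl i k (by omega)
  have hdet : B.det = 1 := by
    rw [Matrix.det_of_isUpperTriangular (fun k i hki => hupper k i hki)]
    exact Finset.prod_eq_one fun i _ => hbi i
  obtain ⟨Bs, hBs⟩ : ∃ Bs : SL, M Bs = B := ⟨⟨B, hdet⟩, rfl⟩
  refine ⟨Bs, fun j v hv k hk => ?_, fun j hj y hy => ?_⟩
  · rw [hBs]
    show ∑ i : Fin n, B k i * v i = 0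
    refine Finset.sum_eq_zero fun i _ => ?_
    by_cases hi : j ≤ i.val
    · rw [hv i hi, mul_zero]
    · show B k i * v i = 0
      rw [hupper k i (by omega), zero_mul]
  · have hmem : M Bs *ᵥ y ∈ moved g j := by
      rw [hBs]
      rw [show B *ᵥ y = (∑ i : Fin n, y i • b i : Fin n → ZMod 2) by ext k; simp [mulVec, dotProduct, B, Finset.sum_apply, mul_comm]]
      refine (moved g j).sum_mem fun i _ => ?_
      by_cases hi : i.val < n - j
      · rw [hy i hi, zero_smul]; exact (moved g j).zero_mem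
      · obtain ⟨w, hw, hwb⟩ := mem_moved.1 (hb i)
        exact (moved g j).smul_mem _ (mem_moved.2 ⟨w, fun k hk => hw k (by omega), hwb⟩)
    obtain ⟨w, hw, hwe⟩ := mem_moved.1 hmem
    rw [show M (g⁻¹ * Bs) *ᵥ y = w from mulVec_cancel g (by
      rw [hwe, mulVec_mulVec, ← Matrix.SpecialLinearGroup.coe_mul, mul_inv_cancel_left])]
    exact hw

/-- The flags opposite to the standard one form one orbit. -/
theorem one_orbit {g g' : SL} (h : ∀ A ∈ flagStab n, g⁻¹ * A * g ∈ flagStab n → A = 1)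
    (h' : ∀ A ∈ flagStab n, g'⁻¹ * A * g' ∈ flagStab n → A = 1) :
    ∃ u ∈ flagStab n, g'⁻¹ * u * g ∈ flagStab n := by
  obtain ⟨B, hB, hk⟩ := exists_adapted h
  obtain ⟨B', hB', hk'⟩ := exists_adapted h'
  refine ⟨B' * B⁻¹, mul_mem hB' (inv_mem hB), fun j v hv => ?_⟩
  by_cases hj : j ≤ n
  swap
  · exact fun k hk => absurd k.isLt (by omega)
  have hinj : Function.Injective fun y : high (n := n) (n - j) => (⟨_, hk j hj y.1 y.2⟩ : low (n := n) j) :=
    fun a b e => Subtype.ext (mulVec_cancel _ (congrArg Subtype.val e))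
  obtain ⟨⟨y, hy⟩, e⟩ := (hinj.bijective_of_nat_card_le (by
    rw [card_low hj, card_high (by omega), show n - (n - j) = j by omega])).2 ⟨v, hv⟩
  have e' : M (g⁻¹ * B) *ᵥ y = v := congrArg Subtype.val e
  rw [← e', mulVec_mulVec, ← Matrix.SpecialLinearGroup.coe_mul,
    show g'⁻¹ * (B' * B⁻¹) * g * (g⁻¹ * B) = g'⁻¹ * B' by group]
  exact hk' j hj y hy

end Cfsg.Agent.H37.Flags
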