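import Cfsg.Agent.H37.FourSetGroups

/-!
# A permutation group with quasisimple `F*` and two disjoint Klein four groups has a three-cycle
-/

set_option autoImplicit false

namespace Cfsg.Agent.H37.FourSet

open Equiv Cfsg.Agent.H63.AltSec
open Cfsg.Agent.H51
open scoped symmDiff

variable {α : Type*} [Fintype α] [DecidableEq α] {H : Subgroup (Perm α)}

theorem card_symmDiff_add {β : Type*} [DecidableEq β] (S T : Finset β) :
    (S ∆ T).card + 2 * (S ∩ T).card = S.card + T.card := by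
  have h1 := Finset.card_sdiff_add_card_inter S T
  have h2 := Finset.card_sdiff_add_card_inter T S
  rw [Finset.inter_comm T S] at h2
  rw [show S ∆ T = S \ T ∪ T \ S from rfl,
    Finset.card_union_of_disjoint disjoint_sdiff_sdiff]
  omega

theorem map_eq_self_of_support_subset {σ : Perm α} {T : Finset α} (h : σ.support ⊆ T) :
    T.map σ.toEmbedding = T := by
  refine Finset.eq_of_subset_of_card_le ?_ (by rw [Finset.card_map])
  intro a ha
  obtain ⟨b, hb, rfl⟩ := Finset.mem_map.1 ha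
  by_cases hb' : b ∈ σ.support
  · exact h (Perm.apply_mem_support.2 hb')
  · simp [Perm.notMem_support.1 hb', hb]

/-- A double transposition pairing a given pair with the other one. -/
theorem Full.exists_pair_swap {T : Finset α} (hT : Full H T) {P : Finset α} (hPT : P ⊆ T)
    (hP : P.card = 2) :
    ∃ σ ∈ H, σ.support ⊆ T ∧ (∀ a ∈ P, σ a ∈ P ∧ σ a ≠ a) ∧
      ∀ a ∈ T, a ∉ P → σ a ∉ P ∧ σ a ∈ T ∧ σ a ≠ a := by
  obtain ⟨x, y, hxy, rfl⟩ := Finset.card_eq_two.1 hP
  obtain ⟨c, e, hT', hxc, hxe, hyc, hye, hce⟩ :=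
    exists_other_two hT.1 (hPT (by simp)) (hPT (by simp)) hxy
  refine ⟨dswap x y c e, hT.dswap_mem hT'.ge hxy hxc hxe hyc hye hce,
    (support_dswap_subset _ _ _ _).trans hT'.ge, fun a ha => ?_, fun a ha haP => ?_⟩
  · simp only [Finset.mem_insert, Finset.mem_singleton] at ha
    rcases ha with rfl | rfl
    · rw [dswap_fst hxc hxe]; simp [hxy.symm]
    · rw [dswap_snd hyc hye]; simp [hxy]
  · rw [hT'] at ha
    simp only [Finset.mem_insert, Finset.mem_singleton] at ha haP ⊢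
    push Not at haP
    rcases ha with rfl | rfl | rfl | rfl
    · exact absurd rfl haP.1
    · exact absurd rfl haP.2
    · rw [dswap_thd hxe hye, hT']; simp [hxe.symm, hye.symm, hce.symm]
    · rw [dswap_fth hxc hyc, hT']; simp [hxc.symm, hyc.symm, hce]

/-- Klein four groups on four-sets meeting in one or three points give a three-cycle. -/
theorem exists_threeCycle_of_inter {T U : Finset α} (hT : Full H T) (hU : Full H U)
    (h : (T ∩ U).card = 1 ∨ (T ∩ U).card = 3) : ∃ ρ : Perm α, ρ.IsThreeCycle ∧ ρ ∈ H := by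
  have key : ∀ x y p b c : α, x ≠ y → x ≠ p → x ≠ b → x ≠ c → y ≠ p → y ≠ b → y ≠ c → p ≠ b →
      p ≠ c → b ≠ c → dswap x p b c * dswap y p b c = swap p x * swap p y := by
    intro x y p b c _ _ hxb hxc hyp hyb hyc hpb hpc hbc
    have h1 : dswap y p b c = swap b c * swap y p :=
      ((Perm.disjoint_swap_swap (by simp [*])).commute).eq
    rw [h1]
    show swap x p * swap b c * (swap b c * swap y p) = _
    rw [mul_assoc, ← mul_assoc (swap b c), swap_mul_self, one_mul, swap_comm x p, swap_comm y p]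
  rcases h with h | h
  · obtain ⟨p, hp⟩ := Finset.card_eq_one.1 h
    have hpT : p ∈ T := (Finset.mem_inter.1 (hp ▸ Finset.mem_singleton_self p)).1
    have hpU : p ∈ U := (Finset.mem_inter.1 (hp ▸ Finset.mem_singleton_self p)).2
    obtain ⟨x, hx, hxp⟩ := Finset.exists_mem_ne (show 1 < T.card by rw [hT.1]; norm_num) p
    obtain ⟨y, hy, hyp⟩ := Finset.exists_mem_ne (show 1 < U.card by rw [hU.1]; norm_num) p
    obtain ⟨b, c, hT', hxb, hxc, hpb, hpc, hbc⟩ := exists_other_two hT.1 hx hpT hxp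
    obtain ⟨q, r, hU', hyq, hyr, hpq, hpr, hqr⟩ := exists_other_two hU.1 hy hpU hyp
    have hout : ∀ z ∈ T, z ∈ U → z = p := fun z h1 h2 =>
      Finset.mem_singleton.1 (hp ▸ Finset.mem_inter.2 ⟨h1, h2⟩)
    have hxy : x ≠ y := fun e => hxp (hout x hx (e ▸ hy))
    have hyb : y ≠ b := fun e => hyp (hout y (e ▸ hT'.symm ▸ by simp) hy)
    have hyc : y ≠ c := fun e => hyp (hout y (e ▸ hT'.symm ▸ by simp) hy)
    have hd : dswap x p b c ∈ H := hT.dswap_mem hT'.ge hxp hxb hxc hpb hpc hbc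
    have he : dswap y p q r ∈ H := hU.dswap_mem hU'.ge hyp hyq hyr hpq hpr hqr
    have hnU : ∀ z ∈ T, z ≠ p → z ∉ U := fun z hz hzp hzU => hzp (hout z hz hzU)
    have hfix : ∀ z ∈ T, z ≠ p → dswap y p q r z = z := fun z hz hzp => Perm.notMem_support.1
      fun h' => hnU z hz hzp (((support_dswap_subset y p q r).trans hU'.ge) h')
    have h3 := H.mul_mem hd (H.mul_mem (H.mul_mem he hd) (H.inv_mem he))
    rw [conj_dswap, hfix x hx hxp, dswap_snd hpq hpr, hfix b (hT'.symm ▸ by simp) hpb.symm,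
      hfix c (hT'.symm ▸ by simp) hpc.symm] at h3
    rw [← dswap_swap' x p b c, ← dswap_swap' x y b c,
      key p y x b c hyp.symm hxp.symm hpb hpc hxy.symm hyb hyc hxb hxc hbc] at h3
    exact ⟨_, Perm.isThreeCycle_swap_mul_swap_same hxp hxy (Ne.symm hyp), h3⟩
  · obtain ⟨p, b, c, hpb, hpc, hbc, h'⟩ := Finset.card_eq_three.1 h
    have hT3 : (T \ U).card = 1 := by
      have := Finset.card_sdiff_add_card_inter T U
      rw [h, hT.1] at this; omega
    have hU3 : (U \ T).card = 1 := by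
      have := Finset.card_sdiff_add_card_inter U T
      rw [Finset.inter_comm, h, hU.1] at this; omega
    obtain ⟨x, hx⟩ := Finset.card_eq_one.1 hT3
    obtain ⟨y, hy⟩ := Finset.card_eq_one.1 hU3
    obtain ⟨hxT, hxU⟩ := Finset.mem_sdiff.1 (show x ∈ T \ U by rw [hx]; simp)
    obtain ⟨hyU, hyT⟩ := Finset.mem_sdiff.1 (show y ∈ U \ T by rw [hy]; simp)
    obtain ⟨hpT, hpU⟩ := Finset.mem_inter.1 (show p ∈ T ∩ U by rw [h']; simp)
    obtain ⟨hbT, hbU⟩ := Finset.mem_inter.1 (show b ∈ T ∩ U by rw [h']; simp)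
    obtain ⟨hcT, hcU⟩ := Finset.mem_inter.1 (show c ∈ T ∩ U by rw [h']; simp)
    have hxp : x ≠ p := fun e => hxU (e ▸ hpU)
    have hxb : x ≠ b := fun e => hxU (e ▸ hbU)
    have hxc : x ≠ c := fun e => hxU (e ▸ hcU)
    have hyp : y ≠ p := fun e => hyT (e ▸ hpT)
    have hyb : y ≠ b := fun e => hyT (e ▸ hbT)
    have hyc : y ≠ c := fun e => hyT (e ▸ hcT)
    have hxy : x ≠ y := fun e => hyT (e ▸ hxT)
    have h1 := hT.dswap_mem (a := x) (b := p) (c := b) (e := c)
      (by simp [Finset.insert_subset_iff, *]) hxp hxb hxc hpb hpc hbc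
    have h2 := hU.dswap_mem (a := y) (b := p) (c := b) (e := c)
      (by simp [Finset.insert_subset_iff, *]) hyp hyb hyc hpb hpc hbc
    have h3 := H.mul_mem h1 h2
    rw [key x y p b c hxy hxp hxb hxc hyp hyb hyc hpb hpc hbc] at h3
    exact ⟨_, Perm.isThreeCycle_swap_mul_swap_same hxp.symm hyp.symm hxy, h3⟩

theorem Full.symmDiff {T U : Finset α} (hT : Full H T) (hU : Full H U)
    (h : (T ∩ U).card = 2) : Full H (T ∆ U) := by
  obtain ⟨a, b, hab, h'⟩ := Finset.card_eq_two.1 h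
  obtain ⟨haT, haU⟩ := Finset.mem_inter.1 (show a ∈ T ∩ U by rw [h']; simp)
  obtain ⟨hbT, hbU⟩ := Finset.mem_inter.1 (show b ∈ T ∩ U by rw [h']; simp)
  obtain ⟨c, e, hT', hac, hae, hbc, hbe, hce⟩ := exists_other_two hT.1 haT hbT hab
  have hσ : dswap a c b e ∈ H := hT.dswap_mem (by rw [hT']; intro z; simp; tauto)
    hac hab hae hbc.symm hce hbe
  have key : U.map (dswap a c b e).toEmbedding = T ∆ U := by
    have hcU : c ∉ U := fun hc => by
      have : c ∈ T ∩ U := Finset.mem_inter.2 ⟨hT'.symm ▸ by simp, hc⟩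
      rw [h'] at this; simp [hac.symm, hbc.symm] at this
    have heU : e ∉ U := fun hc => by
      have : e ∈ T ∩ U := Finset.mem_inter.2 ⟨hT'.symm ▸ by simp, hc⟩
      rw [h'] at this; simp [hae.symm, hbe.symm] at this
    refine Finset.eq_of_subset_of_card_le ?_ ?_
    · intro z hz
      obtain ⟨w, hw, rfl⟩ := Finset.mem_map.1 hz
      rw [Finset.mem_symmDiff]
      by_cases h1 : w = a
      · subst h1
        left
        simp only [Equiv.coe_toEmbedding, dswap_fst hab hae]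
        exact ⟨hT'.symm ▸ by simp, hcU⟩
      by_cases h2 : w = b
      · subst h2
        left
        simp only [Equiv.coe_toEmbedding, dswap_thd hae hce]
        exact ⟨hT'.symm ▸ by simp, heU⟩
      have hwT : w ∉ T := fun hwT => by
        have : w ∈ T ∩ U := Finset.mem_inter.2 ⟨hwT, hw⟩
        rw [h'] at this; simp [h1, h2] at this
      right
      rw [hT'] at hwT
      simp only [Finset.mem_insert, Finset.mem_singleton, not_or] at hwT
      simp only [Equiv.coe_toEmbedding, dswap_of_ne hwT.1 hwT.2.2.1 hwT.2.1 hwT.2.2.2]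
      exact ⟨hw, by rw [hT']; simp [hwT.1, hwT.2.1, hwT.2.2.1, hwT.2.2.2]⟩
    · have := card_symmDiff_add T U
      rw [Finset.card_map, hU.1]
      rw [hT.1, hU.1, h] at this
      omega
  exact key ▸ hU.map hσ

variable {O : Finset α}

/-- The members of the family. -/
def Mem (H : Subgroup (Perm α)) (O : Finset α) (T : Finset α) : Prop := T ⊆ O ∧ Full H T

theorem Mem.map (hO : IsOrbit H O) {T : Finset α} (hT : Mem H O T) {g : Perm α} (hg : g ∈ H) :
    Mem H O (T.map g.toEmbedding) := by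
  refine ⟨fun a ha => ?_, hT.2.map hg⟩
  obtain ⟨b, hb, rfl⟩ := Finset.mem_map.1 ha
  exact (hO.apply_mem g hg b).2 (hT.1 hb)

/-- Pairs any two of which form a member. -/
def IsPairing (H : Subgroup (Perm α)) (O : Finset α) (C : Finset (Finset α)) : Prop :=
  (∀ P ∈ C, P.card = 2 ∧ P ⊆ O) ∧ (C : Set (Finset α)).PairwiseDisjoint id ∧
    ∀ P ∈ C, ∀ Q ∈ C, P ≠ Q → Mem H O (P ∪ Q)

/-- Two disjoint members, and all members meet evenly. -/
structure Cfg (H : Subgroup (Perm α)) (O : Finset α) : Prop where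
  hF : Cfsg.IsQuasisimple ↥(Cfsg.generalizedFittingSubgroup ↥H)
  hO : IsOrbit H O
  ex : ∃ T, Mem H O T ∧ ∃ U, Mem H O U ∧ Disjoint T U
  meet : ∀ T U, Mem H O T → Mem H O U →
    (T ∩ U).card = 0 ∨ (T ∩ U).card = 2 ∨ (T ∩ U).card = 4

/-- A pairing of the greatest size. -/
structure MaxPairing (H : Subgroup (Perm α)) (O : Finset α) (C : Finset (Finset α)) : Prop where
  card_two : ∀ P ∈ C, P.card = 2 ∧ P ⊆ O
  disj : ∀ P ∈ C, ∀ Q ∈ C, P ≠ Q → Disjoint P Q
  mem : ∀ P ∈ C, ∀ Q ∈ C, P ≠ Q → Mem H O (P ∪ Q)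
  max : ∀ C', IsPairing H O C' → C'.card ≤ C.card
  three : 3 ≤ C.card

namespace Cfg

theorem sd (c : Cfg H O) {T U : Finset α} (hT : Mem H O T) (hU : Mem H O U)
    (h : (T ∩ U).card = 2) : Mem H O (T ∆ U) := by
  refine ⟨fun a ha => ?_, hT.2.symmDiff hU.2 h⟩
  have _ := c.hO
  rcases Finset.mem_symmDiff.1 ha with h | h
  exacts [hT.1 h.1, hU.1 h.1]

theorem eight_le (c : Cfg H O) : 8 ≤ O.card := by
  obtain ⟨T₁, hT₁, T₂, hT₂, hdisj⟩ := c.ex
  obtain ⟨a₁, ha₁⟩ : T₁.Nonempty := Finset.card_pos.1 (by rw [hT₁.2.1]; norm_num)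
  have := Finset.card_le_card (Finset.union_subset hT₁.1 hT₂.1)
  rw [Finset.card_union_of_disjoint hdisj, hT₁.2.1, hT₂.2.1] at this
  omega

theorem sep (c : Cfg H O) : ∀ a ∈ O, ∀ b ∈ O, a ≠ b → ∃ U, Mem H O U ∧ ¬ (a ∈ U ↔ b ∈ U) := by
  obtain ⟨T₁, hT₁, T₂, hT₂, hdisj⟩ := c.ex
  obtain ⟨a₁, ha₁⟩ : T₁.Nonempty := Finset.card_pos.1 (by rw [hT₁.2.1]; norm_num)
  obtain ⟨a₂, ha₂⟩ : T₂.Nonempty := Finset.card_pos.1 (by rw [hT₂.2.1]; norm_num)
  intro a ha b hb hab
  by_contra hno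
  push Not at hno
  refine hab (eq_of_rel c.hF c.hO hT₁.2 hT₁.1 (fun x y => ∀ U, Mem H O U → (x ∈ U ↔ y ∈ U))
    (fun _ _ _ => Iff.rfl) (fun _ _ h U hU => (h U hU).symm)
    (fun _ _ _ h h' U hU => (h U hU).trans (h' U hU)) ?_ ?_ a ha b hb hno)
  · intro g hg x _ y _ hxy U hU
    have := hxy _ (hU.map c.hO (H.inv_mem hg))
    rw [Finset.mem_map_equiv, Finset.mem_map_equiv] at this
    simpa [Perm.inv_def] using this
  · exact ⟨a₁, hT₁.1 ha₁, a₂, hT₂.1 ha₂, fun h =>
      Finset.disjoint_left.1 hdisj ((h _ hT₁).1 ha₁) ha₂⟩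

theorem conn (c : Cfg H O) : ∀ Y : Finset α, Y ⊆ O → Y.Nonempty → Y ≠ O →
    ∃ U, Mem H O U ∧ ¬ U ⊆ Y ∧ ¬ Disjoint U Y := by
  obtain ⟨T₁, hT₁, T₂, hT₂, hdisj⟩ := c.ex
  obtain ⟨a₁, ha₁⟩ : T₁.Nonempty := Finset.card_pos.1 (by rw [hT₁.2.1]; norm_num)
  intro Y hYO hY hne
  by_contra hno
  push Not at hno
  let cl : Finset α → Prop := fun Z => ∀ U, Mem H O U → U ⊆ Z ∨ Disjoint U Z
  have hY' : cl Y := fun U hU => or_iff_not_imp_left.2 (hno U hU)
  obtain ⟨y, hy⟩ := hY
  obtain ⟨z, hzO, hzY⟩ := Finset.exists_of_ssubset (lt_of_le_of_ne hYO hne)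
  obtain ⟨t, ht, htne⟩ :=
    Finset.exists_mem_ne (show 1 < T₁.card by rw [hT₁.2.1]; norm_num) a₁
  refine htne (eq_of_rel c.hF c.hO hT₁.2 hT₁.1 (fun a b => ∀ Z, cl Z → (a ∈ Z ↔ b ∈ Z))
    (fun _ _ _ => Iff.rfl) (fun _ _ h Z hZ => (h Z hZ).symm)
    (fun _ _ _ h h' Z hZ => (h Z hZ).trans (h' Z hZ)) ?_
    ⟨y, hYO hy, z, hzO, fun h => hzY ((h Y hY').1 hy)⟩ t (hT₁.1 ht) a₁ (hT₁.1 ha₁) ?_)
  · intro g hg a _ b _ hab Z hZ
    have hZ' : cl (Z.map (g⁻¹).toEmbedding) := by
      intro U hU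
      rcases hZ _ (hU.map c.hO hg) with h | h
      · left
        intro u hu
        rw [Finset.mem_map_equiv]
        have := h (Finset.mem_map_of_mem _ hu)
        simpa [Perm.inv_def] using this
      · right
        refine Finset.disjoint_left.2 fun u hu hu' => ?_
        rw [Finset.mem_map_equiv] at hu'
        refine Finset.disjoint_left.1 h (Finset.mem_map_of_mem _ hu) ?_
        simpa [Perm.inv_def] using hu'
    have := hab _ hZ'
    rw [Finset.mem_map_equiv, Finset.mem_map_equiv] at this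
    simpa [Perm.inv_def] using this
  · intro Z hZ
    rcases hZ T₁ hT₁ with h | h
    · exact iff_of_true (h ht) (h ha₁)
    · exact iff_of_false (Finset.disjoint_left.1 h ht) (Finset.disjoint_left.1 h ha₁)

theorem exists_pairing (c : Cfg H O) : ∃ C, IsPairing H O C ∧ C.card = 3 := by
  obtain ⟨T₁, hT₁, T₂, hT₂, hdisj⟩ := c.ex
  obtain ⟨a₁, ha₁⟩ : T₁.Nonempty := Finset.card_pos.1 (by rw [hT₁.2.1]; norm_num)
  have hO8 := c.eight_le
  obtain ⟨U, hU, hUT, hUd⟩ := c.conn T₁ hT₁.1 ⟨a₁, ha₁⟩ (fun h => by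
    rw [← h, hT₁.2.1] at hO8; omega)
  have hi : (T₁ ∩ U).card = 2 := by
    rcases c.meet _ _ hT₁ hU with h | h | h
    · exact absurd (Finset.disjoint_iff_inter_eq_empty.2 (Finset.inter_comm U T₁ ▸
        Finset.card_eq_zero.1 h)) hUd
    · exact h
    · exact absurd (fun u hu => (Finset.mem_inter.1 ((Finset.eq_of_subset_of_card_le (Finset.inter_subset_right : T₁ ∩ U ⊆ U)
        (by rw [h, hU.2.1])).symm ▸ hu : u ∈ T₁ ∩ U)).1) hUT
  have hA := hi
  have hB : (T₁ \ U).card = 2 := by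
    have := Finset.card_sdiff_add_card_inter T₁ U
    rw [hi, hT₁.2.1] at this; omega
  have hC : (U \ T₁).card = 2 := by
    have := Finset.card_sdiff_add_card_inter U T₁
    rw [Finset.inter_comm, hi, hU.2.1] at this; omega
  have e1 : T₁ ∩ U ∪ T₁ \ U = T₁ := by ext z; simp; tauto
  have e2 : T₁ ∩ U ∪ U \ T₁ = U := by ext z; simp; tauto
  have e3 : T₁ \ U ∪ U \ T₁ = T₁ ∆ U := rfl
  have d1 : Disjoint (T₁ ∩ U) (T₁ \ U) := Finset.disjoint_left.2 fun z h1 h2 =>
    (Finset.mem_sdiff.1 h2).2 (Finset.mem_inter.1 h1).2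
  have d2 : Disjoint (T₁ ∩ U) (U \ T₁) := Finset.disjoint_left.2 fun z h1 h2 =>
    (Finset.mem_sdiff.1 h2).2 (Finset.mem_inter.1 h1).1
  have d3 : Disjoint (T₁ \ U) (U \ T₁) := disjoint_sdiff_sdiff
  have ne : ∀ A B : Finset α, A.card = 2 → Disjoint A B → A ≠ B := fun A B hA hd h => by
    rw [h, disjoint_self] at hd
    rw [h, hd] at hA
    simp at hA
  refine ⟨{T₁ ∩ U, T₁ \ U, U \ T₁}, ⟨?_, ?_, ?_⟩,
    Finset.card_eq_three.2 ⟨_, _, _, ne _ _ hA d1, ne _ _ hA d2, ne _ _ hB d3, rfl⟩⟩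
  · intro P hP
    simp only [Finset.mem_insert, Finset.mem_singleton] at hP
    rcases hP with rfl | rfl | rfl
    · exact ⟨hA, fun z hz => hT₁.1 (Finset.mem_inter.1 hz).1⟩
    · exact ⟨hB, fun z hz => hT₁.1 (Finset.mem_sdiff.1 hz).1⟩
    · exact ⟨hC, fun z hz => hU.1 (Finset.mem_sdiff.1 hz).1⟩
  · intro P hP Q hQ hne
    simp only [Finset.coe_insert, Finset.coe_singleton, Set.mem_insert_iff,
      Set.mem_singleton_iff] at hP hQ
    rcases hP with rfl | rfl | rfl <;> rcases hQ with rfl | rfl | rfl <;>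
      first
        | exact absurd rfl hne
        | exact d1 | exact d1.symm | exact d2 | exact d2.symm | exact d3 | exact d3.symm
  · intro P hP Q hQ hne
    simp only [Finset.mem_insert, Finset.mem_singleton] at hP hQ
    rcases hP with rfl | rfl | rfl <;> rcases hQ with rfl | rfl | rfl <;>
      first
        | exact absurd rfl hne
        | (rw [e1]; exact hT₁) | (rw [Finset.union_comm, e1]; exact hT₁)
        | (rw [e2]; exact hU) | (rw [Finset.union_comm, e2]; exact hU)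
        | (rw [e3]; exact c.sd hT₁ hU hi)
        | (rw [Finset.union_comm, e3]; exact c.sd hT₁ hU hi)

theorem exists_maxPairing (c : Cfg H O) : ∃ C, MaxPairing H O C := by
  classical
  obtain ⟨C₀, hC₀, h0⟩ := c.exists_pairing
  obtain ⟨C, hC, hCmax⟩ := (Finset.univ.filter (IsPairing H O)).exists_max_image Finset.card
    ⟨C₀, Finset.mem_filter.2 ⟨Finset.mem_univ _, hC₀⟩⟩
  replace hC : IsPairing H O C := (Finset.mem_filter.1 hC).2
  have hmax : ∀ C', IsPairing H O C' → C'.card ≤ C.card := fun C' h =>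
    hCmax C' (Finset.mem_filter.2 ⟨Finset.mem_univ _, h⟩)
  exact ⟨C, hC.1, fun P hP Q hQ hne => hC.2.1 hP hQ hne, hC.2.2, hmax, h0 ▸ hmax _ hC₀⟩

theorem sum_inter (c : Cfg H O) {C : Finset (Finset α)} (hC : MaxPairing H O C) (U : Finset α) :
    (U ∩ C.biUnion id).card = ∑ P ∈ C, (U ∩ P).card := by
  have _ := c.hO
  rw [Finset.inter_biUnion]
  refine Finset.card_biUnion fun P hP Q hQ hne => ?_
  exact Finset.disjoint_of_subset_left Finset.inter_subset_right
    (Finset.disjoint_of_subset_right Finset.inter_subset_right (hC.disj P hP Q hQ hne))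

theorem card_points (c : Cfg H O) {C : Finset (Finset α)} (hC : MaxPairing H O C) : (C.biUnion id).card = 2 * C.card := by
  have h := c.sum_inter hC (C.biUnion id)
  rw [Finset.inter_self] at h
  rw [h, Finset.sum_const_nat (m := 2) (fun P hP => ?_), mul_comm]
  rw [Finset.inter_eq_right.2 (show P ⊆ C.biUnion id from Finset.subset_biUnion_of_mem id hP)]
  exact (hC.card_two P hP).1

theorem points_subset (c : Cfg H O) {C : Finset (Finset α)} (hC : MaxPairing H O C) : C.biUnion id ⊆ O := fun z hz => by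
  have _ := c.hO
  obtain ⟨P, hP, hzP⟩ := Finset.mem_biUnion.1 hz
  exact (hC.card_two P hP).2 hzP

theorem le_two (c : Cfg H O) {C : Finset (Finset α)} (hC : MaxPairing H O C) (U : Finset α) : ∀ P ∈ C, (U ∩ P).card ≤ 2 := fun P hP => by
  have _ := c.hO
  exact (hC.card_two P hP).1 ▸ Finset.card_le_card Finset.inter_subset_right

theorem parity (c : Cfg H O) {C : Finset (Finset α)} (hC : MaxPairing H O C) {U : Finset α} (hU : Mem H O U) {P Q : Finset α} (hP : P ∈ C) (hQ : Q ∈ C) :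
    (U ∩ P).card % 2 = (U ∩ Q).card % 2 := by
  rcases eq_or_ne P Q with rfl | hne
  · rfl
  have h := c.meet _ _ hU (hC.mem P hP Q hQ hne)
  rw [Finset.inter_union_distrib_left, Finset.card_union_of_disjoint
    (Finset.disjoint_of_subset_left Finset.inter_subset_right
      (Finset.disjoint_of_subset_right Finset.inter_subset_right (hC.disj P hP Q hQ hne)))] at h
  have := c.le_two hC U P hP
  have := c.le_two hC U Q hQ
  omega

theorem all_one (c : Cfg H O) {C : Finset (Finset α)} (hC : MaxPairing H O C) {U : Finset α} (hU : Mem H O U) {P : Finset α} (hP : P ∈ C)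
    (h : (U ∩ P).card = 1) : ∀ Q ∈ C, (U ∩ Q).card = 1 := by
  intro Q hQ
  have := c.parity hC hU hP hQ
  have := c.le_two hC U Q hQ
  omega

theorem key (c : Cfg H O) {C : Finset (Finset α)} (hC : MaxPairing H O C) : ∀ U, Mem H O U → (U ∩ C.biUnion id).Nonempty → ¬ U ⊆ C.biUnion id →
    ∀ P ∈ C, (U ∩ P).card = 1 := by
  intro U hU hne hnsub P₁ hP₁
  by_contra h1
  have heven : ∀ P ∈ C, (U ∩ P).card = 0 ∨ (U ∩ P).card = 2 := by
    intro P hP
    have := c.le_two hC U P hP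
    have := c.parity hC hU hP₁ hP
    have := c.le_two hC U P₁ hP₁
    omega
  obtain ⟨z, hz⟩ := hne
  obtain ⟨hzU, hzW⟩ := Finset.mem_inter.1 hz
  obtain ⟨P, hP, hzP⟩ := Finset.mem_biUnion.1 hzW
  have hPU : P ⊆ U := by
    have h2 : (U ∩ P).card = 2 := (heven P hP).resolve_left
      (Finset.card_ne_zero.2 ⟨z, Finset.mem_inter.2 ⟨hzU, hzP⟩⟩)
    intro w hw
    rw [← Finset.eq_of_subset_of_card_le (Finset.inter_subset_right (s₁ := U) (s₂ := P))
      (by rw [h2, (hC.card_two P hP).1])] at hw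
    exact (Finset.mem_inter.1 hw).1
  have hother : ∀ Q ∈ C, Q ≠ P → Disjoint U Q := by
    intro Q hQ hne
    rcases heven Q hQ with h | h
    · exact Finset.disjoint_iff_inter_eq_empty.2 (Finset.card_eq_zero.1 h)
    exfalso
    have h2 := hC.disj P hP Q hQ hne.symm
    have hsub : P ∪ U ∩ Q ⊆ U := Finset.union_subset hPU Finset.inter_subset_left
    have heq := Finset.eq_of_subset_of_card_le hsub (by
      rw [Finset.card_union_of_disjoint
        (Finset.disjoint_of_subset_right Finset.inter_subset_right h2), (hC.card_two P hP).1, h, hU.2.1])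
    refine hnsub fun w hw => ?_
    rw [← heq] at hw
    rcases Finset.mem_union.1 hw with hw | hw
    · exact Finset.mem_biUnion.2 ⟨P, hP, hw⟩
    · exact Finset.mem_biUnion.2 ⟨Q, hQ, (Finset.mem_inter.1 hw).2⟩
  set Q := U \ P with hQdef
  have hQ2 : Q.card = 2 := by
    rw [hQdef, Finset.card_sdiff_of_subset hPU, hU.2.1, (hC.card_two P hP).1]
  have hQd : ∀ P' ∈ C, Disjoint Q P' := by
    intro P' hP'
    rcases eq_or_ne P' P with rfl | hne
    · exact Finset.sdiff_disjoint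
    · exact Finset.disjoint_of_subset_left Finset.sdiff_subset (hother P' hP' hne)
  have hQC : Q ∉ C := fun h => by
    have := hQd Q h
    rw [disjoint_self] at this
    rw [this] at hQ2
    simp at hQ2
  have hQmem : ∀ P' ∈ C, Mem H O (Q ∪ P') := by
    intro P' hP'
    rcases eq_or_ne P' P with rfl | hne
    · rwa [hQdef, Finset.sdiff_union_of_subset hPU]
    · have hd := hother P' hP' hne
      have hi : (U ∩ (P ∪ P')).card = 2 := by
        rw [Finset.inter_union_distrib_left, Finset.disjoint_iff_inter_eq_empty.1 hd,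
          Finset.union_empty, Finset.inter_eq_right.2 hPU, (hC.card_two P hP).1]
      have := c.sd hU (hC.mem P hP P' hP' hne.symm) hi
      have heq : U ∆ (P ∪ P') = Q ∪ P' := by
        ext w
        have h1 : w ∈ P → w ∈ U := fun h => hPU h
        have h2 : w ∈ P' → w ∉ U := fun h h' => Finset.disjoint_left.1 hd h' h
        simp only [hQdef, Finset.mem_symmDiff, Finset.mem_union, Finset.mem_sdiff]
        tauto
      rwa [heq] at this
  have hins : IsPairing H O (insert Q C) := by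
    refine ⟨?_, ?_, ?_⟩
    · intro R hR
      rcases Finset.mem_insert.1 hR with rfl | hR
      · exact ⟨hQ2, Finset.sdiff_subset.trans hU.1⟩
      · exact hC.card_two R hR
    · rw [Finset.coe_insert]
      exact Set.PairwiseDisjoint.insert (fun R hR S hS hne => hC.disj R hR S hS hne)
          fun R hR _ => hQd R hR
    · intro R hR S hS hne
      rcases Finset.mem_insert.1 hR with rfl | hR <;> rcases Finset.mem_insert.1 hS with rfl | hS
      · exact absurd rfl hne
      · exact hQmem S hS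
      · rw [Finset.union_comm]; exact hQmem R hR
      · exact hC.mem R hR S hS hne
  have := hC.max _ hins
  rw [Finset.card_insert_of_notMem hQC] at this
  omega

theorem count (c : Cfg H O) {C : Finset (Finset α)} (hC : MaxPairing H O C) {U : Finset α} (h : ∀ P ∈ C, (U ∩ P).card = 1) :
    (U ∩ C.biUnion id).card = C.card := by
  rw [c.sum_inter hC, Finset.sum_congr rfl h]
  simp

theorem exists_transversal (c : Cfg H O) {C : Finset (Finset α)} (hC : MaxPairing H O C) : ∃ T, Mem H O T ∧ ∀ P ∈ C, (T ∩ P).card = 1 := by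
  have hC3 := hC.three
  obtain ⟨P₀, hP₀⟩ : C.Nonempty := Finset.card_pos.1 (by omega)
  obtain ⟨a, b, hab, hPab⟩ := Finset.card_eq_two.1 (hC.card_two P₀ hP₀).1
  have hsub := (hC.card_two P₀ hP₀).2
  rw [hPab] at hsub
  obtain ⟨U, hU, hne⟩ := c.sep a (hsub (by simp)) b (hsub (by simp)) hab
  refine ⟨U, hU, fun P hP => c.all_one hC hU hP₀ ?_ P hP⟩
  rw [hPab]
  by_cases ha : a ∈ U <;> by_cases hb : b ∈ U <;> simp [ha, hb] at hne ⊢

theorem card_le_four (c : Cfg H O) {C : Finset (Finset α)} (hC : MaxPairing H O C) : C.card ≤ 4 := by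
  obtain ⟨T, hT, hTtr⟩ := c.exists_transversal hC
  rw [← c.count hC hTtr, ← hT.2.1]
  exact Finset.card_le_card Finset.inter_subset_left

theorem swap_pairs (c : Cfg H O) {C : Finset (Finset α)} (hC : MaxPairing H O C) (hk : C.card = 4) : ∃ ρ ∈ H, ρ.support ⊆ O ∧ (∃ a ∈ O, ρ a ≠ a) ∧
    ∀ U, Mem H O U → (∀ a ∈ O, ρ a ∈ U ↔ a ∈ U) ∨ (∀ a ∈ O, ρ a ∈ U ↔ a ∉ U) := by
  have hO8 := c.eight_le
  set W := C.biUnion id with hWdef
  have hWO : W ⊆ O := c.points_subset hC
  have hin : ∀ U, Mem H O U → (U ∩ W).Nonempty → U ⊆ W := by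
    intro U hU hne
    by_contra hns
    have h := c.count hC (c.key hC U hU hne hns)
    refine hns fun w hw => ?_
    rw [← Finset.eq_of_subset_of_card_le (Finset.inter_subset_left (s₁ := U) (s₂ := W))
      (by rw [h, hk, hU.2.1])] at hw
    exact (Finset.mem_inter.1 hw).2
  have hWeq : W = O := by
    by_contra hne
    obtain ⟨U, hU, h1, h2⟩ := c.conn W hWO (Finset.card_pos.1 (by rw [hWdef, c.card_points hC]; omega)) hne
    refine h1 (hin U hU ?_)
    obtain ⟨z, hz1, hz2⟩ := Finset.not_disjoint_iff.1 h2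
    exact ⟨z, Finset.mem_inter.2 ⟨hz1, hz2⟩⟩
  obtain ⟨P, Q, R, S, hPQ, hPR, hPS, hQR, hQS, hRS, hCeq⟩ := Finset.card_eq_four.1 hk
  have hP : P ∈ C := by rw [hCeq]; simp
  have hQ : Q ∈ C := by rw [hCeq]; simp
  have hR : R ∈ C := by rw [hCeq]; simp
  have hS : S ∈ C := by rw [hCeq]; simp
  obtain ⟨σ, hσ, hσT, hσP, hσQ⟩ :=
    (hC.mem P hP Q hQ hPQ).2.exists_pair_swap Finset.subset_union_left (hC.card_two P hP).1
  obtain ⟨τ, hτ, hτT, hτR, hτS⟩ :=
    (hC.mem R hR S hS hRS).2.exists_pair_swap Finset.subset_union_left (hC.card_two R hR).1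
  have hd : Disjoint (P ∪ Q) (R ∪ S) := by
    simp only [Finset.disjoint_union_left, Finset.disjoint_union_right]
    refine ⟨⟨?_, ?_⟩, ?_, ?_⟩ <;>
      first
        | exact hC.disj P hP R hR hPR | exact hC.disj P hP S hS hPS
        | exact hC.disj Q hQ R hR hQR | exact hC.disj Q hQ S hS hQS
  have hfσ : ∀ a, a ∈ R ∪ S → σ a = a := fun a ha =>
    Perm.notMem_support.1 fun h => Finset.disjoint_left.1 hd (hσT h) ha
  have hfτ : ∀ a, a ∈ P ∪ Q → τ a = a := fun a ha =>
    Perm.notMem_support.1 fun h => Finset.disjoint_left.1 hd ha (hτT h)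
  set ρ := σ * τ with hρdef
  have hρ : ∀ a ∈ O, ∀ E ∈ C, a ∈ E → ρ a ∈ E ∧ ρ a ≠ a := by
    intro a _ E hE haE
    rw [hCeq] at hE
    simp only [Finset.mem_insert, Finset.mem_singleton] at hE
    rcases hE with hE | hE | hE | hE <;> rw [hE] at haE ⊢
    · rw [hρdef, Perm.mul_apply, hfτ a (Finset.mem_union_left _ haE)]
      exact hσP a haE
    · rw [hρdef, Perm.mul_apply, hfτ a (Finset.mem_union_right _ haE)]
      have h := hσQ a (Finset.mem_union_right _ haE)
        (fun h => Finset.disjoint_left.1 (hC.disj P hP Q hQ hPQ) h haE)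
      exact ⟨(Finset.mem_union.1 h.2.1).resolve_left h.1, h.2.2⟩
    · rw [hρdef, Perm.mul_apply]
      have h := hτR a haE
      rw [hfσ _ (Finset.mem_union_left _ h.1)]
      exact h
    · rw [hρdef, Perm.mul_apply]
      have h := hτS a (Finset.mem_union_right _ haE)
        (fun h => Finset.disjoint_left.1 (hC.disj R hR S hS hRS) h haE)
      rw [hfσ _ h.2.1]
      exact ⟨(Finset.mem_union.1 h.2.1).resolve_left h.1, h.2.2⟩
  have hcover : ∀ a ∈ O, ∃ E ∈ C, a ∈ E := fun a ha => Finset.mem_biUnion.1 (show a ∈ W from hWeq.symm ▸ ha)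
  have hρsupp : ρ.support ⊆ O := (Perm.support_mul_le _ _).trans (sup_le
    (hσT.trans (hC.mem P hP Q hQ hPQ).1) (hτT.trans (hC.mem R hR S hS hRS).1))
  have hρU : ∀ U, Mem H O U →
      (∀ a ∈ O, ρ a ∈ U ↔ a ∈ U) ∨ (∀ a ∈ O, ρ a ∈ U ↔ a ∉ U) := by
    intro U hU
    have hpair : ∀ a ∈ O, ∀ E ∈ C, a ∈ E → E = {a, ρ a} := by
      intro a ha E hE haE
      refine (Finset.eq_of_subset_of_card_le ?_ ?_).symm
      · simp [Finset.insert_subset_iff, haE, (hρ a ha E hE haE).1]
      · rw [(hC.card_two E hE).1, Finset.card_pair (hρ a ha E hE haE).2.symm]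
    by_cases h1 : ∃ E ∈ C, (U ∩ E).card = 1
    · obtain ⟨E₁, hE₁, h1⟩ := h1
      refine Or.inr fun a ha => ?_
      obtain ⟨E, hE, haE⟩ := hcover a ha
      have h2 := c.all_one hC hU hE₁ h1 E hE
      rw [hpair a ha E hE haE] at h2
      have hne := (hρ a ha E hE haE).2.symm
      by_cases p : a ∈ U <;> by_cases q : ρ a ∈ U <;> simp [p, q, hne] at h2 ⊢
    · push Not at h1
      refine Or.inl fun a ha => ?_
      obtain ⟨E, hE, haE⟩ := hcover a ha
      have h2 := h1 E hE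
      rw [hpair a ha E hE haE] at h2
      have hne := (hρ a ha E hE haE).2.symm
      by_cases p : a ∈ U <;> by_cases q : ρ a ∈ U <;> simp [p, q, hne] at h2 ⊢
  obtain ⟨a, ha⟩ : O.Nonempty := Finset.card_pos.1 (by omega)
  obtain ⟨E, hE, haE⟩ := hcover a ha
  exact ⟨ρ, H.mul_mem hσ hτ, hρsupp, ⟨a, ha, (hρ a ha E hE haE).2⟩, hρU⟩

/-- The elements preserving or complementing every member. -/
def parallel (hO : IsOrbit H O) : Subgroup ↥H :=
    { carrier := {h | (h : Perm α).support ⊆ O ∧ ∀ U, Mem H O U →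
        (∀ a ∈ O, (h : Perm α) a ∈ U ↔ a ∈ U) ∨ (∀ a ∈ O, (h : Perm α) a ∈ U ↔ a ∉ U)}
      one_mem' := ⟨by simp, fun U _ => Or.inl fun a _ => Iff.rfl⟩
      mul_mem' := fun {u v} hu hv => ⟨(Perm.support_mul_le _ _).trans (sup_le hu.1 hv.1),
        fun U hU => by
          rcases hu.2 U hU with h | h <;> rcases hv.2 U hU with h' | h'
          · exact Or.inl fun a ha => (h _ ((hO.apply_mem v v.2 a).2 ha)).trans (h' a ha)
          · exact Or.inr fun a ha => (h _ ((hO.apply_mem v v.2 a).2 ha)).trans (h' a ha)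
          · exact Or.inr fun a ha =>
              (h _ ((hO.apply_mem v v.2 a).2 ha)).trans (not_congr (h' a ha))
          · exact Or.inl fun a ha => (h _ ((hO.apply_mem v v.2 a).2 ha)).trans
              ((not_congr (h' a ha)).trans not_not)⟩
      inv_mem' := fun {u} hu => by
        refine ⟨?_, fun U hU => ?_⟩
        · show (((u : Perm α))⁻¹).support ⊆ O
          rw [Perm.support_inv]; exact hu.1
        have hf : ∀ a, (u : Perm α) ((u : Perm α)⁻¹ a) = a := fun a =>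
          (u : Perm α).apply_symm_apply a
        rcases hu.2 U hU with h | h
        · refine Or.inl fun a ha => ?_
          have := h _ ((hO.apply_mem _ (H.inv_mem u.2) a).2 ha)
          rw [hf] at this
          exact this.symm
        · refine Or.inr fun a ha => ?_
          have := h _ ((hO.apply_mem _ (H.inv_mem u.2) a).2 ha)
          rw [hf] at this
          show (u : Perm α)⁻¹ a ∈ U ↔ a ∉ U
          tauto }

theorem no_parallel (c : Cfg H O) {ρ : Perm α} (hρH : ρ ∈ H) (hρsupp : ρ.support ⊆ O)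
    (hρne : ∃ a ∈ O, ρ a ≠ a)
    (hρU : ∀ U, Mem H O U → (∀ a ∈ O, ρ a ∈ U ↔ a ∈ U) ∨ (∀ a ∈ O, ρ a ∈ U ↔ a ∉ U)) : False := by
  have hF := c.hF
  have hO := c.hO
  obtain ⟨T₁, hT₁, T₂, hT₂, hdisj⟩ := c.ex
  obtain ⟨a₁, ha₁⟩ : T₁.Nonempty := Finset.card_pos.1 (by rw [hT₁.2.1]; norm_num)
  obtain ⟨N, hNdef⟩ : ∃ N : Subgroup ↥H, N = parallel hO := ⟨_, rfl⟩
  have hN : N.Normal := by
    subst hNdef
    refine ⟨fun u hu g => ?_⟩
    refine ⟨?_, fun U hU => ?_⟩
    · show ((g : Perm α) * (u : Perm α) * (g : Perm α)⁻¹).support ⊆ O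
      rw [Perm.support_conj]
      intro b hb
      obtain ⟨c, hc, rfl⟩ := Finset.mem_map.1 hb
      exact (hO.apply_mem g g.2 c).2 (hu.1 hc)
    have hmem : ∀ x, x ∈ U.map ((g : Perm α)⁻¹).toEmbedding ↔ (g : Perm α) x ∈ U := fun x => by
      rw [Finset.mem_map_equiv]; rfl
    have hg : ∀ a ∈ O, (g : Perm α)⁻¹ a ∈ O := fun a ha =>
      (hO.apply_mem _ (H.inv_mem g.2) a).2 ha
    have hback : ∀ a, (g : Perm α) ((g : Perm α)⁻¹ a) = a := fun a =>
      (g : Perm α).apply_symm_apply a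
    rcases hu.2 _ (hU.map hO (H.inv_mem g.2)) with h | h
    · refine Or.inl fun a ha => ?_
      have := h _ (hg a ha)
      rw [hmem, hmem, hback] at this
      exact this
    · refine Or.inr fun a ha => ?_
      have := h _ (hg a ha)
      rw [hmem, hmem, hback] at this
      exact this
  have hsq : ∀ h ∈ N, h * h = 1 := by
    subst hNdef
    intro h hh
    refine Subtype.ext (Equiv.ext fun a => ?_)
    show (h : Perm α) ((h : Perm α) a) = a
    by_cases ha : a ∈ O
    · by_contra hne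
      have hha := (hO.apply_mem h h.2 a).2 ha
      obtain ⟨U, hU, hsep'⟩ := c.sep _ ((hO.apply_mem h h.2 _).2 hha) a ha hne
      refine hsep' ?_
      rcases hh.2 U hU with h' | h'
      · exact (h' _ hha).trans (h' a ha)
      · exact (h' _ hha).trans ((not_congr (h' a ha)).trans not_not)
    · have : (h : Perm α) a = a := Perm.notMem_support.1 fun h' => ha (hh.1 h')
      rw [this, this]
  have hNcomm : ∀ x ∈ N, ∀ y ∈ N, x * y = y * x := by
    intro x hx y hy
    have hxy := hsq _ (mul_mem hx hy)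
    calc x * y = x * (x * y * (x * y)) * y := by rw [hxy]; group
      _ = (x * x) * (y * x) * (y * y) := by group
      _ = y * x := by rw [hsq x hx, hsq y hy]; group
  rcases le_or_commute hF N hN with hle | hcomm
  · exact quasisimple_not_isMulCommutative hF
      ⟨⟨fun x y => Subtype.ext (hNcomm _ (hle x.2) _ (hle y.2))⟩⟩
  obtain ⟨d, hd1, hdT⟩ := hT₁.2.exists_ne_one
  have hKO := support_le hF (fun k _ a => hO.apply_mem k k.2 a) hd1 hdT hT₁.2.1.le hT₁.1
  have hρN : (⟨ρ, hρH⟩ : ↥H) ∈ N := hNdef ▸ (⟨hρsupp, hρU⟩ : (⟨ρ, hρH⟩ : ↥H) ∈ parallel hO)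
  have htr : ∀ a ∈ O, ∀ b ∈ O, ∃ n ∈ N, (n : Perm α) a = b := by
    by_contra hnt
    push Not at hnt
    obtain ⟨a, ha, b, hb, hnab⟩ := hnt
    have h := eq_of_rel hF hO hT₁.2 hT₁.1 (fun x y => ∃ n ∈ N, (n : Perm α) x = y)
      (fun x => ⟨1, one_mem _, rfl⟩)
      (fun x y ⟨n, hn, e⟩ => ⟨n⁻¹, inv_mem hn, by
        subst e; exact (n : Perm α).symm_apply_apply x⟩)
      (fun x y z ⟨n, hn, e⟩ ⟨m, hm, e'⟩ => ⟨m * n, mul_mem hm hn, by subst e; exact e'⟩)
      (fun g hg x _ y _ ⟨n, hn, e⟩ => ⟨⟨g, hg⟩ * n * ⟨g, hg⟩⁻¹, hN.conj_mem _ hn _, by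
        subst e
        show g ((n : Perm α) (g⁻¹ (g x))) = g ((n : Perm α) x)
        rw [show g⁻¹ (g x) = x from g.symm_apply_apply x]⟩)
      ⟨a, ha, b, hb, fun ⟨n, hn, e⟩ => hnab n hn e⟩
    obtain ⟨z, hz, hzne⟩ := hρne
    exact hzne (h z hz _ ((hO.apply_mem _ hρH z).2 hz) ⟨_, hρN, rfl⟩).symm
  refine quasisimple_not_isMulCommutative hF
    ⟨⟨fun k l => Subtype.ext (Subtype.ext (Equiv.ext fun a => ?_))⟩⟩
  show ((k : ↥H) : Perm α) (((l : ↥H) : Perm α) a) = ((l : ↥H) : Perm α) (((k : ↥H) : Perm α) a)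
  by_cases ha : a ∈ O
  · obtain ⟨s, hs, hks⟩ := htr a ha _ ((hO.apply_mem _ (k : ↥H).2 a).2 ha)
    obtain ⟨t, ht, hlt⟩ := htr a ha _ ((hO.apply_mem _ (l : ↥H).2 a).2 ha)
    have e1 : ∀ x, ((k : ↥H) : Perm α) ((t : Perm α) x) =
        (t : Perm α) (((k : ↥H) : Perm α) x) := fun x =>
      congrArg (fun z : ↥H => (z : Perm α) x) (hcomm t ht k k.2).eq.symm
    have e2 : ∀ x, ((l : ↥H) : Perm α) ((s : Perm α) x) =
        (s : Perm α) (((l : ↥H) : Perm α) x) := fun x =>
      congrArg (fun z : ↥H => (z : Perm α) x) (hcomm s hs l l.2).eq.symm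
    rw [← hlt, e1, ← hks, e2, ← hlt]
    exact congrArg (fun z : ↥H => (z : Perm α) a) (hNcomm t ht s hs)
  · have f1 : ∀ m : ↥(Cfsg.generalizedFittingSubgroup ↥H), ((m : ↥H) : Perm α) a = a :=
      fun m => Perm.notMem_support.1 fun h => ha (hKO m m.2 h)
    rw [f1 l, f1 k, f1 l]

theorem no_three (c : Cfg H O) {C : Finset (Finset α)} (hC : MaxPairing H O C) (heq3 : C.card = 3) : False := by
  have hO8 := c.eight_le
  obtain ⟨T, hT, hTtr⟩ := c.exists_transversal hC
  obtain ⟨P₀, hP₀⟩ : C.Nonempty := Finset.card_pos.1 (by omega)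
  set W := C.biUnion id with hWdef
  have hWO : W ⊆ O := c.points_subset hC
  have hW : W.card = 2 * C.card := c.card_points hC
  have hT3 : (T ∩ W).card = 3 := (c.count hC hTtr).trans heq3
  have hTx : (T \ W).card = 1 := by
    have := Finset.card_sdiff_add_card_inter T W
    rw [hT3, hT.2.1] at this; omega
  obtain ⟨x, hx⟩ := Finset.card_eq_one.1 hTx
  obtain ⟨hxT, hxW⟩ := Finset.mem_sdiff.1 (show x ∈ T \ W by rw [hx]; simp)
  have hTsub : T ⊆ insert x W := fun w hw => by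
    by_cases hwW : w ∈ W
    · exact Finset.mem_insert_of_mem hwW
    · have : w ∈ T \ W := Finset.mem_sdiff.2 ⟨hw, hwW⟩
      rw [hx, Finset.mem_singleton] at this
      simp [this]
  obtain ⟨U, hU, hUY, hUd⟩ := c.conn (insert x W)
    (Finset.insert_subset (hT.1 hxT) hWO) ⟨x, Finset.mem_insert_self _ _⟩ (fun h => by
      rw [← h, Finset.card_insert_of_notMem hxW, hW] at hO8; omega)
  have hUW : (U ∩ W).Nonempty := by
    by_contra hne
    have hxU : x ∈ U := by
      obtain ⟨z, hz1, hz2⟩ := Finset.not_disjoint_iff.1 hUd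
      rcases Finset.mem_insert.1 hz2 with rfl | hz2
      · exact hz1
      · exact absurd ⟨z, Finset.mem_inter.2 ⟨hz1, hz2⟩⟩ hne
    have heq : U ∩ T = {x} := by
      ext w
      simp only [Finset.mem_inter, Finset.mem_singleton]
      refine ⟨fun ⟨h1, h2⟩ => ?_, fun h => h ▸ ⟨hxU, hxT⟩⟩
      exact (Finset.mem_insert.1 (hTsub h2)).resolve_right
        fun h => hne ⟨w, Finset.mem_inter.2 ⟨h1, h⟩⟩
    have := c.meet _ _ hU hT
    rw [heq, Finset.card_singleton] at this
    omega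
  have hUnW : ¬ U ⊆ W := fun h => hUY (h.trans (Finset.subset_insert _ _))
  have hUtr := c.key hC U hU hUW hUnW
  have hout : ∀ V : Finset α, Mem H O V → (∀ P ∈ C, (V ∩ P).card = 1) → ¬ V ⊆ insert x W →
      ∃ y, y ∉ insert x W ∧ V \ W = {y} := by
    intro V hV htr hnsub
    have h1 : (V \ W).card = 1 := by
      have := Finset.card_sdiff_add_card_inter V W
      rw [c.count hC htr, heq3, hV.2.1] at this; omega
    obtain ⟨y, hy⟩ := Finset.card_eq_one.1 h1
    refine ⟨y, fun hyY => hnsub fun w hw => ?_, hy⟩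
    by_cases hwW : w ∈ W
    · exact Finset.mem_insert_of_mem hwW
    · have : w ∈ V \ W := Finset.mem_sdiff.2 ⟨hw, hwW⟩
      rw [hy, Finset.mem_singleton] at this
      exact this ▸ hyY
  -- no member of this shape meets `T` in two points
  have hno : ∀ V : Finset α, Mem H O V → (∀ P ∈ C, (V ∩ P).card = 1) → ¬ V ⊆ insert x W →
      (V ∩ T).card ≠ 2 := by
    intro V hV htr hnsub h2
    obtain ⟨y, hyY, hy⟩ := hout V hV htr hnsub
    have hyV : y ∈ V := (Finset.mem_sdiff.1 (show y ∈ V \ W by rw [hy]; simp)).1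
    have hyT : y ∉ T := fun h => hyY (hTsub h)
    have hD := c.sd hV hT h2
    have hDnW : ¬ V ∆ T ⊆ W := fun h =>
      hyY (Finset.mem_insert_of_mem (h (Finset.mem_symmDiff.2 (Or.inl ⟨hyV, hyT⟩))))
    have hDW : (V ∆ T ∩ W).Nonempty := by
      by_contra hne
      have hsub : V ∆ T ⊆ {x, y} := by
        intro w hw
        have hwW : w ∉ W := fun h => hne ⟨w, Finset.mem_inter.2 ⟨hw, h⟩⟩
        rcases Finset.mem_symmDiff.1 hw with ⟨h1, -⟩ | ⟨h1, -⟩
        · have : w ∈ V \ W := Finset.mem_sdiff.2 ⟨h1, hwW⟩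
          rw [hy] at this
          simp [Finset.mem_singleton.1 this]
        · have : w ∈ T \ W := Finset.mem_sdiff.2 ⟨h1, hwW⟩
          rw [hx] at this
          simp [Finset.mem_singleton.1 this]
      have := (Finset.card_le_card hsub).trans Finset.card_le_two
      rw [hD.2.1] at this
      omega
    have h := c.key hC _ hD hDW hDnW P₀ hP₀
    have hsdeq : V ∆ T ∩ P₀ = (V ∩ P₀) ∆ (T ∩ P₀) := by
      ext w; simp only [Finset.mem_inter, Finset.mem_symmDiff]; tauto
    rw [hsdeq] at h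
    have := card_symmDiff_add (V ∩ P₀) (T ∩ P₀)
    rw [h, htr P₀ hP₀, hTtr P₀ hP₀] at this
    omega
  obtain ⟨y, hyY, hy⟩ := hout U hU hUtr hUY
  rcases c.meet _ _ hU hT with h0 | h2 | h4
  · obtain ⟨Q, hQ, hQne⟩ := Finset.exists_mem_ne (show 1 < C.card by omega) P₀
    have hPQ := hC.mem P₀ hP₀ Q hQ hQne.symm
    have hd := hC.disj _ hP₀ _ hQ hQne.symm
    have hcardPQ : ∀ V : Finset α, (∀ P ∈ C, (V ∩ P).card = 1) →
        (V ∩ (P₀ ∪ Q)).card = 2 := fun V htr => by
      rw [Finset.inter_union_distrib_left, Finset.card_union_of_disjoint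
        (Finset.disjoint_of_subset_left Finset.inter_subset_right
          (Finset.disjoint_of_subset_right Finset.inter_subset_right hd)), htr _ hP₀, htr _ hQ]
    set V := U ∆ (P₀ ∪ Q) with hV
    have hVmem : Mem H O V := c.sd hU hPQ (hcardPQ U hUtr)
    have hyV : y ∈ V := by
      rw [hV, Finset.mem_symmDiff]
      refine Or.inl ⟨(Finset.mem_sdiff.1 (show y ∈ U \ W by rw [hy]; simp)).1, fun h => hyY ?_⟩
      refine Finset.mem_insert_of_mem (Finset.mem_biUnion.2 ?_)
      rcases Finset.mem_union.1 h with h | h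
      exacts [⟨P₀, hP₀, h⟩, ⟨Q, hQ, h⟩]
    have hVnY : ¬ V ⊆ insert x W := fun h => hyY (h hyV)
    have h0' : ∀ w ∈ U, w ∉ T := fun w hw hwT =>
      Finset.notMem_empty w (Finset.card_eq_zero.1 h0 ▸ Finset.mem_inter.2 ⟨hw, hwT⟩)
    have hVT : V ∩ T = T ∩ (P₀ ∪ Q) := by
      ext w
      have := h0' w
      simp only [hV, Finset.mem_inter, Finset.mem_symmDiff, Finset.mem_union]
      tauto
    have hVW : (V ∩ W).Nonempty := by
      obtain ⟨w, hw⟩ : (T ∩ P₀).Nonempty := Finset.card_pos.1 (by rw [hTtr P₀ hP₀]; norm_num)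
      obtain ⟨hw1, hw2⟩ := Finset.mem_inter.1 hw
      have h' : w ∈ V ∩ T := by rw [hVT]; simp [hw1, hw2]
      exact ⟨w, Finset.mem_inter.2
        ⟨(Finset.mem_inter.1 h').1, Finset.mem_biUnion.2 ⟨P₀, hP₀, hw2⟩⟩⟩
    refine hno V hVmem (c.key hC V hVmem hVW fun h => hVnY (h.trans (Finset.subset_insert _ _)))
      hVnY ?_
    rw [hVT]
    exact hcardPQ T hTtr
  · exact hno U hU hUtr hUY h2
  · refine hUY fun w hw => hTsub ?_
    rw [← Finset.eq_of_subset_of_card_le (Finset.inter_subset_left (s₁ := U) (s₂ := T))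
      (by rw [h4, hU.2.1])] at hw
    exact (Finset.mem_inter.1 hw).2

end Cfg

/-- Two disjoint Klein four groups in one orbit give a three-cycle. -/
theorem exists_threeCycle (hF : Cfsg.IsQuasisimple ↥(Cfsg.generalizedFittingSubgroup ↥H))
    (hO : IsOrbit H O) {T₁ T₂ : Finset α} (hT₁ : Mem H O T₁) (hT₂ : Mem H O T₂)
    (hdisj : Disjoint T₁ T₂) : ∃ ρ : Perm α, ρ.IsThreeCycle ∧ ρ ∈ H := by
  by_contra hcon
  have c : Cfg H O := by
    refine ⟨hF, hO, ⟨T₁, hT₁, T₂, hT₂, hdisj⟩, fun T U hT hU => ?_⟩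
    have h4 : (T ∩ U).card ≤ 4 := hT.2.1 ▸ Finset.card_le_card Finset.inter_subset_left
    have h1 : (T ∩ U).card ≠ 1 := fun h => hcon (exists_threeCycle_of_inter hT.2 hU.2 (.inl h))
    have h3 : (T ∩ U).card ≠ 3 := fun h => hcon (exists_threeCycle_of_inter hT.2 hU.2 (.inr h))
    omega
  obtain ⟨C, hC⟩ := c.exists_maxPairing
  have h3 := hC.three
  have h4 := c.card_le_four hC
  rcases h3.lt_or_eq with hlt | heq
  · obtain ⟨ρ, hρ, h1, h2, h5⟩ := c.swap_pairs hC (by omega)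
    exact c.no_parallel hρ h1 h2 h5
  · exact c.no_three hC heq.symm

end Cfsg.Agent.H37.FourSet
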