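import Cfsg.Agent.H80.AltOverMain
import Cfsg.Agent.H63.AltSec.DoubleSwap

/-!
# Permutation groups with quasisimple `F*` containing Klein four groups on four-sets

`F*` of such a group moves points of one orbit only, on which the group is primitive.
-/

set_option autoImplicit false

namespace Cfsg.Agent.H37.FourSet

open Equiv Cfsg.Agent.H63.AltSec
open Cfsg.Agent.H51

variable {α : Type*} [Fintype α] [DecidableEq α]

/-- The Klein four group on the four-set `T` lies in `H`. -/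
def Full (H : Subgroup (Perm α)) (T : Finset α) : Prop :=
  T.card = 4 ∧ ∀ σ : Perm α, Perm.sign σ = 1 → σ.support ⊆ T → σ * σ = 1 → σ ∈ H

theorem Full.map {H : Subgroup (Perm α)} {T : Finset α} (hT : Full H T) {g : Perm α} (hg : g ∈ H) :
    Full H (T.map g.toEmbedding) := by
  refine ⟨by rw [Finset.card_map]; exact hT.1, fun σ hs hsupp hsq => ?_⟩
  have h : g⁻¹ * σ * g ∈ H := by
    refine hT.2 _ (by rw [map_mul, map_mul, map_inv, hs, mul_one, inv_mul_cancel]) ?_ ?_
    · intro a ha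
      rw [Perm.mem_support, Perm.mul_apply, Perm.mul_apply] at ha
      have h1 : σ (g a) ≠ g a := fun e => ha (by rw [e]; simp)
      obtain ⟨b, hb, hb'⟩ := Finset.mem_map.1 (hsupp (Perm.mem_support.2 h1))
      exact g.injective hb' ▸ hb
    · rw [show g⁻¹ * σ * g * (g⁻¹ * σ * g) = g⁻¹ * (σ * σ) * g by group, hsq]; group
  have := H.mul_mem (H.mul_mem hg h) (H.inv_mem hg)
  rwa [show g * (g⁻¹ * σ * g) * g⁻¹ = σ by group] at this

theorem exists_other_two {T : Finset α} (hT : T.card = 4) {a b : α} (ha : a ∈ T) (hb : b ∈ T)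
    (hab : a ≠ b) :
    ∃ c e : α, T = {a, b, c, e} ∧ a ≠ c ∧ a ≠ e ∧ b ≠ c ∧ b ≠ e ∧ c ≠ e := by
  have h2 : ((T.erase a).erase b).card = 2 := by
    rw [Finset.card_erase_of_mem (by simp [hb, hab.symm]), Finset.card_erase_of_mem ha, hT]
  obtain ⟨c, e, hce, heq⟩ := Finset.card_eq_two.1 h2
  have hT' : T = insert a (insert b ((T.erase a).erase b)) := by
    rw [Finset.insert_erase (by simp [hb, hab.symm]), Finset.insert_erase ha]
  have hc : c ∈ (T.erase a).erase b := by rw [heq]; simp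
  have he : e ∈ (T.erase a).erase b := by rw [heq]; simp
  simp only [Finset.mem_erase] at hc he
  exact ⟨c, e, by rw [hT', heq], Ne.symm hc.2.1, Ne.symm he.2.1, Ne.symm hc.1, Ne.symm he.1, hce⟩

theorem support_dswap_subset (a b c e : α) :
    (dswap a b c e).support ⊆ ({a, b, c, e} : Finset α) := by
  intro x hx
  by_contra h
  simp only [Finset.mem_insert, Finset.mem_singleton, not_or] at h
  exact Perm.mem_support.1 hx (dswap_of_ne h.1 h.2.1 h.2.2.1 h.2.2.2)

theorem dswap_ne_one {a b c e : α} (hab : a ≠ b) (hac : a ≠ c) (hae : a ≠ e) :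
    dswap a b c e ≠ 1 := by
  intro h
  have h1 := dswap_fst (b := b) hac hae
  rw [h] at h1
  exact hab h1

theorem Full.dswap_mem {H : Subgroup (Perm α)} {T : Finset α} (hT : Full H T) {a b c e : α}
    (hsub : ({a, b, c, e} : Finset α) ⊆ T) (hab : a ≠ b) (hac : a ≠ c) (hae : a ≠ e) (hbc : b ≠ c)
    (hbe : b ≠ e) (hce : c ≠ e) : dswap a b c e ∈ H :=
  hT.2 _ (sign_dswap hab hce) ((support_dswap_subset a b c e).trans hsub)
    (dswap_mul_self hac hae hbc hbe)

/-- Some double transposition of `T` in `H` swaps two given points of `T`. -/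
theorem Full.exists_swap {H : Subgroup (Perm α)} {T : Finset α} (hT : Full H T) {a b : α}
    (ha : a ∈ T) (hb : b ∈ T) (hab : a ≠ b) :
    ∃ σ ∈ H, σ.support ⊆ T ∧ σ * σ = 1 ∧ σ a = b ∧ σ b = a := by
  obtain ⟨c, e, hT', hac, hae, hbc, hbe, hce⟩ := exists_other_two hT.1 ha hb hab
  exact ⟨dswap a b c e, hT.dswap_mem hT'.ge hab hac hae hbc hbe hce,
    (support_dswap_subset a b c e).trans hT'.ge, dswap_mul_self hac hae hbc hbe,
    dswap_fst hac hae, dswap_snd hbc hbe⟩

theorem Full.exists_ne_one {H : Subgroup (Perm α)} {T : Finset α} (hT : Full H T) :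
    ∃ d : ↥H, d ≠ 1 ∧ (d : Perm α).support ⊆ T := by
  obtain ⟨a, ha, b, hb, hab⟩ := Finset.one_lt_card.1 (show 1 < T.card by rw [hT.1]; norm_num)
  obtain ⟨σ, hσ, hsupp, -, hσa, -⟩ := hT.exists_swap ha hb hab
  refine ⟨⟨σ, hσ⟩, fun h => hab ?_, hsupp⟩
  have h1 : σ = 1 := congrArg Subtype.val h
  rw [h1] at hσa
  exact hσa

variable {H : Subgroup (Perm α)}

theorem commute_of_commutator_central
    (hF : Cfsg.IsQuasisimple ↥(Cfsg.generalizedFittingSubgroup ↥H)) {n : ↥H}
    (hn : ∀ k ∈ Cfsg.generalizedFittingSubgroup ↥H, ∀ l ∈ Cfsg.generalizedFittingSubgroup ↥H, Commute (n * k * n⁻¹ * k⁻¹) l) : ∀ k ∈ Cfsg.generalizedFittingSubgroup ↥H, Commute n k := by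
  haveI := generalizedFittingSubgroup_normal ↥H
  haveI := hF.1
  have hmem : ∀ k : ↥(Cfsg.generalizedFittingSubgroup ↥H), n * (k : ↥H) * n⁻¹ * (k : ↥H)⁻¹ ∈ Cfsg.generalizedFittingSubgroup ↥H := fun k =>
    mul_mem ((inferInstance : (Cfsg.generalizedFittingSubgroup ↥H).Normal).conj_mem _ k.2 n) (inv_mem k.2)
  let f : ↥(Cfsg.generalizedFittingSubgroup ↥H) →* ↥(Subgroup.center ↥(Cfsg.generalizedFittingSubgroup ↥H)) := MonoidHom.mk'
    (fun k => ⟨⟨n * (k : ↥H) * n⁻¹ * (k : ↥H)⁻¹, hmem k⟩, Subgroup.mem_center_iff.2 fun l =>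
      Subtype.ext (hn k k.2 l l.2).symm.eq⟩)
    (fun k l => Subtype.ext (Subtype.ext (by
      show n * ((k : ↥H) * l) * n⁻¹ * ((k : ↥H) * l)⁻¹ =
        n * (k : ↥H) * n⁻¹ * (k : ↥H)⁻¹ * (n * (l : ↥H) * n⁻¹ * (l : ↥H)⁻¹)
      have h := hn l l.2 (k : ↥H)⁻¹ (inv_mem k.2)
      calc n * ((k : ↥H) * l) * n⁻¹ * ((k : ↥H) * l)⁻¹
          = n * (k : ↥H) * n⁻¹ * ((n * (l : ↥H) * n⁻¹ * (l : ↥H)⁻¹) * (k : ↥H)⁻¹) := by group
        _ = n * (k : ↥H) * n⁻¹ * ((k : ↥H)⁻¹ * (n * (l : ↥H) * n⁻¹ * (l : ↥H)⁻¹)) := by rw [h.eq]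
        _ = _ := by group)))
  intro k hk
  have hker : f.ker = ⊤ := by
    refine top_le_iff.1 ?_
    rw [← Group.isPerfect_def.1 hF.1]
    refine Subgroup.commutator_le.2 fun u _ v _ => ?_
    rw [MonoidHom.mem_ker, map_commutatorElement, commutatorElement_eq_one_iff_mul_comm]
    exact Subtype.ext (Subgroup.mem_center_iff.1 (f v).2 _)
  have h1 : f ⟨k, hk⟩ = 1 := MonoidHom.mem_ker.1 (hker ▸ Subgroup.mem_top _)
  have h2 : n * k * n⁻¹ * k⁻¹ = 1 :=
    congrArg (fun z : ↥(Subgroup.center ↥(Cfsg.generalizedFittingSubgroup ↥H)) => ((z : ↥(Cfsg.generalizedFittingSubgroup ↥H)) : ↥H)) h1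
  exact commutatorElement_eq_one_iff_mul_comm.1 h2

/-- A normal subgroup either contains `F*` or is centralized by it. -/
theorem le_or_commute (hF : Cfsg.IsQuasisimple ↥(Cfsg.generalizedFittingSubgroup ↥H))
    (N : Subgroup ↥H) (hN : N.Normal) : Cfsg.generalizedFittingSubgroup ↥H ≤ N ∨ ∀ n ∈ N, ∀ k ∈ Cfsg.generalizedFittingSubgroup ↥H, Commute n k := by
  haveI := generalizedFittingSubgroup_normal ↥H
  haveI := hN
  rcases quasisimple_eq_top_or_le_center_of_normal hF
    (N.subgroupOf (Cfsg.generalizedFittingSubgroup ↥H)) with h | h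
  · exact Or.inl (Subgroup.subgroupOf_eq_top.1 h)
  refine Or.inr fun n hn => commute_of_commutator_central hF fun k hk l hl => ?_
  have h1 : n * k * n⁻¹ * k⁻¹ ∈ N := by
    rw [show n * k * n⁻¹ * k⁻¹ = n * (k * n⁻¹ * k⁻¹) by group]
    exact mul_mem hn (hN.conj_mem _ (inv_mem hn) k)
  have h2 : n * k * n⁻¹ * k⁻¹ ∈ Cfsg.generalizedFittingSubgroup ↥H :=
    mul_mem ((inferInstance : (Cfsg.generalizedFittingSubgroup ↥H).Normal).conj_mem _ hk n) (inv_mem hk)
  exact (congrArg Subtype.val (Subgroup.mem_center_iff.1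
    (h (show (⟨_, h2⟩ : ↥(Cfsg.generalizedFittingSubgroup ↥H)) ∈ N.subgroupOf (Cfsg.generalizedFittingSubgroup ↥H) from h1)) ⟨l, hl⟩)).symm

theorem exists_not_commute (hF : Cfsg.IsQuasisimple ↥(Cfsg.generalizedFittingSubgroup ↥H))
    {d : ↥H} (hd : d ≠ 1) {T : Finset α} (hT : (d : Perm α).support ⊆ T) (hT4 : T.card ≤ 4) :
    ∃ k ∈ Cfsg.generalizedFittingSubgroup ↥H, ¬ Commute d k := by
  by_contra hcon
  push Not at hcon
  haveI := generalizedFittingSubgroup_normal ↥H
  have hc : d ∈ Subgroup.centralizer (Cfsg.generalizedFittingSubgroup ↥H : Set ↥H) :=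
    Subgroup.mem_centralizer_iff.2 fun k hk => (hcon k hk).symm.eq
  refine H80.AltOver.no_small hF d hd T (fun x hx => hT (Perm.mem_support.2 hx)) hT4 fun x y => ?_
  have h1 : x * d * x⁻¹ ∈ Subgroup.centralizer (Cfsg.generalizedFittingSubgroup ↥H : Set ↥H) :=
    (inferInstance : (Subgroup.centralizer (Cfsg.generalizedFittingSubgroup ↥H : Set ↥H)).Normal).conj_mem _ hc x
  have h2 : y * d * y⁻¹ ∈ Cfsg.generalizedFittingSubgroup ↥H :=
    (inferInstance : (Cfsg.generalizedFittingSubgroup ↥H).Normal).conj_mem _ (centralizer_generalizedFitting_le _ hc) y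
  exact (Subgroup.mem_centralizer_iff.1 h1 _ h2).symm

/-- An invariant set containing the support of a small element contains that of `F*`. -/
theorem support_le (hF : Cfsg.IsQuasisimple ↥(Cfsg.generalizedFittingSubgroup ↥H)) {X : Finset α}
    (hX : ∀ k ∈ Cfsg.generalizedFittingSubgroup ↥H, ∀ a, (k : Perm α) a ∈ X ↔ a ∈ X) {d : ↥H} (hd : d ≠ 1) {T : Finset α}
    (hT : (d : Perm α).support ⊆ T) (hT4 : T.card ≤ 4) (hTX : T ⊆ X) :
    ∀ k ∈ Cfsg.generalizedFittingSubgroup ↥H, (k : Perm α).support ⊆ X := by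
  haveI := generalizedFittingSubgroup_normal ↥H
  let L : Subgroup ↥(Cfsg.generalizedFittingSubgroup ↥H) :=
    { carrier := {k | ((k : ↥H) : Perm α).support ⊆ X}
      one_mem' := by simp
      mul_mem' := fun {u v} hu hv => by
        exact (Perm.support_mul_le _ _).trans (sup_le hu hv)
      inv_mem' := fun {u} hu => by
        show ((((u : ↥H) : Perm α))⁻¹).support ⊆ X
        rw [Perm.support_inv]; exact hu }
  have hLn : L.Normal := ⟨fun u hu g => by
    show (((g : ↥H) : Perm α) * ((u : ↥H) : Perm α) * (((g : ↥H) : Perm α))⁻¹).support ⊆ X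
    rw [Perm.support_conj]
    intro a ha
    obtain ⟨b, hb, rfl⟩ := Finset.mem_map.1 ha
    exact (hX g g.2 b).2 (hu hb)⟩
  haveI := hLn
  rcases quasisimple_eq_top_or_le_center_of_normal hF L with h | h
  · intro k hk
    exact show (⟨k, hk⟩ : ↥(Cfsg.generalizedFittingSubgroup ↥H)) ∈ L from h ▸ Subgroup.mem_top _
  exfalso
  obtain ⟨k, hk, hnc⟩ := exists_not_commute hF hd hT hT4
  refine hnc (commute_of_commutator_central hF (fun u hu l hl => ?_) k hk)
  have h2 : d * u * d⁻¹ * u⁻¹ ∈ Cfsg.generalizedFittingSubgroup ↥H :=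
    mul_mem ((inferInstance : (Cfsg.generalizedFittingSubgroup ↥H).Normal).conj_mem _ hu d) (inv_mem hu)
  have h3 : (⟨_, h2⟩ : ↥(Cfsg.generalizedFittingSubgroup ↥H)) ∈ L := by
    show ((d : Perm α) * (u : Perm α) * (d : Perm α)⁻¹ * (u : Perm α)⁻¹).support ⊆ X
    rw [show (d : Perm α) * (u : Perm α) * (d : Perm α)⁻¹ * (u : Perm α)⁻¹ =
      (d : Perm α) * ((u : Perm α) * (d : Perm α)⁻¹ * (u : Perm α)⁻¹) by group]
    refine (Perm.support_mul_le _ _).trans (sup_le (hT.trans hTX) ?_)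
    rw [Perm.support_conj, Perm.support_inv]
    intro a ha
    obtain ⟨b, hb, rfl⟩ := Finset.mem_map.1 ha
    exact (hX u hu b).2 (hTX (hT hb))
  exact (congrArg Subtype.val (Subgroup.mem_center_iff.1 (h h3) ⟨l, hl⟩)).symm

theorem not_commute_of_disjoint (hF : Cfsg.IsQuasisimple ↥(Cfsg.generalizedFittingSubgroup ↥H))
    {T : Finset α} (hT : Full H T) {X : Finset α} (hX : ∀ k ∈ Cfsg.generalizedFittingSubgroup ↥H, (k : Perm α).support ⊆ X) :
    ¬ Disjoint T X := by
  intro hd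
  obtain ⟨d, hd1, hdT⟩ := hT.exists_ne_one
  obtain ⟨k, hk, hnc⟩ := exists_not_commute hF hd1 hdT hT.1.le
  refine hnc (Subtype.ext ?_)
  exact (Perm.disjoint_iff_disjoint_support.2 (Finset.disjoint_of_subset_left hdT
    (Finset.disjoint_of_subset_right (hX k hk) hd))).commute.eq

/-- An orbit of `H`, as a finite set. -/
structure IsOrbit (H : Subgroup (Perm α)) (O : Finset α) : Prop where
  apply_mem : ∀ h ∈ H, ∀ a, h a ∈ O ↔ a ∈ O
  exists_apply : ∀ a ∈ O, ∀ b ∈ O, ∃ h ∈ H, h a = b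

/-- An invariant equivalence relation on the orbit of `F*` is trivial. -/
theorem eq_of_rel (hF : Cfsg.IsQuasisimple ↥(Cfsg.generalizedFittingSubgroup ↥H)) {O : Finset α}
    (hO : IsOrbit H O) {T : Finset α} (hT : Full H T) (hTO : T ⊆ O) (r : α → α → Prop)
    (hrefl : ∀ a, r a a) (hsymm : ∀ a b, r a b → r b a) (htrans : ∀ a b c, r a b → r b c → r a c)
    (hinv : ∀ h ∈ H, ∀ a ∈ O, ∀ b ∈ O, r a b → r (h a) (h b))
    (hnt : ∃ a ∈ O, ∃ b ∈ O, ¬ r a b) : ∀ a ∈ O, ∀ b ∈ O, r a b → a = b := by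
  classical
  haveI := generalizedFittingSubgroup_normal ↥H
  have hstep : ∀ h ∈ H, ∀ a ∈ O, ∀ b ∈ O, r (h a) (h b) → r a b := by
    intro h hh a ha b hb hr
    have := hinv h⁻¹ (H.inv_mem hh) _ ((hO.apply_mem h hh a).2 ha) _ ((hO.apply_mem h hh b).2 hb) hr
    simpa using this
  obtain ⟨d, hd1, hdT⟩ := hT.exists_ne_one
  have hKO : ∀ k ∈ Cfsg.generalizedFittingSubgroup ↥H, (k : Perm α).support ⊆ O :=
    support_le hF (fun k _ a => hO.apply_mem k k.2 a) hd1 hdT hT.1.le hTO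
  let N : Subgroup ↥H :=
    { carrier := {h | (h : Perm α).support ⊆ O ∧ ∀ a ∈ O, r a ((h : Perm α) a)}
      one_mem' := ⟨by simp, fun a _ => hrefl a⟩
      mul_mem' := fun {u v} hu hv => ⟨(Perm.support_mul_le _ _).trans (sup_le hu.1 hv.1),
        fun a ha => htrans _ _ _ (hv.2 a ha) (hu.2 _ ((hO.apply_mem v v.2 a).2 ha))⟩
      inv_mem' := fun {u} hu => by
        refine ⟨?_, fun a ha => ?_⟩
        · show (((u : Perm α))⁻¹).support ⊆ O
          rw [Perm.support_inv]; exact hu.1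
        · have h1 := hu.2 _ ((hO.apply_mem _ (H.inv_mem u.2) a).2 ha)
          rw [← Perm.mul_apply, mul_inv_cancel, Perm.one_apply] at h1
          exact hsymm _ _ h1 }
  have hN : N.Normal := ⟨fun u hu g => by
    refine ⟨?_, fun a ha => ?_⟩
    · show ((g : Perm α) * (u : Perm α) * (g : Perm α)⁻¹).support ⊆ O
      rw [Perm.support_conj]
      intro b hb
      obtain ⟨c, hc, rfl⟩ := Finset.mem_map.1 hb
      exact (hO.apply_mem g g.2 c).2 (hu.1 hc)
    · have ha' := (hO.apply_mem _ (H.inv_mem g.2) a).2 ha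
      have h1 := hinv g g.2 _ ha' _ ((hO.apply_mem u u.2 _).2 ha') (hu.2 _ ha')
      rw [← Perm.mul_apply, mul_inv_cancel, Perm.one_apply] at h1
      exact h1⟩
  have hKne : ∃ k ∈ Cfsg.generalizedFittingSubgroup ↥H, k ≠ 1 := by
    obtain ⟨k, hk, hnc⟩ := exists_not_commute hF hd1 hdT hT.1.le
    exact ⟨k, hk, fun h => hnc (h ▸ Commute.one_right d)⟩
  -- a double transposition in `N` puts `F*` in `N`
  have hKN : ∀ e : ↥H, e ∈ N → e ≠ 1 → (e : Perm α).support ⊆ T → Cfsg.generalizedFittingSubgroup ↥H ≤ N := by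
    intro e heN he1 heT
    rcases le_or_commute hF N hN with h | h
    · exact h
    · obtain ⟨k, hk, hnc⟩ := exists_not_commute hF he1 heT hT.1.le
      exact absurd (h e heN k hk) hnc
  by_contra hcon
  push Not at hcon
  obtain ⟨a₀, ha₀, b₀, hb₀, hr₀, hne₀⟩ := hcon
  have hpartner : ∀ a ∈ O, ∃ b ∈ O, b ≠ a ∧ r a b := by
    intro a ha
    obtain ⟨h, hh, rfl⟩ := hO.exists_apply a₀ ha₀ a ha
    exact ⟨h b₀, (hO.apply_mem h hh _).2 hb₀, h.injective.ne (Ne.symm hne₀),
      hinv h hh _ ha₀ _ hb₀ hr₀⟩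
  by_cases hbig : ∃ a ∈ O, ∃ x ∈ O, ∃ y ∈ O, x ≠ a ∧ y ≠ a ∧ x ≠ y ∧ r a x ∧ r a y
  · -- classes with at least three points
    obtain ⟨a₁, ha₁, x₁, hx₁, y₁, hy₁, n1, n2, n3, r1, r2⟩ := hbig
    have hmem : ∀ σ : ↥H, (σ : Perm α).support ⊆ T → σ ∈ N := by
      intro σ hσT
      refine ⟨hσT.trans hTO, fun a ha => ?_⟩
      by_contra hra
      obtain ⟨g, hg, rfl⟩ := hO.exists_apply a₁ ha₁ a ha
      set u := g a₁ with hu
      have hxO : g x₁ ∈ O := (hO.apply_mem g hg _).2 hx₁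
      have hyO : g y₁ ∈ O := (hO.apply_mem g hg _).2 hy₁
      have hcl : ∀ z ∈ O, r u z → ¬ r u ((σ : Perm α) z) := fun z hz hz' hcon =>
        hra (htrans _ _ _ hcon (hsymm _ _ (hinv σ σ.2 _ ha _ hz hz')))
      have hux : r u (g x₁) := hinv g hg _ ha₁ _ hx₁ r1
      have huy : r u (g y₁) := hinv g hg _ ha₁ _ hy₁ r2
      let C : Finset α := {u, g x₁, g y₁}
      have hC3 : C.card = 3 := Finset.card_eq_three.2 ⟨_, _, _, (g.injective.ne n1).symm,
        (g.injective.ne n2).symm, g.injective.ne n3, rfl⟩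
      have hC : ∀ z ∈ C, z ∈ O ∧ r u z := by
        intro z hz
        simp only [C, Finset.mem_insert, Finset.mem_singleton] at hz
        rcases hz with rfl | rfl | rfl
        exacts [⟨ha, hrefl _⟩, ⟨hxO, hux⟩, ⟨hyO, huy⟩]
      have hsub : C ∪ C.map (σ : Perm α).toEmbedding ⊆ (σ : Perm α).support := by
        intro z hz
        rcases Finset.mem_union.1 hz with hz | hz
        · exact Perm.mem_support.2 fun e =>
            hcl z (hC z hz).1 (hC z hz).2 (by rw [e]; exact (hC z hz).2)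
        · obtain ⟨w, hw, rfl⟩ := Finset.mem_map.1 hz
          refine Perm.apply_mem_support.2 (Perm.mem_support.2 fun e => ?_)
          exact hcl w (hC w hw).1 (hC w hw).2 (by rw [e]; exact (hC w hw).2)
      have hdisj : Disjoint C (C.map (σ : Perm α).toEmbedding) := by
        refine Finset.disjoint_right.2 fun z hz hzC => ?_
        obtain ⟨w, hw, rfl⟩ := Finset.mem_map.1 hz
        exact hcl w (hC w hw).1 (hC w hw).2 (hC _ hzC).2
      have h6 := Finset.card_le_card (hsub.trans hσT)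
      rw [Finset.card_union_of_disjoint hdisj, Finset.card_map, hC3, hT.1] at h6
      omega
    have hK : Cfsg.generalizedFittingSubgroup ↥H ≤ N := hKN d (hmem d hdT) hd1 hdT
    obtain ⟨t₀, ht₀⟩ : T.Nonempty := Finset.card_pos.1 (by rw [hT.1]; norm_num)
    have ht₀O := hTO ht₀
    let B : Finset α := O.filter (r t₀)
    have hTB : T ⊆ B := by
      intro t ht
      refine Finset.mem_filter.2 ⟨hTO ht, ?_⟩
      rcases eq_or_ne t₀ t with rfl | hne
      · exact hrefl _
      · obtain ⟨σ, hσ, hσT, -, hσt, -⟩ := hT.exists_swap ht₀ ht hne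
        have := (hmem ⟨σ, hσ⟩ hσT).2 t₀ ht₀O
        rwa [hσt] at this
    have hKB : ∀ k ∈ Cfsg.generalizedFittingSubgroup ↥H, (k : Perm α).support ⊆ B := by
      refine support_le hF (fun k hk a => ?_) hd1 hdT hT.1.le hTB
      simp only [B, Finset.mem_filter]
      constructor
      · rintro ⟨h1, h2⟩
        have ha := (hO.apply_mem k k.2 a).1 h1
        exact ⟨ha, htrans _ _ _ h2 (hsymm _ _ ((hK hk).2 a ha))⟩
      · rintro ⟨h1, h2⟩
        exact ⟨(hO.apply_mem k k.2 a).2 h1, htrans _ _ _ h2 ((hK hk).2 a h1)⟩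
    obtain ⟨b, hb, hrb⟩ : ∃ b ∈ O, ¬ r t₀ b := by
      obtain ⟨a, ha, b, hb, hab⟩ := hnt
      by_cases h : r t₀ a
      · exact ⟨b, hb, fun h' => hab (htrans _ _ _ (hsymm _ _ h) h')⟩
      · exact ⟨a, ha, h⟩
    obtain ⟨g, hg, hgb⟩ := hO.exists_apply t₀ ht₀O b hb
    obtain ⟨k, hk, hk1⟩ := hKne
    refine hk1 (Subtype.ext (Equiv.ext fun a => ?_))
    by_contra hka
    have ha := hKB k hk (Perm.mem_support.2 hka)
    simp only [B, Finset.mem_filter] at ha
    have h1 : g a ∈ B := hKB (⟨g, hg⟩ * k * ⟨g, hg⟩⁻¹)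
      ((inferInstance : (Cfsg.generalizedFittingSubgroup ↥H).Normal).conj_mem _ hk _) (by
        rw [Perm.mem_support]
        show g ((k : Perm α) (g⁻¹ (g a))) ≠ g a
        rw [show g⁻¹ (g a) = a from g.symm_apply_apply a]
        exact g.injective.ne hka)
    simp only [B, Finset.mem_filter] at h1
    refine hrb (htrans _ _ _ h1.2 (hsymm _ _ ?_))
    rw [← hgb]
    exact hinv g hg _ ht₀O _ ha.1 ha.2
  · -- classes of two points
    push Not at hbig
    have huniq : ∀ a ∈ O, ∀ x ∈ O, ∀ y ∈ O, x ≠ a → y ≠ a → r a x → r a y → x = y := by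
      intro a ha x hx y hy h1 h2 h3 h4
      by_contra hne
      exact hbig a ha x hx y hy h1 h2 hne h3 h4
    have hin : ∀ t ∈ T, ∃ t' ∈ T, t' ≠ t ∧ r t t' := by
      intro t ht
      obtain ⟨t', ht'O, hne, hr⟩ := hpartner t (hTO ht)
      refine ⟨t', ?_, hne, hr⟩
      by_contra ht'
      obtain ⟨s, hs, hst⟩ :=
        Finset.exists_mem_ne (show 1 < T.card by rw [hT.1]; norm_num) t
      obtain ⟨σ, hσ, hσT, -, hσt, -⟩ := hT.exists_swap ht hs hst.symm
      have hfix : σ t' = t' := Perm.notMem_support.1 fun h => ht' (hσT h)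
      have h1 := hinv σ hσ _ (hTO ht) _ ht'O hr
      rw [hfix, hσt] at h1
      exact hst (huniq t' ht'O s (hTO hs) t (hTO ht) (fun e => ht' (e ▸ hs))
        hne.symm (hsymm _ _ h1) (hsymm _ _ hr))
    obtain ⟨t, ht⟩ : T.Nonempty := Finset.card_pos.1 (by rw [hT.1]; norm_num)
    obtain ⟨t', ht', hne, hr⟩ := hin t ht
    obtain ⟨u, u', hT', htu, htu', ht'u, ht'u', huu'⟩ := exists_other_two hT.1 ht ht' hne.symm
    have huT : u ∈ T := hT'.symm ▸ by simp
    obtain ⟨w, hw, hwu, hrw⟩ := hin u huT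
    have hru : r u u' := by
      rw [hT'] at hw
      simp only [Finset.mem_insert, Finset.mem_singleton] at hw
      rcases hw with rfl | rfl | rfl | rfl
      · exact absurd (huniq _ (hTO ht) u (hTO huT) t' (hTO ht') htu.symm hne
          (hsymm _ _ hrw) hr) ht'u.symm
      · exact absurd (huniq _ (hTO ht') u (hTO huT) t (hTO ht) ht'u.symm hne.symm
          (hsymm _ _ hrw) (hsymm _ _ hr)) htu.symm
      · exact absurd rfl hwu
      · exact hrw
    let e : ↥H := ⟨dswap t t' u u', hT.dswap_mem hT'.ge hne.symm htu htu' ht'u ht'u' huu'⟩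
    have heT : (e : Perm α).support ⊆ T := (support_dswap_subset _ _ _ _).trans hT'.ge
    have heN : e ∈ N := by
      refine ⟨heT.trans hTO, fun a _ => ?_⟩
      show r a (dswap t t' u u' a)
      by_cases h1 : a = t
      · rw [h1, dswap_fst htu htu']; exact hr
      by_cases h2 : a = t'
      · rw [h2, dswap_snd ht'u ht'u']; exact hsymm _ _ hr
      by_cases h3 : a = u
      · rw [h3, dswap_thd htu' ht'u']; exact hru
      by_cases h4 : a = u'
      · rw [h4, dswap_fth htu ht'u]; exact hsymm _ _ hru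
      rw [dswap_of_ne h1 h2 h3 h4]; exact hrefl _
    have he1 : e ≠ 1 := fun h => dswap_ne_one hne.symm htu htu' (congrArg Subtype.val h)
    have hK : Cfsg.generalizedFittingSubgroup ↥H ≤ N := hKN e heN he1 heT
    have hsq : ∀ h ∈ N, h * h = 1 := by
      intro h hh
      refine Subtype.ext (Equiv.ext fun a => ?_)
      show (h : Perm α) ((h : Perm α) a) = a
      by_cases ha : a ∈ O
      · by_cases hfix : (h : Perm α) a = a
        · rw [hfix, hfix]
        · have hha := (hO.apply_mem h h.2 a).2 ha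
          exact huniq _ hha _ ((hO.apply_mem h h.2 _).2 hha) a ha
            ((h : Perm α).injective.ne hfix) (Ne.symm hfix) (hh.2 _ hha) (hsymm _ _ (hh.2 a ha))
      · have : (h : Perm α) a = a := Perm.notMem_support.1 fun h' => ha (hh.1 h')
        rw [this, this]
    refine quasisimple_not_isMulCommutative hF ⟨⟨fun x y => Subtype.ext ?_⟩⟩
    have hx := hsq _ (hK x.2)
    have hy := hsq _ (hK y.2)
    have hxy := hsq _ (mul_mem (hK x.2) (hK y.2))
    calc (x : ↥H) * y = (x : ↥H) * ((x : ↥H) * y * ((x : ↥H) * y)) * y := by rw [hxy]; group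
      _ = ((x : ↥H) * x) * ((y : ↥H) * x) * ((y : ↥H) * y) := by group
      _ = (y : ↥H) * x := by rw [hx, hy]; group

end Cfsg.Agent.H37.FourSet
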