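import Cfsg.Agent.H37.Kantor

/-! The statement of Kantor's theorem with the odd order theorem as a hypothesis. -/

namespace Cfsg.Agent.H37

universe u

/-- Kantor's theorem, given that groups of odd order are solvable. -/
theorem kantor_of_odd_order (hOOT : ∀ {Γ : Type u} [Group Γ] [Finite Γ], Odd (Nat.card Γ) → Group.IsSolvable Γ)
    {α : Type u} [Fintype α] [DecidableEq α] (G : Subgroup (Equiv.Perm α)) (hne : G ≠ ⊥)
    (h2 : MulAction.IsPretransitive G (Set.powersetCard α 2)) (hn2 : ¬ MulAction.IsMultiplyPretransitive G α 2) :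
    Odd (Nat.card G) ∧ ∃ (p f : ℕ) (_ : Fact p.Prime), p ≠ 2 ∧ Fintype.card α = p ^ f ∧ p ^ f % 4 = 3 ∧
      ∃ e : α ≃ GaloisField p f,
        (∀ g : G, e.symm.trans (((g : Equiv.Perm α)).trans e) ∈ Cfsg.semiaffineGroup (GaloisField p f)) ∧
        ∀ b : GaloisField p f, ∃ g : G, ∀ x : α, e ((g : Equiv.Perm α) x) = e x + b :=
  kantor_of_solvable G hne h2 hn2 (fun h => hOOT h)

end Cfsg.Agent.H37
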