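import Cfsg.Agent.S0948
import Cfsg.Agent.S4479
import Cfsg.Agent.H42.MaxIdeal
import Cfsg.Agent.H28.KleinFourSylow

/-!
# A self-centralizing Klein four Sylow 2-subgroup
-/

set_option autoImplicit false

namespace Cfsg.Agent.H37

open Subgroup

/-- A group with a Klein four Sylow 2-subgroup equal to the centralizer of one of its involutions,
without a normal 2-complement and without a normal elementary abelian subgroup of order two or
four, is isomorphic to the alternating group of degree five. -/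
theorem a5_of_self_centralizing_klein_sylow {G : Type*} [Group G] [Finite G] (x : G)
    (hx : orderOf x = 2) (P : Sylow 2 G) (hPC : (P : Subgroup G) = centralizer ({x} : Set G))
    (hP4 : Nat.card (P : Subgroup G) = 4) (hsq : ∀ c ∈ (P : Subgroup G), c ^ 2 = 1)
    (hnc : ¬ Cfsg.HasNormalPComplement 2 G)
    (hne : ∀ E : Subgroup G, E.Normal → Cfsg.IsElementaryAbelian 2 E →
      Nat.card ↥E ≠ 2 ∧ Nat.card ↥E ≠ 4) :
    Nonempty (G ≃* ↥(alternatingGroup (Fin 5))) := by
  classical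
  have : Fact (Nat.Prime 2) := ⟨Nat.prime_two⟩
  have hcomm : ∀ u ∈ (P : Subgroup G), ∀ v ∈ (P : Subgroup G), u * v = v * u := by
    intro u hu v hv
    have hi : ∀ w ∈ (P : Subgroup G), w⁻¹ = w := fun w hw =>
      inv_eq_of_mul_eq_one_right (by rw [← pow_two]; exact hsq w hw)
    rw [← hi _ (mul_mem hu hv), mul_inv_rev, hi u hu, hi v hv]
  have hK : IsKleinFour ↥(P : Subgroup G) := by
    refine ⟨hP4, ?_⟩
    refine Nat.dvd_antisymm (Monoid.exponent_dvd_of_forall_pow_eq_one fun u => Subtype.ext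
      (hsq u u.2)) ?_
    have h1 := Monoid.order_dvd_exponent (G := ↥(P : Subgroup G))
      ⟨x, hPC ▸ mem_centralizer_singleton_iff.mpr rfl⟩
    rwa [Subgroup.orderOf_mk, hx] at h1
  have hnc' : ¬ ∃ N : Subgroup G, N.Normal ∧ IsComplement' N (P : Subgroup G) :=
    fun ⟨N, hN, hc⟩ => hnc ⟨P, N, hN, hc⟩
  obtain ⟨hone, -⟩ := (H28.klein_sylow_dichotomy P hK).resolve_right fun h => hnc' h.2
  obtain ⟨M, hM⟩ := Cfsg.Agent.H42.exists_isPModular Nat.prime_two
  obtain ⟨ζ₂, ζ₃, ζ₄, ε, hε, hn2, hn3, h23, h24, h34, hB, hval, hd2, hd3, hd4, -⟩ :=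
    Cfsg.Agent.S0948.result M hM P hK hone
  obtain ⟨hz2, hz3, hz4⟩ := hval x hx
  have hn4 : (ζ₄ : G → ℂ) ≠ (fun _ => 1) := fun h => by
    rw [h] at hz4
    norm_num at hz4
  have hG : Nat.card G = 4 * (P : Subgroup G).index := by
    rw [← hP4, Subgroup.card_mul_index]
  have hg0 : Odd (P : Subgroup G).index :=
    Nat.odd_iff.mpr (Nat.two_dvd_ne_zero.mp P.not_dvd_index)
  have hncN : ¬ ∃ N : Subgroup G, N.Normal ∧ Nat.card N = (P : Subgroup G).index := by
    rintro ⟨N, hN, hNc⟩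
    refine hnc' ⟨N, hN, isComplement'_of_coprime ?_ ?_⟩
    · rw [hNc, Subgroup.index_mul_card]
    · rw [hNc, hP4]
      exact (Nat.coprime_two_right.mpr hg0).pow_right 2
  have hxP : x ∈ (P : Subgroup G) := hPC ▸ mem_centralizer_singleton_iff.mpr rfl
  have hform := Cfsg.Agent.S4479.result M hM _ hg0 hG hncN P x hxP hx ζ₂ ζ₃ ζ₄ 1 ε (-1) hB
    ⟨hn2, hn3, hn4, h23, h24, h34⟩ ⟨Or.inl rfl, hε, Or.inr rfl⟩
    ⟨by rw [hz2]; simp, hz3, by rw [hz4]; simp⟩
  have hCP : centralizer ((P : Subgroup G) : Set G) = (P : Subgroup G) := by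
    refine le_antisymm (fun g hg => ?_) fun u hu => mem_centralizer_iff.mpr fun v hv => hcomm v hv u hu
    rw [hPC, mem_centralizer_singleton_iff]
    exact ((mem_centralizer_iff.mp hg) x hxP).symm
  rw [hCP, ← hPC, hP4, hG] at hform
  set k := (P : Subgroup G).index with hk
  have hk18 : k < 18 := by
    obtain ⟨a, ha⟩ : ∃ a : ℕ, a = Cfsg.charDegree (ζ₂ : G → ℂ) := ⟨_, rfl⟩
    obtain ⟨b, hb⟩ : ∃ b : ℕ, b = Cfsg.charDegree (ζ₃ : G → ℂ) := ⟨_, rfl⟩
    obtain ⟨d, hd⟩ : ∃ d : ℕ, d = Cfsg.charDegree (ζ₄ : G → ℂ) := ⟨_, rfl⟩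
    simp only [← ha, ← hb, ← hd] at hform hd2 hd3 hd4
    have hd3' : (3 : ℚ) ≤ d := by exact_mod_cast (show 3 ≤ d by omega)
    have hb3 : (ε = 1 ∧ 1 ≤ b) ∨ (ε = -1 ∧ 3 ≤ b) := by
      rcases hε with h | h <;> subst h
      · left; exact ⟨rfl, by omega⟩
      · right; exact ⟨rfl, by omega⟩
    have hA : (a : ℚ) / ((a : ℚ) + 1) ≤ 1 := by
      rw [div_le_one (by positivity)]; linarith
    have hD : (d : ℚ) / ((d : ℚ) + ((-1 : ℤ) : ℚ)) ≤ 3 / 2 ∧
        (0 : ℚ) < (d : ℚ) / ((d : ℚ) + ((-1 : ℤ) : ℚ)) := by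
      push_cast
      exact ⟨by rw [div_le_iff₀ (by linarith)]; linarith, div_pos (by linarith) (by linarith)⟩
    have hBb : (b : ℚ) / ((b : ℚ) + (ε : ℚ)) ≤ 3 / 2 ∧ (0 : ℚ) < (b : ℚ) / ((b : ℚ) + (ε : ℚ)) ∧
        ((ε = 1 → (b : ℚ) / ((b : ℚ) + (ε : ℚ)) < 1)) := by
      rcases hb3 with ⟨rfl, h⟩ | ⟨rfl, h⟩
      · have : (1 : ℚ) ≤ b := by exact_mod_cast h
        push_cast
        exact ⟨by rw [div_le_iff₀ (by linarith)]; linarith, div_pos (by linarith) (by linarith),
          fun _ => by rw [div_lt_one (by linarith)]; linarith⟩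
      · have : (3 : ℚ) ≤ b := by exact_mod_cast h
        push_cast
        exact ⟨by rw [div_le_iff₀ (by linarith)]; linarith, div_pos (by linarith) (by linarith),
          fun h => by norm_num at h⟩
    have hA' : (a : ℚ) / ((a : ℚ) + 1) < 1 := by
      rw [div_lt_one (by positivity)]; linarith
    have hkq : (k : ℚ) = 8 * ((a : ℚ) / ((a : ℚ) + 1) * ((b : ℚ) / ((b : ℚ) + (ε : ℚ))) *
        ((d : ℚ) / ((d : ℚ) + ((-1 : ℤ) : ℚ)))) := by
      push_cast at hform ⊢
      simp only [div_mul_div_comm]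
      linear_combination hform / 4
    have hlt : (k : ℚ) < 18 := by
      rw [hkq]
      have h1 : (a : ℚ) / ((a : ℚ) + 1) * ((b : ℚ) / ((b : ℚ) + (ε : ℚ))) < 1 * (3 / 2) :=
        lt_of_lt_of_le (mul_lt_mul_of_pos_right hA' hBb.2.1) (by linarith [hBb.1])
      have h2 := mul_lt_mul_of_pos_right h1 hD.2
      nlinarith [hD.1]
    exact_mod_cast hlt
  -- the normalizer of `P`
  set N := normalizer ((P : Subgroup G) : Set G) with hN
  have hPN : (P : Subgroup G) ≤ N := le_normalizer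
  have hNi : (P : Subgroup G).relIndex N * N.index = k := Subgroup.relIndex_mul_index hPN
  have hr3 : 3 ≤ (P : Subgroup G).relIndex N := by
    have hd : Odd ((P : Subgroup G).relIndex N) :=
      Odd.of_dvd_nat hg0 (Dvd.intro _ hNi)
    obtain ⟨a, ha, hax⟩ : ∃ a ∈ (P : Subgroup G), orderOf a = 2 ∧ a ≠ x := by
      obtain ⟨a, ha⟩ : ∃ a : ↥(P : Subgroup G),
          a ∉ ({1, ⟨x, hxP⟩} : Finset ↥(P : Subgroup G)) := by
        by_contra hcon
        push Not at hcon
        have := Fintype.ofFinite ↥(P : Subgroup G)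
        have h1 := Finset.card_le_card (fun a _ => hcon a :
          (Finset.univ : Finset ↥(P : Subgroup G)) ⊆ _)
        rw [Finset.card_univ, ← Nat.card_eq_fintype_card, hP4] at h1
        exact absurd (h1.trans Finset.card_le_two) (by omega)
      simp only [Finset.mem_insert, Finset.mem_singleton, not_or] at ha
      exact ⟨a, a.2, orderOf_eq_prime (hsq _ a.2) (fun h => ha.1 (Subtype.ext h)),
        fun h => ha.2 (Subtype.ext h)⟩
    obtain ⟨g, hg⟩ := isConj_iff.mp (hone x a hx hax.1)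
    have : IsMulCommutative ↥(P : Subgroup G) :=
      ⟨⟨fun u v => Subtype.ext (hcomm _ u.2 _ v.2)⟩⟩
    obtain ⟨n, hn', hne'⟩ := P.conj_eq_normalizer_conj_of_mem x g⁻¹ hxP
      (by rw [inv_inv, hg]; exact ha)
    rw [inv_inv, hg] at hne'
    have hnP : n ∉ (P : Subgroup G) := fun h => hax.2 (by
      rw [hne', mul_assoc, ← hcomm n h x hxP, inv_mul_cancel_left])
    have h1 : (P : Subgroup G).relIndex N ≠ 1 := fun h => hnP (Subgroup.relIndex_eq_one.mp h hn')
    obtain ⟨m, hm⟩ := hd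
    omega
  have hodd : Odd N.index := Odd.of_dvd_nat hg0 (Dvd.intro_left _ hNi)
  have hle5 : N.index ≤ 5 := by nlinarith
  -- the kernel of the action on the conjugates of `P` has odd order
  let φ0 := MulAction.toPermHom G (G ⧸ N)
  have hLN : φ0.ker ≤ N := by
    rw [← Subgroup.normalCore_eq_ker]; exact Subgroup.normalCore_le N
  have hLodd : ¬ 2 ∣ Nat.card φ0.ker := by
    intro h2
    obtain ⟨u, hu⟩ := exists_prime_orderOf_dvd_card' 2 h2
    let E := φ0.ker ⊓ (P : Subgroup G)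
    have hmemP : ∀ v ∈ φ0.ker, v ^ 2 = 1 → v ∈ (P : Subgroup G) := by
      intro v hv hv2
      have hp : IsPGroup 2 (zpowers v) := by
        intro w
        obtain ⟨i, hi⟩ := w.2
        refine ⟨1, Subtype.ext ?_⟩
        show (w : G) ^ 2 ^ 1 = 1
        rw [← show v ^ i = (w : G) from hi, pow_one, ← zpow_natCast, ← zpow_mul, mul_comm,
          zpow_mul, zpow_natCast, hv2, one_zpow]
      have h := P.is_maximal' (hp.to_sup_of_normal_right' P.2
        (Subgroup.zpowers_le.mpr (hLN hv))) le_sup_right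
      exact h ▸ Subgroup.mem_sup_left (Subgroup.mem_zpowers v)
    have hEn : E.Normal := by
      refine ⟨fun v hv g => ?_⟩
      obtain ⟨hv1, hv2⟩ := Subgroup.mem_inf.mp hv
      have h1 := φ0.normal_ker.conj_mem v hv1 g
      exact Subgroup.mem_inf.mpr ⟨h1, hmemP _ h1 (by rw [conj_pow, hsq v hv2]; simp)⟩
    have hEe : Cfsg.IsElementaryAbelian 2 E :=
      ⟨⟨⟨fun a b => Subtype.ext (hcomm _ a.2.2 _ b.2.2)⟩⟩, fun a ha => hsq a ha.2⟩
    have hu1 : (u : G) ∈ E := Subgroup.mem_inf.mpr ⟨u.2, hmemP _ u.2 (by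
      rw [← SubgroupClass.coe_pow, ← hu, pow_orderOf_eq_one, OneMemClass.coe_one])⟩
    have h1 : 2 ∣ Nat.card E := by
      have := Subgroup.orderOf_dvd_natCard E hu1
      rwa [Subgroup.orderOf_coe, hu] at this
    have h4 : Nat.card E ∣ 4 := hP4 ▸ Subgroup.card_dvd_of_le inf_le_right
    obtain ⟨hE2, hE4⟩ := hne E hEn hEe
    have h5 := Nat.le_of_dvd (by norm_num) h4
    interval_cases hh : Nat.card E <;> simp_all
  have hrange : Nat.card φ0.range * Nat.card φ0.ker = Nat.card G := by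
    rw [← Subgroup.index_ker, Subgroup.index_mul_card]
  have hperm : Nat.card φ0.range ∣ Nat.factorial N.index := by
    have := Subgroup.card_subgroup_dvd_card φ0.range
    rwa [Nat.card_perm] at this
  have h4r : 4 ∣ Nat.card φ0.range :=
    (Nat.Coprime.pow_left 2 ((Nat.Prime.coprime_iff_not_dvd Nat.prime_two).mpr hLodd)).dvd_of_dvd_mul_right
      (by rw [hrange, hG]; exact dvd_mul_right 4 k)
  have h45 := h4r.trans hperm
  have hN5 : N.index = 5 := by
    obtain ⟨m, hm⟩ := hodd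
    rcases (show N.index = 1 ∨ N.index = 3 ∨ N.index = 5 by omega) with h | h | h
    · rw [h] at h45; norm_num at h45
    · rw [h] at h45; norm_num [Nat.factorial] at h45
    · exact h
  have hr : (P : Subgroup G).relIndex N = 3 := by
    rw [hN5] at hNi; omega
  have hG60 : Nat.card G = 60 := by rw [hG, ← hNi, hr, hN5]
  have hNcard : Nat.card N = 12 := by
    have := N.card_mul_index
    rw [hN5, hG60] at this; omega
  -- the kernel is trivial
  have hker : φ0.ker = ⊥ := by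
    have hLc : φ0.ker ≤ centralizer ((P : Subgroup G) : Set G) := by
      intro l hl
      rw [mem_centralizer_iff]
      intro v hv
      have h1 : l * v * l⁻¹ * v⁻¹ ∈ φ0.ker := by
        have := mul_mem hl (φ0.normal_ker.conj_mem _ (inv_mem hl) v)
        rwa [show l * (v * l⁻¹ * v⁻¹) = l * v * l⁻¹ * v⁻¹ by group] at this
      have h2 : l * v * l⁻¹ * v⁻¹ ∈ (P : Subgroup G) :=
        mul_mem ((Subgroup.mem_normalizer_iff.mp (hLN hl) v).mp hv) (inv_mem hv)
      have h3 : l * v * l⁻¹ * v⁻¹ = 1 := by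
        rw [← orderOf_eq_one_iff]
        refine Nat.eq_one_of_dvd_coprimes (a := 2) (b := Nat.card φ0.ker)
          ((Nat.Prime.coprime_iff_not_dvd Nat.prime_two).mpr hLodd)
          (orderOf_dvd_of_pow_eq_one (hsq _ h2)) ?_
        exact Subgroup.orderOf_dvd_natCard _ h1
      calc v * l = 1 * (v * l) := (one_mul _).symm
        _ = l * v := by rw [← h3]; group
    rw [hCP] at hLc
    refine Subgroup.eq_bot_of_card_eq _ ?_
    have h1 : Nat.card φ0.ker ∣ 4 := hP4 ▸ Subgroup.card_dvd_of_le hLc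
    exact Nat.eq_one_of_dvd_coprimes (a := Nat.card φ0.ker) (b := 2 ^ 2)
      (((Nat.Prime.coprime_iff_not_dvd Nat.prime_two).mpr hLodd).symm.pow_right 2) dvd_rfl h1
  obtain ⟨e⟩ : Nonempty (G ⧸ N ≃ Fin 5) := ⟨(Finite.equivFin (G ⧸ N)).trans (finCongr (by
    rw [← Subgroup.index_eq_card, hN5]))⟩
  let φ : G →* Equiv.Perm (Fin 5) := e.permCongrHom.toMonoidHom.comp φ0
  have hφ : Function.Injective φ :=
    e.permCongrHom.injective.comp ((MonoidHom.ker_eq_bot_iff φ0).mp hker)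
  have hcard : Nat.card φ.range = 60 := by
    rw [← Nat.card_congr (MonoidHom.ofInjective hφ).toEquiv, hG60]
  have hidx : φ.range.index = 2 := by
    have := φ.range.card_mul_index
    rw [hcard, Nat.card_perm, Nat.card_fin] at this
    norm_num [Nat.factorial] at this
    omega
  exact ⟨(MonoidHom.ofInjective hφ).trans (MulEquiv.subgroupCongr
    (Equiv.Perm.eq_alternatingGroup_of_index_eq_two hidx))⟩

end Cfsg.Agent.H37
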