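import Mathlib

/-! Intersections of Sylow two-subgroups in an extension of degree two. -/

namespace Cfsg.Agent.H37

open scoped Pointwise

/-- If the Sylow subgroups of a normal subgroup of index two meeting a given one trivially form one orbit under it,
then any two Sylow two-subgroups of the extension meet non-trivially. -/
theorem sylow_meet_of_index_two {G : Type*} [Group G] [Finite G] (N : Subgroup G) [N.Normal] (hidx : N.index = 2)
    (U : Subgroup N) (hU : IsPGroup 2 U) (hN : ∀ y : N, (∀ a ∈ U, y * a * y⁻¹ ∈ U) → y ∈ U)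
    (horb : ∀ g g' : N, (∀ y ∈ U, g⁻¹ * y * g ∈ U → y = 1) → (∀ y ∈ U, g'⁻¹ * y * g' ∈ U → y = 1) →
      ∃ u ∈ U, g'⁻¹ * u * g ∈ U)
    (H : Sylow 2 G) (x : G) : (H : Subgroup G) ⊓ MulAut.conj x • (H : Subgroup G) ≠ ⊥ := by
  classical
  haveI : Fact (Nat.Prime 2) := ⟨Nat.prime_two⟩
  -- `U` is a Sylow subgroup
  obtain ⟨S, hS⟩ := hU.exists_le_sylow
  have hSU : (S : Subgroup N) = U := by
    by_contra hne
    haveI : Group.IsNilpotent (S : Subgroup N) := S.isPGroup'.isNilpotent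
    have hlt : U.subgroupOf S < ⊤ := lt_top_iff_ne_top.2 fun h =>
      hne (le_antisymm (Subgroup.subgroupOf_eq_top.1 h) hS)
    obtain ⟨y, hy, hyn⟩ := SetLike.exists_of_lt (Group.normalizerCondition_of_isNilpotent _ hlt)
    refine hyn (Subgroup.mem_subgroupOf.2 (hN y fun a ha => ?_))
    exact Subgroup.mem_subgroupOf.1 ((Subgroup.mem_normalizer_iff.1 hy ⟨a, hS ha⟩).1 (Subgroup.mem_subgroupOf.2 ha))
  have hUS : ∀ T : Sylow 2 N, ∃ g : N, ∀ a : N, a ∈ (T : Subgroup N) ↔ g⁻¹ * a * g ∈ U := by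
    intro T
    obtain ⟨g, hg⟩ := MulAction.exists_smul_eq N S T
    refine ⟨g, fun a => ?_⟩
    rw [← hg, Sylow.coe_subgroup_smul, hSU]
    rw [Subgroup.mem_pointwise_smul_iff_inv_smul_mem]
    simp
  -- Sylow subgroups of `G`
  have hmeet : ∀ P : Sylow 2 G, ∃ T : Sylow 2 N, ∀ a : N, a ∈ (T : Subgroup N) ↔ (a : G) ∈ (P : Subgroup G) := by
    intro P
    have hp : IsPGroup 2 ((P : Subgroup G).subgroupOf N) := P.isPGroup'.comap_of_injective _ N.subtype_injective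
    obtain ⟨T, hT⟩ := hp.exists_le_sylow
    refine ⟨T, fun a => ⟨fun ha => ?_, fun ha => hT (Subgroup.mem_subgroupOf.2 ha)⟩⟩
    have hnN : N ≤ Subgroup.normalizer (N : Set G) := Subgroup.le_normalizer
    obtain ⟨Q, hQ⟩ := (T.isPGroup'.map N.subtype).exists_le_sylow
    obtain ⟨c, hc⟩ := MulAction.exists_smul_eq G Q P
    have h1 : Nat.card (T : Subgroup N) ≤ Nat.card ((P : Subgroup G).subgroupOf N) := by
      have hinj : Function.Injective fun t : (T : Subgroup N) =>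
          (⟨⟨c * (t.1 : G) * c⁻¹, ‹N.Normal›.conj_mem _ t.1.2 c⟩, Subgroup.mem_subgroupOf.2 (by
            show c * (t.1 : G) * c⁻¹ ∈ (P : Subgroup G)
            rw [← hc, Sylow.coe_subgroup_smul]
            exact ⟨(t.1 : G), hQ ⟨t.1, t.2, rfl⟩, by simp⟩)⟩ : (P : Subgroup G).subgroupOf N) := by
        intro t t' e
        have e' : c * (t.1 : G) * c⁻¹ = c * (t'.1 : G) * c⁻¹ := congrArg (fun z => ((z.1 : N) : G)) e
        exact Subtype.ext (Subtype.ext (mul_left_cancel (mul_right_cancel e')))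
      exact Nat.card_le_card_of_injective _ hinj
    have heq := Subgroup.eq_of_le_of_card_ge hT h1
    rw [← heq] at ha
    exact Subgroup.mem_subgroupOf.1 ha
  have hout : ∀ P : Sylow 2 G, ∃ s ∈ (P : Subgroup G), s ∉ N := by
    intro P
    by_contra hall
    push Not at hall
    have h2 := Subgroup.index_dvd_of_le hall
    rw [hidx] at h2
    exact P.not_dvd_index h2
  -- move `H` onto `U`
  intro hbot
  have hb : ∀ z ∈ (H : Subgroup G), x⁻¹ * z * x ∈ (H : Subgroup G) → z = 1 := by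
    intro z hz hz'
    refine Subgroup.mem_bot.1 (hbot ▸ ⟨hz, ?_⟩)
    show z ∈ MulAut.conj x • (H : Subgroup G)
    rw [Subgroup.mem_pointwise_smul_iff_inv_smul_mem]
    simpa using hz'
  let P₂ : Sylow 2 G := x • H
  have hP₂ : ∀ z, z ∈ (P₂ : Subgroup G) ↔ x⁻¹ * z * x ∈ (H : Subgroup G) := fun z => by
    rw [Sylow.coe_subgroup_smul, Subgroup.mem_pointwise_smul_iff_inv_smul_mem]
    simp
  obtain ⟨T₁, hT₁⟩ := hmeet H
  obtain ⟨T₂, hT₂⟩ := hmeet P₂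
  obtain ⟨g₁, hg₁⟩ := hUS T₁
  obtain ⟨g₂, hg₂⟩ := hUS T₂
  obtain ⟨t, htH, htN⟩ := hout H
  -- conjugate by `g₁`
  obtain ⟨g, hg⟩ : ∃ g : N, g = g₁⁻¹ * g₂ := ⟨_, rfl⟩
  obtain ⟨t', ht'⟩ : ∃ t' : G, t' = (g₁ : G)⁻¹ * t * g₁ := ⟨_, rfl⟩
  let γ : N → N := fun a => ⟨t' * a * t'⁻¹, ‹N.Normal›.conj_mem _ a.2 _⟩
  have hγmul : ∀ a b, γ (a * b) = γ a * γ b := fun a b => Subtype.ext (by simp [γ, mul_assoc])
  have hγinv : ∀ a, γ a⁻¹ = (γ a)⁻¹ := fun a => Subtype.ext (by simp [γ, mul_assoc])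
  have hγU : ∀ a ∈ U, γ a ∈ U := by
    intro a ha
    have h1 : g₁ * a * g₁⁻¹ ∈ (T₁ : Subgroup N) := (hg₁ _).2 (by simpa [mul_assoc] using ha)
    have h2 : (⟨t * (g₁ * a * g₁⁻¹ : N) * t⁻¹, ‹N.Normal›.conj_mem _ (g₁ * a * g₁⁻¹ : N).2 t⟩ : N) ∈ (T₁ : Subgroup N) :=
      (hT₁ _).2 (mul_mem (mul_mem htH ((hT₁ _).1 h1)) (inv_mem htH))
    convert (hg₁ _).1 h2 using 1
    apply Subtype.ext
    simp [γ, ht', mul_assoc]
  have hγsurj : ∀ a ∈ U, ∃ b ∈ U, γ b = a := by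
    intro a ha
    have hinj : Function.Injective fun b : U => (⟨γ b.1, hγU _ b.2⟩ : U) := fun b c e => by
      have e' : t' * ((b.1 : N) : G) * t'⁻¹ = t' * ((c.1 : N) : G) * t'⁻¹ := congrArg (fun z : U => ((z.1 : N) : G)) e
      exact Subtype.ext (Subtype.ext (mul_left_cancel (mul_right_cancel e')))
    obtain ⟨⟨b, hb'⟩, e⟩ := Finite.injective_iff_surjective.1 hinj ⟨a, ha⟩
    exact ⟨b, hb', congrArg Subtype.val e⟩
  have htriv : ∀ y ∈ U, g⁻¹ * y * g ∈ U → y = 1 := by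
    intro y hy hy'
    have h1 : g₁ * y * g₁⁻¹ ∈ (T₁ : Subgroup N) := (hg₁ _).2 (by simpa [mul_assoc] using hy)
    have h2 : g₁ * y * g₁⁻¹ ∈ (T₂ : Subgroup N) := (hg₂ _).2 (by
      simpa [hg, mul_assoc] using hy')
    have := hb _ ((hT₁ _).1 h1) ((hP₂ _).1 ((hT₂ _).1 h2))
    rw [OneMemClass.coe_eq_one] at this
    simpa using this
  obtain ⟨u, hu, hug⟩ := horb (γ g) g (fun y hy hy' => by
    obtain ⟨b, hbU, rfl⟩ := hγsurj y hy
    have e : γ (g⁻¹ * b * g) ∈ U := by rw [hγmul, hγmul, hγinv]; exact hy'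
    obtain ⟨c, hc, hce⟩ := hγsurj _ e
    have e2 : c = g⁻¹ * b * g := by
      have e' : t' * (c : G) * t'⁻¹ = t' * ((g⁻¹ * b * g : N) : G) * t'⁻¹ := congrArg Subtype.val hce
      exact Subtype.ext (mul_left_cancel (mul_right_cancel e'))
    rw [htriv b hbU (e2 ▸ hc)]
    exact Subtype.ext (by simp [γ])) htriv
  -- the common element
  obtain ⟨y₀, hy₀⟩ : ∃ y₀ : G, y₀ = (g₁ : G) * ((u : G) * t') * (g₁ : G)⁻¹ := ⟨_, rfl⟩
  have hy₀H : y₀ ∈ (H : Subgroup G) := by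
    have h1 : g₁ * u * g₁⁻¹ ∈ (T₁ : Subgroup N) := (hg₁ _).2 (by simpa [mul_assoc] using hu)
    have : y₀ = ((g₁ * u * g₁⁻¹ : N) : G) * t := by simp [hy₀, ht', mul_assoc]
    rw [this]
    exact mul_mem ((hT₁ _).1 h1) htH
  have hy₀N : y₀ ∉ N := fun h => htN (by
    have := mul_mem (mul_mem g₁.2 (inv_mem u.2)) (mul_mem (inv_mem g₁.2) h)
    simpa [hy₀, ht', mul_assoc] using this)
  have hy₀T : ∀ a ∈ (T₂ : Subgroup N), (⟨y₀ * a * y₀⁻¹, ‹N.Normal›.conj_mem _ a.2 _⟩ : N) ∈ (T₂ : Subgroup N) := by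
    intro a ha
    have h1 := hγU _ ((hg₂ a).1 ha)
    have h2 := mul_mem (mul_mem hug h1) (inv_mem hug)
    refine (hg₂ _).2 ?_
    convert h2 using 1
    apply Subtype.ext
    simp [γ, hg, hy₀, mul_assoc]
  obtain ⟨s, hs, hsN⟩ := hout P₂
  have hmem : s⁻¹ * y₀ ∈ N := by
    rw [Subgroup.mul_mem_iff_of_index_two hidx, inv_mem_iff]
    exact ⟨fun h => absurd h hsN, fun h => absurd h hy₀N⟩
  have hyP : y₀ ∈ (P₂ : Subgroup G) := by
    have hnorm : ∀ a ∈ (T₂ : Subgroup N), (⟨_, hmem⟩ : N) * a * (⟨_, hmem⟩ : N)⁻¹ ∈ (T₂ : Subgroup N) := by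
      intro a ha
      refine (hT₂ _).2 ?_
      have := mul_mem (mul_mem (inv_mem hs) ((hT₂ _).1 (hy₀T a ha))) hs
      simpa [mul_assoc] using this
    have hmem2 : (⟨_, hmem⟩ : N) ∈ (T₂ : Subgroup N) := by
      obtain ⟨z, hz⟩ : ∃ z : N, z = g₂⁻¹ * (⟨_, hmem⟩ : N) * g₂ := ⟨_, rfl⟩
      refine (hg₂ _).2 (hz ▸ hN z fun a ha => ?_)
      have := (hg₂ _).1 (hnorm (g₂ * a * g₂⁻¹) ((hg₂ _).2 (by simpa [mul_assoc] using ha)))
      simpa [hz, mul_assoc] using this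
    have := mul_mem hs ((hT₂ _).1 hmem2)
    simpa using this
  have h1 := hb y₀ hy₀H ((hP₂ _).1 hyP)
  exact hy₀N (h1 ▸ one_mem N)

end Cfsg.Agent.H37
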