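import Cfsg.Agent.H37.FourSetCode
import Cfsg.Agent.H37.EvenOnEquiv

/-!
# Overgroups of a Sylow 2-subgroup of an alternating group with quasisimple `F*`
-/

set_option autoImplicit false

namespace Cfsg.Agent.H37.FourSet

open Equiv Cfsg.Agent.H63.AltSec
open Cfsg.Agent.H51

variable {α : Type*} [Fintype α] [DecidableEq α] {H : Subgroup (Perm α)}

/-- `F*` is the alternating group on a set containing all given disjoint four-sets. -/
theorem main (hF : Cfsg.IsQuasisimple ↥(Cfsg.generalizedFittingSubgroup ↥H))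
    (D : Finset (Finset α)) (hD : ∀ T ∈ D, Full H T)
    (hdisj : (D : Set (Finset α)).PairwiseDisjoint id) (h2 : 2 ≤ D.card) :
    ∃ S : Finset α, 4 * D.card ≤ S.card ∧
      Nonempty (↥(Cfsg.generalizedFittingSubgroup ↥H) ≃* ↥(alternatingGroup (Fin S.card))) := by
  classical
  haveI := generalizedFittingSubgroup_normal ↥H
  obtain ⟨T₁, hT₁, T₂, hT₂, hne⟩ := Finset.one_lt_card.1 h2
  obtain ⟨t, ht⟩ : T₁.Nonempty := Finset.card_pos.1 (by rw [(hD _ hT₁).1]; norm_num)
  let O : Finset α := Finset.univ.filter fun a => ∃ h ∈ H, h t = a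
  have hO : IsOrbit H O := by
    refine ⟨fun g hg a => ?_, fun a ha b hb => ?_⟩
    · simp only [O, Finset.mem_filter, Finset.mem_univ, true_and]
      constructor
      · rintro ⟨h, hh, he⟩
        refine ⟨g⁻¹ * h, H.mul_mem (H.inv_mem hg) hh, ?_⟩
        rw [Perm.mul_apply, he]; exact g.symm_apply_apply a
      · rintro ⟨h, hh, he⟩
        exact ⟨g * h, H.mul_mem hg hh, by rw [Perm.mul_apply, he]⟩
    · simp only [O, Finset.mem_filter, Finset.mem_univ, true_and] at ha hb
      obtain ⟨g, hg, rfl⟩ := ha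
      obtain ⟨k, hk, rfl⟩ := hb
      exact ⟨k * g⁻¹, H.mul_mem hk (H.inv_mem hg), by
        rw [Perm.mul_apply]; exact congrArg k (g.symm_apply_apply t)⟩
  have htO : t ∈ O := Finset.mem_filter.2 ⟨Finset.mem_univ _, 1, H.one_mem, rfl⟩
  have hin : ∀ T, Full H T → ∀ a ∈ T, a ∈ O → T ⊆ O := by
    intro T hT a ha haO b hb
    rcases eq_or_ne a b with rfl | hab
    · exact haO
    obtain ⟨σ, hσ, -, -, hσa, -⟩ := hT.exists_swap ha hb hab
    exact hσa ▸ (hO.apply_mem σ hσ a).2 haO
  have hT₁O : T₁ ⊆ O := hin T₁ (hD _ hT₁) t ht htO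
  obtain ⟨d, hd1, hdT⟩ := (hD _ hT₁).exists_ne_one
  have hKO := support_le hF (fun k _ a => hO.apply_mem k k.2 a) hd1 hdT (hD _ hT₁).1.le hT₁O
  have hT₂O : T₂ ⊆ O := by
    obtain ⟨a, ha, haO⟩ :=
      Finset.not_disjoint_iff.1 (not_commute_of_disjoint hF (hD _ hT₂) hKO)
    exact hin T₂ (hD _ hT₂) a ha haO
  obtain ⟨τ, hτ, hτH⟩ := exists_threeCycle hF hO ⟨hT₁O, hD _ hT₁⟩ ⟨hT₂O, hD _ hT₂⟩
    (hdisj hT₁ hT₂ hne)
  obtain ⟨S, -, hS⟩ := exists_evenOn_eq_generalizedFitting H hF hτ hτH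
  refine ⟨S, ?_, ?_⟩
  · have hKS : ∀ k ∈ Cfsg.generalizedFittingSubgroup ↥H, (k : Perm α).support ⊆ S := fun k hk => by
      have : (k : Perm α) ∈ evenOn S := hS ▸ Subgroup.mem_map_of_mem H.subtype hk
      exact this.2
    have hS5 : 5 ≤ S.card := by
      by_contra hlt
      haveI : Group.IsSolvable (Perm (Fin 4)) := H88.isSolvable_perm_of_card_four (by simp)
      obtain ⟨f⟩ : Nonempty ({x // x ∈ S} ↪ Fin 4) :=
        Function.Embedding.nonempty_of_card_le (by simp; omega)
      haveI : Group.IsSolvable (Perm {x // x ∈ S}) :=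
        Group.isSolvable_of_isSolvable_injective (f := Perm.viaEmbeddingHom f)
          (Perm.viaEmbeddingHom_injective f)
      have hmem : ∀ (k : ↥(Cfsg.generalizedFittingSubgroup ↥H)) (x : α),
          ((k : ↥H) : Perm α) x ∈ S ↔ x ∈ S := by
        intro k x
        by_cases hx : x ∈ ((k : ↥H) : Perm α).support
        · exact iff_of_true (hKS k k.2 (Perm.apply_mem_support.2 hx)) (hKS k k.2 hx)
        · rw [Perm.notMem_support.1 hx]
      let φ : ↥(Cfsg.generalizedFittingSubgroup ↥H) →* Perm {x // x ∈ S} :=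
        MonoidHom.mk' (fun k => ((k : ↥H) : Perm α).subtypePerm (hmem k))
          (fun g h => Equiv.ext fun x => Subtype.ext rfl)
      refine quasisimple_not_isSolvable hF
        (Group.isSolvable_of_isSolvable_injective (f := φ) fun g h hgh => ?_)
      refine Subtype.ext (Subtype.ext (Equiv.ext fun x => ?_))
      by_cases hx : x ∈ S
      · exact congrArg (fun z : Perm {x // x ∈ S} => ((z ⟨x, hx⟩ : {x // x ∈ S}) : α)) hgh
      · have f1 : ∀ m : ↥(Cfsg.generalizedFittingSubgroup ↥H), ((m : ↥H) : Perm α) x = x :=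
          fun m => Perm.notMem_support.1 fun h' => hx (hKS m m.2 h')
        rw [f1, f1]
    have hsub : ∀ T ∈ D, T ⊆ S := by
      intro T hT
      obtain ⟨a, ha, haS⟩ :=
        Finset.not_disjoint_iff.1 (not_commute_of_disjoint hF (hD _ hT) hKS)
      intro b hb
      rcases eq_or_ne a b with rfl | hab
      · exact haS
      obtain ⟨σ, hσ, -, -, hσa, -⟩ := (hD _ hT).exists_swap ha hb hab
      -- the support of `F*` is invariant
      have hmoved : ∃ k ∈ Cfsg.generalizedFittingSubgroup ↥H, (k : Perm α) a ≠ a := by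
        obtain ⟨x, hx, y, hy, hxa, hya, hxy⟩ : ∃ x ∈ S, ∃ y ∈ S, x ≠ a ∧ y ≠ a ∧ x ≠ y := by
          have : 1 < (S.erase a).card := by rw [Finset.card_erase_of_mem haS]; omega
          obtain ⟨x, hx, y, hy, hxy⟩ := Finset.one_lt_card.1 this
          exact ⟨x, Finset.mem_of_mem_erase hx, y, Finset.mem_of_mem_erase hy,
            Finset.ne_of_mem_erase hx, Finset.ne_of_mem_erase hy, hxy⟩
        have hc := cyc_mem_evenOn hxa.symm hya.symm hxy haS hx hy
        rw [← hS] at hc
        obtain ⟨k, hk, hke⟩ := Subgroup.mem_map.1 hc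
        refine ⟨k, hk, fun he => hxa ?_⟩
        rw [show (k : Perm α) = cyc a x y from hke, cyc_apply_fst hxa.symm hya.symm] at he
        exact he
      obtain ⟨k, hk, hka⟩ := hmoved
      refine hKS (⟨σ, hσ⟩ * k * ⟨σ, hσ⟩⁻¹)
        ((inferInstance : (Cfsg.generalizedFittingSubgroup ↥H).Normal).conj_mem _ hk _) ?_
      rw [Perm.mem_support]
      show σ ((k : Perm α) (σ⁻¹ b)) ≠ b
      rw [← hσa, show σ⁻¹ (σ a) = a from σ.symm_apply_apply a]
      exact σ.injective.ne hka
    calc 4 * D.card = ∑ T ∈ D, T.card := by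
          rw [Finset.sum_congr rfl fun T hT => (hD T hT).1, Finset.sum_const, smul_eq_mul, mul_comm]
      _ = (D.biUnion id).card := (Finset.card_biUnion hdisj).symm
      _ ≤ S.card := Finset.card_le_card (Finset.biUnion_subset.2 hsub)
  · obtain ⟨e⟩ := evenOn_equiv_alternating S
    exact ⟨((Subgroup.equivMapOfInjective _ H.subtype H.subtype_injective).trans
      (MulEquiv.subgroupCongr hS)).trans e⟩

theorem involution_klein : ∀ τ : Perm (Fin 4), Perm.sign τ = 1 → τ * τ = 1 →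
    ∃ v : Fin 4, ∀ x : Fin 4, τ x = x ^^^ v := by decide

theorem xor_perm_spec : ∀ v : Fin 4, ∀ x : Fin 4, (x ^^^ v) ^^^ v = x := by decide

theorem xor_zero' : ∀ x : Fin 4, x ^^^ 0 = x := by decide

theorem xor_assoc' : ∀ x v w : Fin 4, (x ^^^ v) ^^^ w = (x ^^^ w) ^^^ v := by decide

/-- Translation by `v`. -/
def xorPerm (v : Fin 4) : Perm (Fin 4) :=
  ⟨fun x => x ^^^ v, fun x => x ^^^ v, xor_perm_spec v, xor_perm_spec v⟩

theorem sign_xorPerm : ∀ v : Fin 4, Perm.sign (xorPerm v) = 1 := by decide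

theorem xorPerm_sq (v : Fin 4) : xorPerm v * xorPerm v = 1 :=
  Equiv.ext fun x => xor_perm_spec v x

theorem xorPerm_comm (v w : Fin 4) : xorPerm v * xorPerm w = xorPerm w * xorPerm v :=
  Equiv.ext fun x => xor_assoc' x w v

theorem sylow_two_fours (n : ℕ) (H : Subgroup (Perm (Fin n)))
    (hS : ∃ P : Sylow 2 ↥(alternatingGroup (Fin n)),
      ((P : Subgroup ↥(alternatingGroup (Fin n))).map (alternatingGroup (Fin n)).subtype) ≤ H) :
    ∃ D : Finset (Finset (Fin n)), (∀ T ∈ D, Full H T) ∧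
      (D : Set (Finset (Fin n))).PairwiseDisjoint id ∧ D.card = n / 4 := by
  classical
  obtain ⟨P, hP⟩ := hS
  have hlt : ∀ i : Fin (n / 4), ∀ j : Fin 4, 4 * i.val + j.val < n := fun i j => by omega
  let ι : Fin (n / 4) × Fin 4 ↪ Fin n := ⟨fun p => ⟨4 * p.1.val + p.2.val, hlt p.1 p.2⟩, by
    rintro ⟨i, j⟩ ⟨i', j'⟩ h
    have h' : 4 * i.val + j.val = 4 * i'.val + j'.val := congrArg Fin.val h
    ext <;> simp <;> omega⟩
  -- the product of the Klein groups
  let G : Set (Perm (Fin (n / 4) × Fin 4)) :=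
    {π | ∃ c : Fin (n / 4) → Fin 4, π = prodCongrRight fun i => xorPerm (c i)}
  have hGcomm : ∀ a ∈ G, ∀ b ∈ G, a * b = b * a := by
    rintro _ ⟨c, rfl⟩ _ ⟨e, rfl⟩
    refine Equiv.ext fun p => Prod.ext rfl ?_
    exact Equiv.ext_iff.1 (xorPerm_comm (c p.1) (e p.1)) p.2
  have hGsq : ∀ a ∈ G, a * a = 1 := by
    rintro _ ⟨c, rfl⟩
    exact Equiv.ext fun p => Prod.ext rfl (Equiv.ext_iff.1 (xorPerm_sq (c p.1)) p.2)
  let Q₀ := Subgroup.closure G
  have hQ₀ : ∀ x ∈ Q₀, x * x = 1 ∧ Perm.sign x = 1 := by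
    have hcc : ∀ x ∈ Q₀, ∀ y ∈ Q₀, x * y = y * x := by
      intro x hx y hy
      induction hx, hy using Subgroup.closure_induction₂ with
      | mem a b ha hb => exact hGcomm a ha b hb
      | one_left => simp
      | one_right => simp
      | mul_left a b c _ _ _ h1 h2 => exact Commute.mul_left h1 h2
      | mul_right a b c _ _ _ h1 h2 => exact Commute.mul_right h1 h2
      | inv_left a b _ _ h1 => exact Commute.inv_left h1
      | inv_right a b _ _ h1 => exact Commute.inv_right h1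
    intro x hx
    induction hx using Subgroup.closure_induction with
    | mem a ha =>
      refine ⟨hGsq a ha, ?_⟩
      obtain ⟨c, rfl⟩ := ha
      rw [Perm.sign_prodCongrRight]
      exact Finset.prod_eq_one fun i _ => sign_xorPerm _
    | one => simp
    | mul a b ha hb h1 h2 =>
      refine ⟨?_, by rw [map_mul, h1.2, h2.2, one_mul]⟩
      rw [mul_assoc, ← mul_assoc b a b, ← hcc a ha b hb, ← mul_assoc, ← mul_assoc, h1.1, one_mul,
        h2.1]
    | inv a _ h1 => exact ⟨by rw [← mul_inv_rev, h1.1, inv_one], by rw [map_inv, h1.2, inv_one]⟩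
  let Q : Subgroup ↥(alternatingGroup (Fin n)) :=
    (Q₀.map (Perm.viaEmbeddingHom ι)).subgroupOf (alternatingGroup (Fin n))
  have hQ2 : IsPGroup 2 ↥Q := by
    intro q
    refine ⟨1, Subtype.ext (Subtype.ext ?_)⟩
    obtain ⟨x, hx, hxe⟩ := Subgroup.mem_map.1 (Subgroup.mem_subgroupOf.1 q.2)
    rw [pow_one, pow_two]
    show ((q : ↥(alternatingGroup (Fin n))) : Perm (Fin n)) *
      ((q : ↥(alternatingGroup (Fin n))) : Perm (Fin n)) = 1
    rw [← hxe, ← map_mul, (hQ₀ x hx).1, map_one]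
  obtain ⟨P', hP'⟩ := hQ2.exists_le_sylow
  obtain ⟨g, hg⟩ := MulAction.exists_smul_eq ↥(alternatingGroup (Fin n)) P' P
  have hconj : ∀ x ∈ Q₀, (g : Perm (Fin n)) * Perm.viaEmbeddingHom ι x * (g : Perm (Fin n))⁻¹ ∈ H := by
    intro x hx
    have he : Perm.sign (Perm.viaEmbeddingHom ι x) = 1 := by
      rw [Perm.viaEmbeddingHom_apply, Perm.viaEmbedding, Perm.sign_extendDomain]
      exact (hQ₀ x hx).2
    let q : ↥(alternatingGroup (Fin n)) := ⟨_, Perm.mem_alternatingGroup.2 he⟩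
    have hq : q ∈ (P' : Subgroup ↥(alternatingGroup (Fin n))) :=
      hP' (Subgroup.mem_subgroupOf.2 (Subgroup.mem_map_of_mem _ hx))
    have h1 : g * q * g⁻¹ ∈ (P : Subgroup ↥(alternatingGroup (Fin n))) := by
      rw [← hg]
      exact Subgroup.smul_mem_pointwise_smul _ (MulAut.conj g) _ hq
    exact hP (Subgroup.mem_map_of_mem _ h1)
  let blk : Fin (n / 4) → Finset (Fin n) := fun i =>
    (Finset.univ.map ⟨fun j => ι (i, j), fun a b h => (Prod.ext_iff.1 (ι.injective h)).2⟩).map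
      (g : Perm (Fin n)).toEmbedding
  have hmemblk : ∀ i x, x ∈ blk i ↔ ∃ j, (g : Perm (Fin n)) (ι (i, j)) = x := fun i x => by
    simp only [blk, Finset.mem_map, Finset.mem_univ, true_and, Equiv.coe_toEmbedding]
    constructor
    · rintro ⟨a, ⟨j, rfl⟩, h⟩; exact ⟨j, h⟩
    · rintro ⟨j, h⟩; exact ⟨_, ⟨j, rfl⟩, h⟩
  refine ⟨Finset.univ.image blk, ?_, ?_, ?_⟩
  · intro T hT
    obtain ⟨i, -, rfl⟩ := Finset.mem_image.1 hT
    refine ⟨by simp [blk], fun σ hs hsupp hsq => ?_⟩
    -- pull `σ` back to a permutation of four points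
    have hstab : ∀ j, ∃ j', σ ((g : Perm (Fin n)) (ι (i, j))) = (g : Perm (Fin n)) (ι (i, j')) := by
      intro j
      by_cases h : (g : Perm (Fin n)) (ι (i, j)) ∈ σ.support
      · obtain ⟨j', hj'⟩ := (hmemblk i _).1 (hsupp (Perm.apply_mem_support.2 h))
        exact ⟨j', hj'.symm⟩
      · exact ⟨j, Perm.notMem_support.1 h⟩
    choose f hf using hstab
    have hinj : ∀ j j', (g : Perm (Fin n)) (ι (i, j)) = (g : Perm (Fin n)) (ι (i, j')) → j = j' :=
      fun j j' h => (Prod.ext_iff.1 (ι.injective ((g : Perm (Fin n)).injective h))).2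
    have hff : Function.Involutive f := fun j => by
      refine hinj _ _ ?_
      rw [← hf, ← hf]
      exact congrArg (fun z : Perm (Fin n) => z ((g : Perm (Fin n)) (ι (i, j)))) hsq
    let τ : Perm (Fin 4) := hff.toPerm f
    let j₀ : Fin 4 ↪ Fin n := ⟨fun j => (g : Perm (Fin n)) (ι (i, j)), fun a b h => hinj a b h⟩
    have hστ : σ = Perm.viaEmbedding τ j₀ := by
      refine Equiv.ext fun x => ?_
      by_cases hx : x ∈ Set.range j₀
      · obtain ⟨j, rfl⟩ := hx
        rw [Perm.viaEmbedding_apply]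
        exact hf j
      · rw [Perm.viaEmbedding_apply_of_notMem _ _ _ hx]
        refine Perm.notMem_support.1 fun h => hx ?_
        obtain ⟨j, hj⟩ := (hmemblk i x).1 (hsupp h)
        exact ⟨j, hj⟩
    have hτs : Perm.sign τ = 1 := by
      rw [hστ, Perm.viaEmbedding, Perm.sign_extendDomain] at hs
      exact hs
    obtain ⟨v, hv⟩ := involution_klein τ hτs (Equiv.ext fun j => hff j)
    let c : Fin (n / 4) → Fin 4 := fun k => if k = i then v else 0
    have hx : prodCongrRight (fun k => xorPerm (c k)) ∈ Q₀ := Subgroup.subset_closure ⟨c, rfl⟩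
    convert hconj _ hx using 1
    refine Equiv.ext fun x => ?_
    obtain ⟨y, rfl⟩ := (g : Perm (Fin n)).surjective x
    rw [Perm.mul_apply, Perm.mul_apply, show (g : Perm (Fin n))⁻¹ ((g : Perm (Fin n)) y) = y from
      (g : Perm (Fin n)).symm_apply_apply y, Perm.viaEmbeddingHom_apply]
    by_cases hy : y ∈ Set.range ι
    · obtain ⟨⟨k, j⟩, rfl⟩ := hy
      rw [Perm.viaEmbedding_apply]
      show σ _ = (g : Perm (Fin n)) (ι (k, xorPerm (c k) j))
      by_cases hk : k = i
      · subst hk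
        rw [hf]
        show (g : Perm (Fin n)) (ι (k, f j)) = _
        rw [show f j = τ j from rfl, hv j]
        simp [c, xorPerm]
      · have : σ ((g : Perm (Fin n)) (ι (k, j))) = (g : Perm (Fin n)) (ι (k, j)) := by
          refine Perm.notMem_support.1 fun h => hk ?_
          obtain ⟨j', hj'⟩ := (hmemblk i _).1 (hsupp h)
          exact (Prod.ext_iff.1 (ι.injective ((g : Perm (Fin n)).injective hj'))).1.symm
        rw [this]
        simp [c, hk, xorPerm]
    · rw [Perm.viaEmbedding_apply_of_notMem _ _ _ hy]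
      refine Perm.notMem_support.1 fun h => hy ?_
      obtain ⟨j', hj'⟩ := (hmemblk i _).1 (hsupp h)
      exact ⟨_, (g : Perm (Fin n)).injective hj'⟩
  · intro T hT U hU hne
    obtain ⟨i, -, rfl⟩ := Finset.mem_image.1 (Finset.mem_coe.1 hT)
    obtain ⟨k, -, rfl⟩ := Finset.mem_image.1 (Finset.mem_coe.1 hU)
    refine Finset.disjoint_left.2 fun x hx hx' => hne ?_
    obtain ⟨a, ha⟩ := (hmemblk i x).1 hx
    obtain ⟨b, hb⟩ := (hmemblk k x).1 hx'
    have e : i = k :=
      (Prod.ext_iff.1 (ι.injective ((g : Perm (Fin n)).injective (ha.trans hb.symm)))).1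
    rw [e]
  · rw [Finset.card_image_of_injective _ fun i k h => ?_]
    · simp
    · obtain ⟨j, hj⟩ := (hmemblk k _).1 (h ▸ (hmemblk i _).2 ⟨0, rfl⟩)
      exact (Prod.ext_iff.1 (ι.injective ((g : Perm (Fin n)).injective hj))).1.symm

end Cfsg.Agent.H37.FourSet
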