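import Cfsg.Prelude.Def_Local
import Cfsg.Agent.H51.FStar
import Cfsg.Agent.H51.Quasisimple
import Cfsg.Agent.H63.AltSec.Setup

/-!
# The generalized Fitting subgroup of a permutation group containing three-cycles

If it is quasisimple then it is the alternating group on a set containing the supports of all
three-cycles of the group.
-/

set_option autoImplicit false

namespace Cfsg.Agent.H37

open Equiv Cfsg.Agent.H63.AltSec

variable {α : Type*} [Fintype α] [DecidableEq α]

/-- Every even permutation supported on `S` lies in `H`. -/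
def GoodSet (H : Subgroup (Perm α)) (S : Finset α) : Prop :=
  3 ≤ S.card ∧ ∀ σ : Perm α, Perm.sign σ = 1 → σ.support ⊆ S → σ ∈ H

/-- The even permutations supported on `S`. -/
def evenOn (S : Finset α) : Subgroup (Perm α) where
  carrier := {σ | Perm.sign σ = 1 ∧ σ.support ⊆ S}
  one_mem' := by simp
  mul_mem' := by
    rintro a b ⟨ha, ha'⟩ ⟨hb, hb'⟩
    exact ⟨by rw [map_mul, ha, hb, one_mul],
      (Perm.support_mul_le a b).trans (sup_le ha' hb')⟩
  inv_mem' := by
    rintro a ⟨ha, ha'⟩
    exact ⟨by rw [map_inv, ha, inv_one], by rwa [Perm.support_inv]⟩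

theorem mem_evenOn {S : Finset α} {σ : Perm α} :
    σ ∈ evenOn S ↔ Perm.sign σ = 1 ∧ σ.support ⊆ S := Iff.rfl

theorem cyc_mem_evenOn {S : Finset α} {x y z : α} (hxy : x ≠ y) (hxz : x ≠ z) (hyz : y ≠ z)
    (hx : x ∈ S) (hy : y ∈ S) (hz : z ∈ S) : cyc x y z ∈ evenOn S := by
  refine ⟨sign_cyc hxy hxz hyz, ?_⟩
  rw [support_cyc hxy hxz hyz]
  intro w hw
  simp only [Finset.mem_insert, Finset.mem_singleton] at hw
  rcases hw with rfl | rfl | rfl <;> assumption

theorem conj_mem_evenOn {S : Finset α} {g σ : Perm α} (hg : ∀ a ∈ S, g a ∈ S) (hσ : σ ∈ evenOn S) :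
    g * σ * g⁻¹ ∈ evenOn S := by
  refine ⟨by rw [map_mul, map_mul, map_inv, hσ.1, mul_one, mul_inv_cancel], ?_⟩
  rw [Perm.support_conj]
  intro w hw
  obtain ⟨a, ha, rfl⟩ := Finset.mem_map.1 hw
  exact hg a (hσ.2 ha)

/-- Some even permutation of `S` takes one unordered pair of `S` to another. -/
theorem exists_evenOn_pair {S : Finset α} {a b x y : α} (hab : a ≠ b) (hxy : x ≠ y) (ha : a ∈ S)
    (hb : b ∈ S) (hx : x ∈ S) (hy : y ∈ S) :
    ∃ σ ∈ evenOn S, (σ a = x ∧ σ b = y) ∨ (σ a = y ∧ σ b = x) := by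
  have hsw : ∀ u v, u ∈ S → v ∈ S → (swap u v).support ⊆ S := by
    intro u v hu hv w hw
    rcases eq_or_ne u v with rfl | h
    · simp at hw
    · rw [Perm.support_swap h] at hw
      simp only [Finset.mem_insert, Finset.mem_singleton] at hw
      rcases hw with rfl | rfl <;> assumption
  let σ₁ := swap a x
  have h1b : σ₁ b ∈ S := by
    show swap a x b ∈ S
    rw [swap_apply_def]; split_ifs <;> assumption
  let σ := swap (σ₁ b) y * σ₁
  have hσa : σ a = x := by
    have h1 : x ≠ σ₁ b := fun h => hab (σ₁.injective (by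
      show σ₁ a = σ₁ b
      rw [← h]; exact swap_apply_left a x))
    show swap (σ₁ b) y (swap a x a) = x
    rw [swap_apply_left, swap_apply_of_ne_of_ne h1 hxy]
  have hσb : σ b = y := by
    show swap (σ₁ b) y (σ₁ b) = y
    rw [swap_apply_left]
  have hσS : σ.support ⊆ S :=
    (Perm.support_mul_le _ _).trans (sup_le (hsw _ _ h1b hy) (hsw _ _ ha hx))
  rcases Int.units_eq_one_or (Perm.sign σ) with h | h
  · exact ⟨σ, ⟨h, hσS⟩, Or.inl ⟨hσa, hσb⟩⟩
  · refine ⟨σ * swap a b, ⟨by rw [map_mul, h, Perm.sign_swap hab]; rfl,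
      (Perm.support_mul_le _ _).trans (sup_le hσS (hsw _ _ ha hb))⟩, Or.inr ⟨?_, ?_⟩⟩
    · rw [Perm.mul_apply, swap_apply_left, hσb]
    · rw [Perm.mul_apply, swap_apply_right, hσa]

/-- A three-cycle with two points in a good set enlarges it. -/
theorem GoodSet.insert {H : Subgroup (Perm α)} {S : Finset α} (hS : GoodSet H S) {a b w : α}
    (hab : a ≠ b) (ha : a ∈ S) (hb : b ∈ S) (hw : w ∉ S) (hc : cyc a b w ∈ H) :
    GoodSet H (insert w S) := by
  have hS3 := hS.1
  refine ⟨by rw [Finset.card_insert_of_notMem hw]; omega, fun σ hσ hsupp => ?_⟩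
  refine (Subgroup.closure_le H).2 ?_ (mem_closure_threeCycles_of_support hσ _ hsupp)
  rintro τ ⟨hτ, hτS⟩
  -- three-cycles through `w`
  have key : ∀ x y : α, x ≠ y → x ∈ S → y ∈ S → cyc x y w ∈ H := by
    intro x y hxy hx hy
    obtain ⟨ρ, hρ, h⟩ := exists_evenOn_pair hab hxy ha hb hx hy
    have hρH : ρ ∈ H := hS.2 ρ hρ.1 hρ.2
    have hρw : ρ w = w := Perm.notMem_support.1 fun h => hw (hρ.2 h)
    have h1 : cyc (ρ a) (ρ b) (ρ w) ∈ H := by
      rw [← conj_cyc]; exact H.mul_mem (H.mul_mem hρH hc) (H.inv_mem hρH)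
    rw [hρw] at h1
    rcases h with ⟨e1, e2⟩ | ⟨e1, e2⟩
    · rwa [e1, e2] at h1
    · rw [e1, e2] at h1
      have h2 := H.inv_mem h1
      rw [cyc_inv] at h2
      have hwx : w ≠ x := fun e => hw (e ▸ hx)
      have hwy : w ≠ y := fun e => hw (e ▸ hy)
      rw [cyc_rotate hwx hwy hxy]
      exact h2
  obtain ⟨x, y, z, hxy, hxz, hyz, rfl⟩ := exists_cyc_eq hτ
  rw [support_cyc hxy hxz hyz] at hτS
  have hx := hτS (Finset.mem_insert_self x _)
  have hy := hτS (show y ∈ ({x, y, z} : Finset α) by simp)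
  have hz := hτS (show z ∈ ({x, y, z} : Finset α) by simp)
  rw [Finset.mem_insert] at hx hy hz
  rcases hx with rfl | hx
  · have hy' : y ∈ S := hy.resolve_left hxy.symm
    have hz' : z ∈ S := hz.resolve_left hxz.symm
    have h1 := key y z hyz hy' hz'
    rw [← cyc_rotate hxy hxz hyz]
    exact h1
  rcases hy with rfl | hy
  · have hz' : z ∈ S := hz.resolve_left hyz.symm
    have h1 := key z x hxz.symm hz' hx
    rw [cyc_rotate hxz.symm hyz.symm hxy]
    exact h1
  rcases hz with rfl | hz
  · exact key x y hxy hx hy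
  · exact hS.2 _ (sign_cyc hxy hxz hyz) (cyc_mem_evenOn hxy hxz hyz hx hy hz).2

/-- The support of a three-cycle of the group is a good set. -/
theorem goodSet_support {H : Subgroup (Perm α)} {τ : Perm α} (hτ : τ.IsThreeCycle) (hτH : τ ∈ H) :
    GoodSet H τ.support := by
  refine ⟨hτ.card_support.ge, fun σ hσ hsupp => ?_⟩
  refine (Subgroup.closure_le H).2 ?_ (mem_closure_threeCycles_of_support hσ _ hsupp)
  rintro ρ ⟨hρ, hρS⟩
  have heq : ρ.support = τ.support :=
    Finset.eq_of_subset_of_card_le hρS (by rw [hρ.card_support, hτ.card_support])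
  obtain ⟨x, y, z, hxy, hxz, hyz, rfl⟩ := exists_cyc_eq hτ
  obtain ⟨x', y', z', hxy', hxz', hyz', rfl⟩ := exists_cyc_eq hρ
  rw [support_cyc hxy hxz hyz, support_cyc hxy' hxz' hyz'] at heq
  have hx' : x' ∈ ({x, y, z} : Finset α) := heq ▸ by simp
  have hy' : y' ∈ ({x, y, z} : Finset α) := heq ▸ by simp
  have hz' : z' ∈ ({x, y, z} : Finset α) := heq ▸ by simp
  simp only [Finset.mem_insert, Finset.mem_singleton] at hx' hy' hz'
  have r1 := cyc_rotate hxy hxz hyz
  have r2 := cyc_rotate hyz hxy.symm hxz.symm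
  have hi := H.inv_mem hτH
  rw [cyc_inv] at hi
  have r3 := cyc_rotate hyz.symm hxz.symm hxy.symm
  have r4 := cyc_rotate hxy.symm hyz hxz
  rcases hx' with rfl | rfl | rfl <;> rcases hy' with rfl | rfl | rfl <;>
    rcases hz' with rfl | rfl | rfl <;>
    first
    | exact absurd rfl hxy' | exact absurd rfl hxz' | exact absurd rfl hyz'
    | exact hτH | exact hi
    | (rw [r1]; exact hτH) | (rw [r2, r1]; exact hτH) | (rw [← r1] at hτH; exact hτH)
    | (rw [← r1, ← r2] at hτH; exact hτH)
    | (rw [r3]; exact hi) | (rw [r4, r3]; exact hi) | (rw [← r3] at hi; exact hi)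
    | (rw [← r3, ← r4] at hi; exact hi)

/-- Commuting facts for the fixed-point-free even permutations of three or four points. -/
theorem regular_fin : ∀ k : Fin 5, 3 ≤ k.val → ∀ a b : Perm (Fin k.val),
    Perm.sign a = 1 → (∀ i, a i ≠ i) → Perm.sign b = 1 → (∀ i, b i ≠ i) →
      a * b = b * a ∧ (a * b = 1 ∨ ∀ i, (a * b) i ≠ i) := by
  decide

theorem regular_transitive_fin : ∀ k : Fin 5, 3 ≤ k.val → ∀ i j : Fin k.val, i ≠ j →
    ∃ a : Perm (Fin k.val), Perm.sign a = 1 ∧ (∀ l, a l ≠ l) ∧ a i = j := by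
  decide

/-- The permutations of `Fin S.card` as permutations supported on `S`. -/
noncomputable def finPerm (S : Finset α) : Perm (Fin S.card) →* Perm α :=
  (Perm.ofSubtype : Perm {x // x ∈ S} →* Perm α).comp S.equivFin.symm.permCongrHom.toMonoidHom

theorem finPerm_apply_of_mem (S : Finset α) (a : Perm (Fin S.card)) {x : α} (hx : x ∈ S) :
    finPerm S a x = (S.equivFin.symm (a (S.equivFin ⟨x, hx⟩)) : α) := by
  show Perm.ofSubtype (S.equivFin.symm.permCongr a) x = _
  rw [Perm.ofSubtype_apply_of_mem _ hx]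
  simp [Equiv.permCongr_apply]

theorem finPerm_mem (S : Finset α) {a : Perm (Fin S.card)} (ha : Perm.sign a = 1) :
    finPerm S a ∈ evenOn S := by
  refine ⟨?_, fun x hx => ?_⟩
  · show Perm.sign (Perm.ofSubtype (S.equivFin.symm.permCongr a)) = 1
    rw [Perm.sign_ofSubtype, Perm.sign_permCongr, ha]
  · by_contra hxS
    exact Perm.mem_support.1 hx
      (show Perm.ofSubtype (S.equivFin.symm.permCongr a) x = x from
        Perm.ofSubtype_apply_of_not_mem _ hxS)

theorem support_finPerm_eq (S : Finset α) {a : Perm (Fin S.card)} (ha : Perm.sign a = 1)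
    (hfp : ∀ i, a i ≠ i) : (finPerm S a).support = S := by
  refine (finPerm_mem S ha).2.antisymm fun x hx => Perm.mem_support.2 fun h => ?_
  apply hfp (S.equivFin ⟨x, hx⟩)
  rw [finPerm_apply_of_mem S a hx] at h
  have := congrArg S.equivFin (Subtype.ext h : S.equivFin.symm (a (S.equivFin ⟨x, hx⟩)) = ⟨x, hx⟩)
  rwa [Equiv.apply_symm_apply] at this

theorem exists_finPerm_eq {S : Finset α} {σ : Perm α} (hσ : σ ∈ evenOn S)
    (hcard : S.card = σ.support.card) :
    ∃ a : Perm (Fin S.card), Perm.sign a = 1 ∧ (∀ i, a i ≠ i) ∧ finPerm S a = σ := by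
  have hsupp : σ.support = S := Finset.eq_of_subset_of_card_le hσ.2 hcard.le
  have hmem : ∀ x, σ x ∈ S ↔ x ∈ S := fun x => by rw [← hsupp]; exact Perm.apply_mem_support
  refine ⟨S.equivFin.permCongr (σ.subtypePerm hmem), ?_, fun i h => ?_, ?_⟩
  · rw [Perm.sign_permCongr]
    convert! (Perm.sign_subtypePerm σ hmem fun x hx => hσ.2 (Perm.mem_support.2 hx)).trans hσ.1
  · have hx : ((S.equivFin.symm i : {x // x ∈ S}) : α) ∈ σ.support :=
      hsupp.symm ▸ (S.equivFin.symm i).2
    refine Perm.mem_support.1 hx ?_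
    rw [Equiv.permCongr_apply, ← Equiv.eq_symm_apply] at h
    exact congrArg Subtype.val h
  · show Perm.ofSubtype (S.equivFin.symm.permCongr (S.equivFin.permCongr (σ.subtypePerm hmem))) = σ
    rw [← Equiv.permCongr_symm, Equiv.symm_apply_apply]
    exact Perm.ofSubtype_subtypePerm _ fun x hx => hσ.2 (Perm.mem_support.2 hx)

theorem regular_mul {S : Finset α} (h5 : S.card < 5) (h3 : 3 ≤ S.card) {a b : Perm α}
    (ha : a ∈ evenOn S) (hb : b ∈ evenOn S) (ha' : S.card = a.support.card)
    (hb' : S.card = b.support.card) :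
    a * b = b * a ∧ (a * b = 1 ∨ S.card = (a * b).support.card) := by
  obtain ⟨a₀, sa, fa, rfl⟩ := exists_finPerm_eq ha ha'
  obtain ⟨b₀, sb, fb, rfl⟩ := exists_finPerm_eq hb hb'
  obtain ⟨h1, h2⟩ := regular_fin ⟨S.card, h5⟩ h3 a₀ b₀ sa fa sb fb
  refine ⟨by rw [← map_mul, ← map_mul, h1], ?_⟩
  rw [← map_mul]
  rcases h2 with h | h
  · exact Or.inl (by rw [h, map_one])
  · exact Or.inr (by rw [support_finPerm_eq S (by rw [map_mul, sa, sb, one_mul]) h])

/-- The fixed-point-free even permutations of three or four points are transitive. -/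
theorem exists_regular {S : Finset α} (h5 : S.card < 5) (h3 : 3 ≤ S.card) {x y : α} (hx : x ∈ S)
    (hy : y ∈ S) (hxy : x ≠ y) :
    ∃ σ ∈ evenOn S, S.card = σ.support.card ∧ σ x = y := by
  obtain ⟨a, sa, fa, hij⟩ := regular_transitive_fin ⟨S.card, h5⟩ h3 (S.equivFin ⟨x, hx⟩)
    (S.equivFin ⟨y, hy⟩) (fun h => hxy (congrArg Subtype.val (S.equivFin.injective h)))
  refine ⟨finPerm S a, finPerm_mem S sa, by rw [support_finPerm_eq S sa fa], ?_⟩
  rw [finPerm_apply_of_mem S a hx, hij, Equiv.symm_apply_apply]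

/-- The union of two meeting good sets is good. -/
theorem GoodSet.union {H : Subgroup (Perm α)} {S T : Finset α} (hS : GoodSet H S)
    (hT : GoodSet H T) {a : α} (haS : a ∈ S) (haT : a ∈ T) : GoodSet H (S ∪ T) := by
  suffices h : ∀ U : Finset α, U ⊆ T → GoodSet H (S ∪ U) from h T subset_rfl
  intro U
  induction U using Finset.induction_on with
  | empty => intro _; simpa using hS
  | @insert w U hwU ih =>
    intro hUT
    have hwT : w ∈ T := hUT (Finset.mem_insert_self w U)
    have hgood := ih ((Finset.subset_insert w U).trans hUT)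
    by_cases hwS : w ∈ S ∪ U
    · rwa [Finset.union_insert, Finset.insert_eq_of_mem hwS]
    rw [Finset.union_insert]
    have haU : a ∈ S ∪ U := Finset.mem_union_left _ haS
    have hwa : w ≠ a := fun h => hwS (h ▸ haU)
    obtain ⟨v, hv, hva, hvw⟩ : ∃ v ∈ T, v ≠ a ∧ v ≠ w := by
      have : ({a, w} : Finset α).card < T.card := lt_of_le_of_lt Finset.card_le_two hT.1
      obtain ⟨v, hv, hv'⟩ := Finset.exists_mem_notMem_of_card_lt_card this
      simp only [Finset.mem_insert, Finset.mem_singleton, not_or] at hv'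
      exact ⟨v, hv, hv'.1, hv'.2⟩
    by_cases hvS : v ∈ S ∪ U
    · exact hgood.insert hva.symm haU hvS hwS
        (hT.2 _ (sign_cyc hva.symm hwa.symm hvw) (cyc_mem_evenOn hva.symm hwa.symm hvw haT hv hwT).2)
    · obtain ⟨b, c, hb, hc, hbc, hba, hca⟩ :
          ∃ b c, b ∈ S ∧ c ∈ S ∧ b ≠ c ∧ b ≠ a ∧ c ≠ a := by
        have h3 := hS.1
        have : 1 < (S.erase a).card := by rw [Finset.card_erase_of_mem haS]; omega
        obtain ⟨b, hb, c, hc, hbc⟩ := Finset.one_lt_card.1 this
        exact ⟨b, c, Finset.mem_of_mem_erase hb, Finset.mem_of_mem_erase hc, hbc,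
          Finset.ne_of_mem_erase hb, Finset.ne_of_mem_erase hc⟩
      have hbU : b ∈ S ∪ U := Finset.mem_union_left _ hb
      have hcU : c ∈ S ∪ U := Finset.mem_union_left _ hc
      have hbw : b ≠ w := fun h => hwS (h ▸ hbU)
      have hbv : b ≠ v := fun h => hvS (h ▸ hbU)
      have hcw : c ≠ w := fun h => hwS (h ▸ hcU)
      have hcv : c ≠ v := fun h => hvS (h ▸ hcU)
      have h1 : cyc b c a ∈ H := hS.2 _ (sign_cyc hbc hba hca)
        (cyc_mem_evenOn hbc hba hca hb hc haS).2
      have h2 : cyc a w v ∈ H := hT.2 _ (sign_cyc hwa.symm hva.symm hvw.symm)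
        (cyc_mem_evenOn hwa.symm hva.symm hvw.symm haT hwT hv).2
      have h3 := H.mul_mem (H.mul_mem h2 h1) (H.inv_mem h2)
      rw [conj_cyc, cyc_apply_of_ne hba hbw hbv, cyc_apply_of_ne hca hcw hcv,
        cyc_apply_fst hwa.symm hva.symm] at h3
      exact hgood.insert hbc hbU hcU hwS h3

/-- A maximal good set is kept or moved off itself by every three-cycle of the group. -/
theorem GoodSet.three_cycle_maps {H : Subgroup (Perm α)} {S : Finset α} (hS : GoodSet H S)
    (hmax : ∀ T, GoodSet H T → S ⊆ T → T = S) {τ : Perm α} (hτ : τ.IsThreeCycle) (hτH : τ ∈ H) :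
    τ.support ⊆ S ∨ Disjoint τ.support S := by
  refine or_iff_not_imp_right.2 fun hd => ?_
  obtain ⟨a, ha1, ha2⟩ := Finset.not_disjoint_iff.1 hd
  have hT : GoodSet H τ.support := goodSet_support hτ hτH
  have := hmax _ (hS.union hT ha2 ha1) Finset.subset_union_left
  exact this ▸ Finset.subset_union_right

/-- If `F*(H)` is quasisimple and `H` has a three-cycle, all three-cycles of `H` move points of one
set `S` of at least five points only, and `F*(H)` consists of the even permutations of `S`. -/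
theorem exists_evenOn_eq_generalizedFitting (H : Subgroup (Perm α))
    (hF : Cfsg.IsQuasisimple ↥(Cfsg.generalizedFittingSubgroup ↥H)) {τ : Perm α}
    (hτ : τ.IsThreeCycle) (hτH : τ ∈ H) :
    ∃ S : Finset α, (∀ ρ : Perm α, ρ.IsThreeCycle → ρ ∈ H → ρ.support ⊆ S) ∧
      (Cfsg.generalizedFittingSubgroup ↥H).map H.subtype = evenOn S := by
  classical
  set K := Cfsg.generalizedFittingSubgroup ↥H with hKdef
  let N₀ : Subgroup ↥H := Subgroup.closure {u : ↥H | (u : Perm α).IsThreeCycle}
  have hN₀ : N₀.Normal := by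
    refine ⟨fun u hu g => ?_⟩
    induction hu using Subgroup.closure_induction with
    | mem v hv =>
      refine Subgroup.subset_closure (show ((g * v * g⁻¹ : ↥H) : Perm α).IsThreeCycle from ?_)
      rw [Subgroup.coe_mul, Subgroup.coe_mul, Subgroup.coe_inv, Perm.IsThreeCycle,
        Perm.cycleType_conj]
      exact hv
    | one => simp
    | mul u v _ _ hu hv =>
      have := mul_mem hu hv
      rwa [show g * u * g⁻¹ * (g * v * g⁻¹) = g * (u * v) * g⁻¹ by group] at this
    | inv u _ hu =>
      have := inv_mem hu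
      rwa [show (g * u * g⁻¹)⁻¹ = g * u⁻¹ * g⁻¹ by group] at this
  have hKperf : Group.IsPerfect ↥K := hF.1
  -- every maximal good set gives all of `F*(H)`
  have key : ∀ S, GoodSet H S → (∀ T, GoodSet H T → S ⊆ T → T = S) →
      K.map H.subtype = evenOn S := by
    intro S hS hmax
    let A : Subgroup ↥H := (evenOn S).subgroupOf H
    have hAle : evenOn S ≤ H := fun σ hσ => hS.2 σ hσ.1 hσ.2
    have hAmap : A.map H.subtype = evenOn S := Subgroup.map_subgroupOf_eq_of_le hAle
    have hAN : A ≤ N₀ := by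
      intro u hu
      have h1 := mem_closure_threeCycles_of_support hu.1 S hu.2
      have h2 : ∀ v ∈ Subgroup.closure {ρ : Perm α | ρ.IsThreeCycle ∧ ρ.support ⊆ S},
          ∃ hv : v ∈ H, (⟨v, hv⟩ : ↥H) ∈ N₀ := by
        intro v hv
        induction hv using Subgroup.closure_induction with
        | mem v hv => exact ⟨hS.2 v hv.1.sign hv.2, Subgroup.subset_closure hv.1⟩
        | one => exact ⟨H.one_mem, N₀.one_mem⟩
        | mul v w _ _ hv hw =>
          obtain ⟨h1, h1'⟩ := hv
          obtain ⟨h2, h2'⟩ := hw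
          exact ⟨H.mul_mem h1 h2, N₀.mul_mem h1' h2'⟩
        | inv v _ hv =>
          obtain ⟨h1, h1'⟩ := hv
          exact ⟨H.inv_mem h1, N₀.inv_mem h1'⟩
      obtain ⟨hv, hv'⟩ := h2 _ h1
      exact hv'
    have hstab : ∀ u ∈ N₀, (∀ a ∈ S, (u : Perm α) a ∈ S) ∧ (∀ a ∈ S, (u : Perm α)⁻¹ a ∈ S) := by
      intro u hu
      induction hu using Subgroup.closure_induction with
      | mem v hv =>
        have h1 : ∀ ρ : Perm α, ρ.IsThreeCycle → ρ ∈ H → ∀ a ∈ S, ρ a ∈ S := by
          intro ρ hρ hρH a ha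
          rcases hS.three_cycle_maps hmax hρ hρH with h | h
          · by_cases hs : a ∈ ρ.support
            · exact h (Perm.apply_mem_support.2 hs)
            · rwa [Perm.notMem_support.1 hs]
          · rwa [Perm.notMem_support.1 (Finset.disjoint_right.1 h ha)]
        exact ⟨h1 _ hv v.2, h1 _ hv.inv (H.inv_mem v.2)⟩
      | one => simp
      | mul u v _ _ hu hv =>
        refine ⟨fun a ha => hu.1 _ (hv.1 a ha), fun a ha => ?_⟩
        rw [Subgroup.coe_mul, mul_inv_rev]
        exact hv.2 _ (hu.2 a ha)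
      | inv u _ hu => exact ⟨by simpa using hu.2, by simpa using hu.1⟩
    have hAn : (A.subgroupOf N₀).Normal := by
      refine ⟨fun u hu g => ?_⟩
      exact conj_mem_evenOn (hstab g g.2).1 hu
    have hsub : A.IsSubnormal := .step A N₀ hAN hN₀.isSubnormal hAn
    by_cases h5 : 5 ≤ S.card
    · -- a simple component
      have hpres : ∀ σ : ↥(evenOn S), ∀ x, (σ : Perm α) x ∈ S ↔ x ∈ S := by
        intro σ x
        by_cases hx : x ∈ (σ : Perm α).support
        · exact iff_of_true (σ.2.2 (Perm.apply_mem_support.2 hx)) (σ.2.2 hx)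
        · rw [Perm.notMem_support.1 hx]
      have e : ↥(evenOn S) ≃* ↥(alternatingGroup {x // x ∈ S}) :=
        { toFun := fun σ => ⟨(σ : Perm α).subtypePerm (hpres σ), by
              rw [Perm.mem_alternatingGroup]
              convert! (Perm.sign_subtypePerm (σ : Perm α) (hpres σ)
                fun x hx => σ.2.2 (Perm.mem_support.2 hx)).trans σ.2.1⟩
          invFun := fun σ => ⟨Perm.ofSubtype (σ : Perm {x // x ∈ S}), by
            refine ⟨by rw [Perm.sign_ofSubtype]; exact σ.2, fun x hx => ?_⟩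
            by_contra hxS
            exact Perm.mem_support.1 hx (Perm.ofSubtype_apply_of_not_mem _ hxS)⟩
          left_inv := fun σ => Subtype.ext
            (Perm.ofSubtype_subtypePerm (hpres σ) fun x hx => σ.2.2 (Perm.mem_support.2 hx))
          right_inv := fun σ => Subtype.ext (Equiv.ext fun x => Subtype.ext (by simp))
          map_mul' := fun σ τ => Subtype.ext (Equiv.ext fun x => Subtype.ext rfl) }
      have hsimp : IsSimpleGroup ↥A := by
        have : IsSimpleGroup ↥(alternatingGroup {x // x ∈ S}) :=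
          alternatingGroup.isSimpleGroup (by
            rw [Nat.card_eq_fintype_card, Fintype.card_coe]; exact h5)
        exact ((Subgroup.subgroupOfEquivOfLe hAle).trans e).isSimpleGroup
      obtain ⟨c, hc⟩ : ∃ c : ↥(alternatingGroup {x // x ∈ S}), ∃ d, c * d ≠ d * c := by
        by_contra hcon
        push Not at hcon
        have : 4 ≤ Fintype.card {x // x ∈ S} := by rw [Fintype.card_coe]; omega
        have hcen := alternatingGroup.center_eq_bot (α := {x // x ∈ S})
          (by rw [Nat.card_eq_fintype_card]; exact this)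
        have : Nontrivial ↥(alternatingGroup {x // x ∈ S}) :=
          alternatingGroup.nontrivial_of_three_le_card (by
            first | omega | (rw [Nat.card_eq_fintype_card, Fintype.card_coe]; omega))
        obtain ⟨u, hu⟩ := exists_ne (1 : ↥(alternatingGroup {x // x ∈ S}))
        exact hu (Subgroup.mem_bot.1 (hcen ▸ Subgroup.mem_center_iff.2 (fun g => hcon g u)))
      have hqs : Cfsg.IsQuasisimple ↥A := by
        have hnc : ¬ IsMulCommutative ↥A := fun h => hc.elim fun d hd => hd (by
          obtain ⟨c', rfl⟩ := ((Subgroup.subgroupOfEquivOfLe hAle).trans e).surjective c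
          obtain ⟨d', rfl⟩ := ((Subgroup.subgroupOfEquivOfLe hAle).trans e).surjective d
          rw [← map_mul, ← map_mul, h.is_comm.comm])
        have : Group.IsPerfect ↥A := by
          rw [Group.isPerfect_def]
          refine (Subgroup.Normal.eq_bot_or_eq_top
            (inferInstance : (commutator ↥A).Normal)).resolve_left fun h => ?_
          exact hnc ⟨⟨fun a b => commutatorElement_eq_one_iff_mul_comm.1 (Subgroup.mem_bot.1 (h ▸
            Subgroup.commutator_mem_commutator (Subgroup.mem_top a) (Subgroup.mem_top b)))⟩⟩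
        refine Cfsg.Agent.H51.isQuasisimple_of_normal_le_center fun N hN => ?_
        rcases hN.eq_bot_or_eq_top with h | h
        · exact Or.inr (h ▸ bot_le)
        · exact Or.inl h
      have hAK : A ≤ K := by
        refine le_trans ?_ (Cfsg.Agent.H51.layer_le_generalizedFitting _)
        unfold Cfsg.layer
        exact le_sSup (show A ∈ {K : Subgroup ↥H | Cfsg.IsComponent K} from ⟨hsub, hqs⟩)
      rcases Cfsg.Agent.H51.quasisimple_eq_top_or_le_center_of_subnormal hF (A.subgroupOf K)
        hsub.subgroupOf with h | h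
      · rw [← le_antisymm hAK (Subgroup.subgroupOf_eq_top.1 h), hAmap]
      · exfalso
        obtain ⟨d, hd⟩ := hc
        obtain ⟨c', rfl⟩ := ((Subgroup.subgroupOfEquivOfLe hAle).trans e).surjective c
        obtain ⟨d', rfl⟩ := ((Subgroup.subgroupOfEquivOfLe hAle).trans e).surjective d
        apply hd
        have h1 := Subgroup.mem_center_iff.1 (h (show (⟨(c' : ↥H), hAK c'.2⟩ : ↥K) ∈
          A.subgroupOf K from c'.2)) ⟨(d' : ↥H), hAK d'.2⟩
        rw [← map_mul, ← map_mul, show c' * d' = d' * c' from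
          Subtype.ext (congrArg Subtype.val h1).symm]
    · -- three or four points: an abelian subnormal subgroup acting regularly
      exfalso
      push Not at h5
      let V : Subgroup (Perm α) :=
        { carrier := {σ | σ ∈ evenOn S ∧ (σ = 1 ∨ S.card = σ.support.card)}
          one_mem' := ⟨one_mem _, Or.inl rfl⟩
          mul_mem' := by
            rintro a b ⟨ha, ha'⟩ ⟨hb, hb'⟩
            refine ⟨mul_mem ha hb, ?_⟩
            rcases ha' with rfl | ha'
            · rw [one_mul]; exact hb'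
            rcases hb' with rfl | hb'
            · rw [mul_one]; exact Or.inr ha'
            exact (regular_mul h5 hS.1 ha hb ha' hb').2
          inv_mem' := by
            rintro a ⟨ha, ha'⟩
            refine ⟨inv_mem ha, ?_⟩
            rcases ha' with rfl | ha'
            · exact Or.inl inv_one
            · exact Or.inr (by rw [Perm.support_inv]; exact ha') }
      have hVA : V ≤ evenOn S := fun σ hσ => hσ.1
      have hVcomm : ∀ a ∈ V, ∀ b ∈ V, a * b = b * a := by
        rintro a ⟨ha, ha'⟩ b ⟨hb, hb'⟩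
        rcases ha' with rfl | ha'
        · simp
        rcases hb' with rfl | hb'
        · simp
        exact (regular_mul h5 hS.1 ha hb ha' hb').1
      let E : Subgroup ↥H := V.subgroupOf H
      have hEA : E ≤ A := fun u hu => hVA hu
      have hEn : (E.subgroupOf A).Normal := by
        refine ⟨fun u hu g => ⟨mul_mem (mul_mem g.2 hu.1) (inv_mem g.2), ?_⟩⟩
        rcases hu.2 with h | h
        · left
          show ((g : ↥H) : Perm α) * ((u : ↥H) : Perm α) * (((g : ↥H) : Perm α))⁻¹ = 1
          rw [show ((u : ↥H) : Perm α) = 1 from h]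
          simp
        · right
          show S.card = (((g : ↥H) : Perm α) * ((u : ↥H) : Perm α) *
            (((g : ↥H) : Perm α))⁻¹).support.card
          rw [Perm.support_conj, Finset.card_map]
          exact h
      have hEsub : E.IsSubnormal := .step E A hEA hsub hEn
      have hEc : IsMulCommutative ↥E :=
        ⟨⟨fun a b => Subtype.ext (Subtype.ext (hVcomm _ a.2 _ b.2))⟩⟩
      have hEK : E ≤ K := by
        open scoped IsMulCommutative in
        exact (Cfsg.Agent.H51.le_fittingSubgroup_of_subnormal hEsub).trans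
          (Cfsg.Agent.H51.fitting_le_generalizedFitting _)
      obtain ⟨x₀, hx₀, y₀, hy₀, hxy₀⟩ := Finset.one_lt_card.1 (show 1 < S.card by
        have := hS.1; omega)
      obtain ⟨σ, hσ, hσS, -⟩ := exists_regular h5 hS.1 hx₀ hy₀ hxy₀
      -- permutations commuting with `V` commute on `S`
      have hσtr : ∀ u v : Perm α, ∀ x ∈ S, u x ∈ S → v x ∈ S → (∀ w ∈ V, ∀ p, u (w p) = w (u p)) →
          (∀ w ∈ V, ∀ p, v (w p) = w (v p)) → u (v x) = v (u x) := by
        intro u v x hx hux hvx hu hv
        have hex : ∀ y ∈ S, ∃ w ∈ V, w x = y := fun y hy => by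
          rcases eq_or_ne x y with rfl | h
          · exact ⟨1, one_mem _, rfl⟩
          · obtain ⟨w, hw, hw', hwx⟩ := exists_regular h5 hS.1 hx hy h
            exact ⟨w, ⟨hw, Or.inr hw'⟩, hwx⟩
        obtain ⟨w1, hw1, e1⟩ := hex _ hux
        obtain ⟨w2, hw2, e2⟩ := hex _ hvx
        rw [← e2, ← e1, hu w2 hw2, hv w1 hw1, ← e1, ← e2]
        exact Equiv.Perm.congr_fun (hVcomm w2 hw2 w1 hw1) x
      have hσH : σ ∈ H := hAle hσ
      have hσV : σ ∈ V := ⟨hσ, Or.inr hσS⟩
      rcases Cfsg.Agent.H51.quasisimple_eq_top_or_le_center_of_subnormal hF (E.subgroupOf K)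
        hEsub.subgroupOf with h | h
      · have hKE : K = E := le_antisymm (Subgroup.subgroupOf_eq_top.1 h) hEK
        have : Nontrivial ↥K := by
          refine ⟨⟨⟨σ, hσH⟩, hEK hσV⟩, 1, fun h => ?_⟩
          have h1 : σ = 1 := congrArg (fun u : ↥K => ((u : ↥H) : Perm α)) h
          rw [h1, Perm.support_one, Finset.card_empty] at hσS
          have := hS.1
          omega
        have := hKperf
        refine Group.IsPerfect.not_isMulCommutative ↥K ⟨⟨fun a b => ?_⟩⟩
        refine Subtype.ext ?_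
        show (a : ↥H) * (b : ↥H) = (b : ↥H) * (a : ↥H)
        exact congrArg Subtype.val (hEc.is_comm.comm ⟨a, hKE ▸ a.2⟩ ⟨b, hKE ▸ b.2⟩)
      · -- `K` centralizes `E`, so it acts on `S` by a commutative group
        have hcomm : ∀ u : ↥K, ∀ v ∈ V, ((u : ↥H) : Perm α) * v = v * ((u : ↥H) : Perm α) := by
          intro u v hv
          have hvH : v ∈ H := hAle hv.1
          have h1 := Subgroup.mem_center_iff.1
            (h (show (⟨⟨v, hvH⟩, hEK hv⟩ : ↥K) ∈ E.subgroupOf K from hv)) u
          exact congrArg (fun w : ↥K => ((w : ↥H) : Perm α)) h1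
        have hS' : ∀ u : ↥K, ∀ a, ((u : ↥H) : Perm α) a ∈ S ↔ a ∈ S := by
          intro u a
          have h1 := congrArg Perm.support (mul_inv_eq_iff_eq_mul.2 (hcomm u σ hσV))
          have hsupp : σ.support = S := Finset.eq_of_subset_of_card_le hσ.2 hσS.le
          rw [Perm.support_conj, hsupp] at h1
          constructor
          · intro ha
            rw [← h1] at ha
            obtain ⟨b, hb, hb'⟩ := Finset.mem_map.1 ha
            exact (((u : ↥H) : Perm α).injective hb') ▸ hb
          · intro ha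
            rw [← h1]
            exact Finset.mem_map_of_mem _ ha
        let f : ↥K →* Perm {x // x ∈ S} :=
          { toFun := fun u => ((u : ↥H) : Perm α).subtypePerm (hS' u)
            map_one' := Equiv.ext fun x => Subtype.ext rfl
            map_mul' := fun u v => Equiv.ext fun x => Subtype.ext rfl }
        have hfc : ∀ u v, f u * f v = f v * f u := by
          intro u v
          refine Equiv.ext fun x => Subtype.ext ?_
          show ((u : ↥H) : Perm α) (((v : ↥H) : Perm α) x) =
            ((v : ↥H) : Perm α) (((u : ↥H) : Perm α) x)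
          exact hσtr _ _ x x.2 ((hS' u x).2 x.2) ((hS' v x).2 x.2)
            (fun w hw => Equiv.Perm.congr_fun (hcomm u w ⟨hw.1, hw.2⟩))
            (fun w hw => Equiv.Perm.congr_fun (hcomm v w ⟨hw.1, hw.2⟩))
        have hker : f.ker = ⊤ := by
          refine top_le_iff.1 ?_
          rw [← Group.isPerfect_def.1 hKperf]
          refine Subgroup.commutator_le.2 fun u _ v _ => ?_
          rw [MonoidHom.mem_ker, commutatorElement_def, map_mul, map_mul, map_mul, map_inv,
            map_inv, hfc u v, mul_inv_cancel_right, mul_inv_cancel]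
        obtain ⟨a, ha⟩ : σ.support.Nonempty :=
          Finset.card_pos.1 (by have := hS.1; omega)
        have h1 : f ⟨⟨σ, hσH⟩, hEK hσV⟩ = 1 := MonoidHom.mem_ker.1 (hker ▸ Subgroup.mem_top _)
        have h2 := congrArg Subtype.val (Equiv.ext_iff.1 h1 ⟨a, hσ.2 ha⟩)
        exact Perm.mem_support.1 ha h2
  -- a maximal good set around each three-cycle
  have hex : ∀ ρ : Perm α, ρ.IsThreeCycle → ρ ∈ H →
      ∃ S, GoodSet H S ∧ ρ.support ⊆ S ∧ ∀ T, GoodSet H T → S ⊆ T → T = S := by
    intro ρ hρ hρH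
    have hgood : GoodSet H ρ.support := goodSet_support hρ hρH
    obtain ⟨S, hle, hS⟩ := (Set.toFinite {T : Finset α | GoodSet H T}).exists_le_maximal hgood
    exact ⟨S, hS.1, hle, fun T hT hST => le_antisymm (hS.2 hT hST) hST⟩
  obtain ⟨S, hS, hτS, hmax⟩ := hex τ hτ hτH
  refine ⟨S, fun ρ hρ hρH => ?_, key S hS hmax⟩
  obtain ⟨T, hT, hρT, hmaxT⟩ := hex ρ hρ hρH
  have heq := (key S hS hmax).symm.trans (key T hT hmaxT)
  have hmem : ρ ∈ evenOn S := heq ▸ ⟨hρ.sign, hρT⟩
  exact hmem.2

end Cfsg.Agent.H37
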