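import Cfsg.Agent.H37.TwistedModule

/-! The action of `{±1} × SL₂(q)` on the twisted tensor module. -/

namespace Cfsg.Agent.H37.Twisted

open Matrix Cfsg.Agent.H69

variable {F : Type*} [Field F] [CharP F 3]

local notation "SL₂" => Matrix.SpecialLinearGroup (Fin 2) F
local notation "M₂" => Matrix (Fin 2) (Fin 2) F

/-- The sign as a scalar. -/
def sgn (F : Type*) [Field F] : ℤˣ →* F where
  toFun e := ((e : ℤ) : F)
  map_one' := by simp
  map_mul' a b := by simp

/-- The linear map attached to a pair. -/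
noncomputable def lin (g : ℤˣ × SL₂) (X : M₂) : M₂ := sgn F g.1 • ((g.2 : M₂) * X * (tw g.2 : M₂)ᵀ)

theorem lin_one (X : M₂) : lin (1 : ℤˣ × SL₂) X = X := by
  simp [lin]

theorem lin_mul (g h : ℤˣ × SL₂) (X : M₂) : lin (g * h) X = lin g (lin h X) := by
  simp only [lin, Prod.fst_mul, Prod.snd_mul, map_mul, Matrix.SpecialLinearGroup.coe_mul, transpose_mul,
    mul_smul_comm, smul_mul_assoc, smul_smul, mul_assoc]

theorem lin_add (g : ℤˣ × SL₂) (X Y : M₂) : lin g (X + Y) = lin g X + lin g Y := by
  simp only [lin, mul_add, add_mul, smul_add]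

/-- The action by automorphisms. -/
noncomputable def actHom : ℤˣ × SL₂ →* MulAut (Multiplicative M₂) where
  toFun g :=
    { toFun := fun v => Multiplicative.ofAdd (lin g (Multiplicative.toAdd v))
      invFun := fun v => Multiplicative.ofAdd (lin g⁻¹ (Multiplicative.toAdd v))
      left_inv := fun v => by simp only [toAdd_ofAdd, ← lin_mul, inv_mul_cancel, lin_one, ofAdd_toAdd]
      right_inv := fun v => by simp only [toAdd_ofAdd, ← lin_mul, mul_inv_cancel, lin_one, ofAdd_toAdd]
      map_mul' := fun v w => by simp only [toAdd_mul, lin_add, ofAdd_add] }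
  map_one' := MulEquiv.ext fun v => by
    show Multiplicative.ofAdd (lin 1 (Multiplicative.toAdd v)) = v
    rw [lin_one, ofAdd_toAdd]
  map_mul' g h := MulEquiv.ext fun v => by
    show Multiplicative.ofAdd (lin (g * h) (Multiplicative.toAdd v)) = _
    rw [lin_mul]; rfl

theorem actHom_apply (g : ℤˣ × SL₂) (v : Multiplicative M₂) :
    actHom g v = Multiplicative.ofAdd (lin g (Multiplicative.toAdd v)) := rfl

theorem eq_one_or_neg_one_of_sq {B : SL₂} (h : B * B = 1) : B = 1 ∨ B = -1 := by
  refine (sl2_mem_center_iff_eq B).1 ((sl2_mem_center_iff B).2 ?_)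
  have h3 : (3 : F) = 0 := CharP.cast_eq_zero F 3
  have h1 : (1 : F) ≠ 0 := one_ne_zero
  have e := cayley B
  rw [← Matrix.SpecialLinearGroup.coe_mul, h, Matrix.SpecialLinearGroup.coe_one] at e
  have ht : (B : M₂).trace ≠ 0 := by
    intro ht
    rw [ht, zero_smul, zero_sub] at e
    have := congrFun (congrFun e 0) 0
    simp at this
    exact h1 (by linear_combination h3 - this)
  refine ⟨?_, ?_, ?_⟩
  · simpa [ht] using congrFun (congrFun e 0) 1
  · simpa [ht] using congrFun (congrFun e 1) 0
  · have e0 := congrFun (congrFun e 0) 0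
    have e1 := congrFun (congrFun e 1) 1
    simp at e0 e1
    exact mul_left_cancel₀ ht (by linear_combination e1 - e0)

theorem lin_central (B : SL₂) (hB : B = 1 ∨ B = -1) (e : ℤˣ) (X : M₂) : lin (e, B) X = sgn F e • X := by
  rcases hB with rfl | rfl
  · simp [lin]
  · have : (tw (-1 : SL₂) : M₂) = -1 := by
      ext i j
      rw [tw_apply]
      fin_cases i <;> fin_cases j <;> simp [Odd.neg_pow (⟨1, rfl⟩ : Odd 3)]
    simp [lin, this]

/-- An element acting trivially is central with trivial sign. -/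
theorem kernel_eq (hm1 : ∀ x : F, x ^ 2 ≠ -1) {e : ℤˣ} {A : SL₂} (h : actHom (e, A) = 1) :
    e = 1 ∧ (A = 1 ∨ A = -1) := by
  have h3 : (3 : F) = 0 := CharP.cast_eq_zero F 3
  have hX : ∀ i j k l, sgn F e * ((A : M₂) i k * (A : M₂) j l ^ 3) = Matrix.single k l (1 : F) i j := by
    intro i j k l
    have h' := congrFun (congrFun (congrArg Multiplicative.toAdd
      (DFunLike.congr_fun h (Multiplicative.ofAdd (Matrix.single k l (1 : F))))) i) j
    change (sgn F e • ((A : M₂) * Matrix.single k l (1 : F) * (tw A : M₂)ᵀ)) i j = Matrix.single k l (1 : F) i j at h'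
    rw [← h', Matrix.smul_apply, smul_eq_mul, mul_apply, Fin.sum_univ_two]
    fin_cases k <;> fin_cases l <;> simp [mul_apply, Fin.sum_univ_two, tw_apply, transpose_apply]
  have a00 := hX 0 0 0 0
  have a11 := hX 1 1 1 1
  have a01 := hX 0 0 1 1
  have a10 := hX 1 1 0 0
  simp at a00 a11 a01 a10
  have hs : sgn F e = 1 ∨ sgn F e = -1 := by rcases Int.units_eq_one_or e with rfl | rfl <;> simp [sgn]
  have hs0 : sgn F e ≠ 0 := by rcases hs with e | e <;> simp [e]
  have b01 : (A : M₂) 0 1 = 0 := by simpa [hs0, ← pow_succ'] using a01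
  have b10 : (A : M₂) 1 0 = 0 := by simpa [hs0, ← pow_succ'] using a10
  have hd := A.2
  rw [det_fin_two, b01, b10] at hd
  have c01 := hX 0 1 0 1
  simp at c01
  set a := (A : M₂) 0 0 with ha
  set d := (A : M₂) 1 1 with hd'
  have ha2 : a ^ 2 = 1 := by
    have e1 : a ^ 4 = a * d ^ 3 := mul_left_cancel₀ hs0 (by linear_combination a00 - c01)
    have e6' : a ^ 6 = 1 := by linear_combination a ^ 2 * e1 + ((a * d) ^ 2 + a * d + 1) * hd
    have e6 : (a ^ 2 - 1) ^ 3 = 0 := by linear_combination e6' + (a ^ 2 - a ^ 4) * h3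
    exact sub_eq_zero.1 (pow_eq_zero_iff (by norm_num) |>.1 e6)
  have hA : A * A = 1 := Subtype.ext (by
    rw [Matrix.SpecialLinearGroup.coe_mul, Matrix.SpecialLinearGroup.coe_one]
    have had : a = d := mul_left_cancel₀ (fun e0 : a = 0 => by rw [e0] at ha2; simp at ha2)
      (show a * a = a * d by linear_combination ha2 - hd)
    ext i j
    fin_cases i <;> fin_cases j <;> simp [mul_apply, Fin.sum_univ_two, b01, b10] <;>
      first | linear_combination ha2 | (rw [← hd', ← had]; linear_combination ha2))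
  refine ⟨?_, eq_one_or_neg_one_of_sq hA⟩
  have he : sgn F e = 1 := by linear_combination a00 - sgn F e * (a ^ 2 + 1) * ha2
  rcases Int.units_eq_one_or e with rfl | rfl
  · rfl
  · exfalso
    simp [sgn] at he
    exact one_ne_zero (show (1 : F) = 0 by linear_combination h3 + he)

end Cfsg.Agent.H37.Twisted
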