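import Cfsg.Agent.H69.NonsplitTorus
import Cfsg.Agent.H69.PSL2Elements

/-! The twisted tensor module of `SL₂(q)`, `q` a power of three. -/

namespace Cfsg.Agent.H37.Twisted

open Matrix

variable {F : Type*} [Field F] [CharP F 3]

local notation "SL₂" => Matrix.SpecialLinearGroup (Fin 2) F
local notation "M₂" => Matrix (Fin 2) (Fin 2) F

/-- The Frobenius twist. -/
noncomputable def tw : SL₂ →* SL₂ := Matrix.SpecialLinearGroup.map (frobenius F 3)

theorem tw_apply (A : SL₂) (i j : Fin 2) : (tw A : M₂) i j = (A : M₂) i j ^ 3 := rfl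

omit [CharP F 3] in
theorem cayley (A : SL₂) : (A : M₂) * (A : M₂) = (A : M₂).trace • (A : M₂) - 1 := by
  have hd := A.2
  rw [det_fin_two] at hd
  ext i j
  fin_cases i <;> fin_cases j <;> simp [mul_apply, Fin.sum_univ_two, trace_fin_two] <;>
    first | linear_combination hd | linear_combination -hd | ring

theorem trace_tw (A : SL₂) : (tw A : M₂).trace = (A : M₂).trace ^ 3 := by
  haveI : Fact (Nat.Prime 3) := ⟨Nat.prime_three⟩
  rw [trace_fin_two, trace_fin_two, tw_apply, tw_apply, add_pow_char]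

omit [CharP F 3] in
theorem pow_four_of_trace_zero {A : SL₂} (h : (A : M₂).trace = 0) : A ^ 4 = 1 := by
  apply Subtype.ext
  have e := cayley A
  rw [h, zero_smul, zero_sub] at e
  rw [Matrix.SpecialLinearGroup.coe_pow, Matrix.SpecialLinearGroup.coe_one,
    show (A : M₂) ^ 4 = ((A : M₂) * A) * ((A : M₂) * A) by rw [pow_succ, pow_succ, pow_two]; noncomm_ring, e]
  simp

theorem pow_six_of_trace_sq {A : SL₂} (h : (A : M₂).trace ^ 2 = 4) : A ^ 6 = 1 := by
  have h3 : (3 : F) = 0 := CharP.cast_eq_zero F 3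
  have ht : (A : M₂).trace * (A : M₂).trace = 1 := by linear_combination h + h3
  apply Subtype.ext
  have e := cayley A
  have e3 : (A : M₂) * A * A = -((A : M₂).trace • (1 : M₂)) := by
    rw [e, sub_mul, smul_mul_assoc, one_mul, e, smul_sub, smul_smul, ht, one_smul]
    abel
  rw [Matrix.SpecialLinearGroup.coe_pow, Matrix.SpecialLinearGroup.coe_one,
    show (A : M₂) ^ 6 = ((A : M₂) * A * A) * ((A : M₂) * A * A) by
      simp only [pow_succ, pow_zero, one_mul]; noncomm_ring, e3]
  rw [neg_mul_neg, smul_mul_smul_comm, ht, one_smul, one_mul]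

omit [CharP F 3] in
theorem eigen_eq {A : SL₂} {u : Fin 2 → F} {c : F} (hu : u ≠ 0) (h : (A : M₂) *ᵥ u = c • u) :
    c ^ 2 - (A : M₂).trace * c + 1 = 0 := by
  have hd := A.2
  rw [det_fin_two] at hd
  have h0 := congrFun h 0
  have h1 := congrFun h 1
  simp only [mulVec, dotProduct, Fin.sum_univ_two, Pi.smul_apply, smul_eq_mul] at h0 h1
  rw [trace_fin_two]
  have k0 : (c ^ 2 - ((A : M₂) 0 0 + (A : M₂) 1 1) * c + 1) * u 0 = 0 := by
    linear_combination ((A : M₂) 1 1 - c) * h0 - (A : M₂) 0 1 * h1 - u 0 * hd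
  have k1 : (c ^ 2 - ((A : M₂) 0 0 + (A : M₂) 1 1) * c + 1) * u 1 = 0 := by
    linear_combination ((A : M₂) 0 0 - c) * h1 - (A : M₂) 1 0 * h0 - u 1 * hd
  by_contra hne
  exact hu (funext fun i => by
    fin_cases i
    · exact (mul_eq_zero.1 k0).resolve_left hne
    · exact (mul_eq_zero.1 k1).resolve_left hne)

omit [CharP F 3] in
theorem exists_outer {X : M₂} (hX : X ≠ 0) (hd : X.det = 0) :
    ∃ (u w : Fin 2 → F), u ≠ 0 ∧ w ≠ 0 ∧ X = vecMulVec u w := by
  rw [det_fin_two] at hd
  by_cases h0 : X 0 0 = 0 ∧ X 0 1 = 0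
  · refine ⟨![0, 1], fun j => X 1 j, fun h => by simpa using congrFun h 1, fun h => hX ?_, ?_⟩
    · ext i j
      fin_cases i <;> fin_cases j <;> first | exact h0.1 | exact h0.2 | exact congrFun h _
    · ext i j
      fin_cases i <;> fin_cases j <;> simp [vecMulVec_apply, h0.1, h0.2]
  · by_cases h00 : X 0 0 = 0
    · have h01 : X 0 1 ≠ 0 := fun h => h0 ⟨h00, h⟩
      refine ⟨![1, X 1 1 / X 0 1], fun j => X 0 j, fun h => by simpa using congrFun h 0,
        fun h => h01 (congrFun h 1), ?_⟩
      have h10 : X 1 0 = 0 := by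
        rw [h00, zero_mul, zero_sub, neg_eq_zero, mul_eq_zero] at hd
        exact hd.resolve_left h01
      ext i j
      fin_cases i <;> fin_cases j <;> simp [vecMulVec_apply, h00, h10]
      field_simp
    · refine ⟨![1, X 1 0 / X 0 0], fun j => X 0 j, fun h => by simpa using congrFun h 0,
        fun h => h00 (congrFun h 0), ?_⟩
      ext i j
      fin_cases i <;> fin_cases j <;> simp [vecMulVec_apply]
      · field_simp
      · field_simp
        linear_combination hd

/-- Fixed vectors up to sign. -/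
theorem fixed_cases (hm1 : ∀ x : F, x ^ 2 ≠ -1) {A : SL₂} {s : F} (hs : s = 1 ∨ s = -1) {X : M₂} (hX : X ≠ 0)
    (h : (A : M₂) * X * (tw A : M₂)ᵀ = s • X) : A ^ 4 = 1 ∨ A ^ 6 = 1 := by
  have h3 : (3 : F) = 0 := CharP.cast_eq_zero F 3
  set t := (A : M₂).trace with ht
  by_cases hd : X.det = 0
  · obtain ⟨u, w, hu, hw, rfl⟩ := exists_outer hX hd
    have hs0 : s ≠ 0 := by rcases hs with rfl | rfl <;> simp
    rw [mul_vecMulVec, vecMulVec_mul, vecMul_transpose] at h
    set a := (A : M₂) *ᵥ u
    set b := (tw A : M₂) *ᵥ w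
    have he : ∀ i j, a i * b j = s * (u i * w j) := fun i j => by
      have := congrFun (congrFun h i) j
      simpa [vecMulVec_apply] using this
    obtain ⟨i₀, hi₀⟩ := Function.ne_iff.1 hu
    obtain ⟨j₀, hj₀⟩ := Function.ne_iff.1 hw
    simp only [Pi.zero_apply] at hi₀ hj₀
    have hne : a i₀ * b j₀ ≠ 0 := by
      rw [he]; exact mul_ne_zero hs0 (mul_ne_zero hi₀ hj₀)
    obtain ⟨ha, hb⟩ := mul_ne_zero_iff.1 hne
    have hA : a = (a i₀ / u i₀) • u := funext fun i => by
      rw [Pi.smul_apply, smul_eq_mul, div_mul_eq_mul_div, eq_div_iff hi₀]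
      refine mul_right_cancel₀ hb ?_
      linear_combination u i₀ * he i j₀ - u i * he i₀ j₀
    have hB : b = (b j₀ / w j₀) • w := funext fun j => by
      rw [Pi.smul_apply, smul_eq_mul, div_mul_eq_mul_div, eq_div_iff hj₀]
      refine mul_left_cancel₀ ha ?_
      linear_combination w j₀ * he i₀ j - w j * he i₀ j₀
    set c := a i₀ / u i₀
    set d := b j₀ / w j₀
    have hcd : c * d = s := by
      rw [div_mul_div_comm, div_eq_iff (mul_ne_zero hi₀ hj₀)]
      exact he i₀ j₀
    have ec := eigen_eq hu hA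
    have ed := eigen_eq hw hB
    rw [trace_tw] at ed
    rw [← ht] at ec ed
    have hc : c ≠ 0 := fun e => hs0 (by rw [← hcd, e, zero_mul])
    have etc : t ^ 3 * c ^ 3 = c ^ 6 + 1 := by
      linear_combination (-(t ^ 2 * c ^ 2 + t * c * (c ^ 2 + 1) + (c ^ 2 + 1) ^ 2)) * ec + (c ^ 4 + c ^ 2) * h3
    have hq : (d - c ^ 3) * (d * c ^ 3 - 1) = 0 := by
      linear_combination c ^ 3 * ed + d * etc
    have hc2 : c ^ 2 = 1 := by
      rcases mul_eq_zero.1 hq with e | e
      · have h4 : c ^ 4 = s := by rw [← hcd, sub_eq_zero.1 e]; ring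
        rcases hs with rfl | rfl
        · have : (c ^ 2 - 1) * (c ^ 2 + 1) = 0 := by linear_combination h4
          exact (mul_eq_zero.1 this).elim (fun e => sub_eq_zero.1 e) fun e => absurd (eq_neg_of_add_eq_zero_left e) (hm1 c)
        · exact absurd (show (c ^ 2) ^ 2 = -1 by linear_combination h4) (hm1 _)
      · have h4 : s * c ^ 2 = 1 := by linear_combination e - c ^ 2 * hcd
        rcases hs with rfl | rfl
        · linear_combination h4
        · exact absurd (show c ^ 2 = -1 by linear_combination -h4) (hm1 c)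
    refine Or.inr (pow_six_of_trace_sq ?_)
    rw [← ht]
    have htc : t * c = 2 := by linear_combination -ec + hc2
    have : t ^ 2 * c ^ 2 = 4 := by linear_combination (t * c + 2) * htc
    rwa [hc2, mul_one] at this
  · have hmul : X * (tw A : M₂)ᵀ = s • ((A : M₂).adjugate * X) := by
      have := congrArg ((A : M₂).adjugate * ·) h
      simp only [← mul_assoc, adjugate_mul, A.2, one_smul, one_mul, mul_smul_comm] at this
      exact this
    have htr := congrArg (fun Y : M₂ => (X.adjugate * Y).trace) hmul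
    simp only [← mul_assoc, adjugate_mul, mul_smul_comm, smul_mul_assoc, one_mul, trace_smul, trace_transpose,
      smul_eq_mul] at htr
    rw [Matrix.trace_mul_cycle X.adjugate (A : M₂).adjugate X, mul_adjugate, smul_mul_assoc, one_mul, trace_smul,
      trace_tw, adjugate_fin_two, trace_fin_two_of, smul_eq_mul] at htr
    have ht3 : t * (t ^ 2 - s) = 0 := by
      refine mul_left_cancel₀ hd ?_
      rw [mul_zero, ht, trace_fin_two] at *
      linear_combination htr
    rcases mul_eq_zero.1 ht3 with e | e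
    · exact Or.inl (pow_four_of_trace_zero e)
    · rcases hs with rfl | rfl
      · exact Or.inr (pow_six_of_trace_sq (by rw [← ht]; linear_combination e - h3))
      · exact absurd (show t ^ 2 = -1 by linear_combination e) (hm1 t)

end Cfsg.Agent.H37.Twisted
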