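import Cfsg.Agent.H37.TwistedAct

/-! Element orders of the extension of the twisted tensor module. -/

namespace Cfsg.Agent.H37.Twisted

open Matrix Cfsg.Agent.H69

variable {F : Type*} [Field F] [CharP F 3]

local notation "SL₂" => Matrix.SpecialLinearGroup (Fin 2) F
local notation "M₂" => Matrix (Fin 2) (Fin 2) F

/-- The semidirect product. -/
abbrev Ext (F : Type*) [Field F] [CharP F 3] : Type _ :=
  Multiplicative (Matrix (Fin 2) (Fin 2) F) ⋊[(actHom (F := F)).range.subtype] (actHom (F := F)).range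

/-- The element attached to a vector and a pair. -/
noncomputable def mkE (v : Multiplicative M₂) (g : ℤˣ × SL₂) : Ext F := ⟨v, ⟨actHom g, g, rfl⟩⟩

theorem mkE_surj (h : Ext F) : ∃ v g, h = mkE v g := by
  obtain ⟨g, hg⟩ := h.right.2
  exact ⟨h.left, g, SemidirectProduct.ext rfl (Subtype.ext hg.symm)⟩

theorem right_pow (v : Multiplicative M₂) (g : ℤˣ × SL₂) (n : ℕ) :
    (((mkE v g) ^ n).right : MulAut (Multiplicative M₂)) = actHom (g ^ n) := by
  have h := map_pow (SemidirectProduct.rightHom :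
    Ext F →* (actHom (F := F)).range) (mkE v g) n
  rw [map_pow, ← show SemidirectProduct.rightHom ((mkE v g) ^ n) = ((mkE v g) ^ n).right from rfl, h,
    Subgroup.coe_pow]
  rfl

/-- A power with trivial image is a fixed vector. -/
theorem pow_fixed (v : Multiplicative M₂) (g : ℤˣ × SL₂) (n : ℕ) (h : actHom (g ^ n) = 1) :
    ∃ w : Multiplicative M₂, (mkE v g) ^ n = SemidirectProduct.inl w ∧ actHom g w = w := by
  have hr : ((mkE v g) ^ n).right = 1 := Subtype.ext ((right_pow v g n).trans h)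
  refine ⟨((mkE v g) ^ n).left, SemidirectProduct.ext rfl hr, ?_⟩
  have e := congrArg SemidirectProduct.left ((Commute.refl (mkE v g)).pow_right n).eq
  rw [SemidirectProduct.mul_left, SemidirectProduct.mul_left, hr, map_one, MulAut.one_apply, mul_comm] at e
  exact mul_right_cancel e

theorem inl_pow_three (w : Multiplicative M₂) : (SemidirectProduct.inl w : Ext F) ^ 3 = 1 := by
  rw [← map_pow, show w ^ 3 = 1 from ?_, map_one]
  refine Multiplicative.toAdd.injective ?_
  rw [toAdd_pow, toAdd_one]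
  ext i j
  have h3 : (3 : F) = 0 := CharP.cast_eq_zero F 3
  simp [h3]

theorem pow_eq_one_of_fixfree (v : Multiplicative M₂) (g : ℤˣ × SL₂) (n : ℕ) (h : actHom (g ^ n) = 1)
    (hff : ∀ w, actHom g w = w → w = 1) : (mkE v g) ^ n = 1 := by
  obtain ⟨w, hw, hfix⟩ := pow_fixed v g n h
  rw [hw, hff w hfix, map_one]

theorem actHom_central {B : SL₂} (hB : B = 1 ∨ B = -1) {e : ℤˣ} (v : Multiplicative M₂) :
    actHom (e, B) v = Multiplicative.ofAdd (sgn F e • Multiplicative.toAdd v) := by
  rw [actHom_apply, lin_central B hB]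

theorem actHom_eq_one {B : SL₂} (hB : B = 1 ∨ B = -1) : actHom ((1 : ℤˣ), B) = 1 :=
  MulEquiv.ext fun v => by rw [actHom_central hB, map_one, one_smul, ofAdd_toAdd]; rfl

variable [Fintype F]

theorem not_sq_neg_one (hq : Fintype.card F % 4 = 3) (x : F) : x ^ 2 ≠ -1 := fun h =>
  (FiniteField.isSquare_neg_one_iff.1 ⟨x, by rw [← h, pow_two]⟩) hq

theorem pow_pm (A : SL₂) (hA : (A : M₂).trace ^ 2 ≠ 4) :
    A ^ (Fintype.card F - 1) = 1 ∨ A ^ (Fintype.card F + 1) = 1 := by
  have hd : orderOf A ∣ Nat.card (Subgroup.centralizer ({A} : Set SL₂)) :=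
    Subgroup.orderOf_dvd_natCard _ (Subgroup.mem_centralizer_singleton_iff.2 rfl)
  rcases card_centralizer_semisimple hA with e | e <;> rw [e] at hd
  · exact Or.inl (orderOf_dvd_iff_pow_eq_one.1 hd)
  · exact Or.inr (orderOf_dvd_iff_pow_eq_one.1 hd)

theorem pow_cases (hq : Fintype.card F % 4 = 3) (h : Ext F) :
    h ^ 6 = 1 ∨ h ^ 9 = 1 ∨ h ^ (Fintype.card F - 1) = 1 ∨ h ^ ((Fintype.card F + 1) / 2) = 1 := by
  have h3 : (3 : F) = 0 := CharP.cast_eq_zero F 3
  obtain ⟨v, ⟨e, A⟩, rfl⟩ := mkE_surj h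
  have he2 : e ^ 2 = 1 := Int.units_sq e
  by_cases h46 : A ^ 4 = 1 ∨ A ^ 6 = 1
  · rcases h46 with h4 | h6
    · left
      obtain ⟨w, hw, -⟩ := pow_fixed v (e, A) 2 (by
        rw [Prod.pow_mk, he2]
        exact actHom_eq_one (eq_one_or_neg_one_of_sq (by rw [← pow_add]; exact h4)))
      rw [show 6 = 2 * 3 by norm_num, pow_mul, hw, inl_pow_three]
    · have hA3 := eq_one_or_neg_one_of_sq (show A ^ 3 * A ^ 3 = 1 by rw [← pow_add]; exact h6)
      rcases Int.units_eq_one_or e with rfl | rfl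
      · right; left
        obtain ⟨w, hw, -⟩ := pow_fixed v (1, A) 3 (by rw [Prod.pow_mk, one_pow]; exact actHom_eq_one hA3)
        rw [show 9 = 3 * 3 by norm_num, pow_mul, hw, inl_pow_three]
      · left
        refine pow_eq_one_of_fixfree v (-1, A) 6 (by
          rw [Prod.pow_mk, show (-1 : ℤˣ) ^ 6 = 1 by decide, h6]
          exact actHom_eq_one (Or.inl rfl)) fun w hw => ?_
        have hiter : ∀ n : ℕ, actHom (((-1 : ℤˣ), A) ^ n) w = w := by
          intro n
          induction n with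
          | zero => rw [pow_zero, map_one, MulAut.one_apply]
          | succ n ih => rw [pow_succ, map_mul, MulAut.mul_apply, hw, ih]
        have h := hiter 3
        rw [Prod.pow_mk, show (-1 : ℤˣ) ^ 3 = -1 by decide, actHom_central hA3] at h
        have h' : sgn F (-1) • Multiplicative.toAdd w = Multiplicative.toAdd w := congrArg Multiplicative.toAdd h
        refine Multiplicative.toAdd.injective ?_
        rw [toAdd_one]
        ext i j
        have := congrFun (congrFun h' i) j
        rw [Matrix.smul_apply, smul_eq_mul, show sgn F (-1) = -1 by simp [sgn]] at this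
        rw [Matrix.zero_apply]
        linear_combination this + (Multiplicative.toAdd w) i j * h3
  · have hm1 := not_sq_neg_one hq
    have ht : (A : M₂).trace ^ 2 ≠ 4 := fun ht => h46 (Or.inr (pow_six_of_trace_sq ht))
    have hff : ∀ w, actHom (e, A) w = w → w = 1 := by
      intro w hw
      by_contra hne
      have hX : Multiplicative.toAdd w ≠ 0 := fun e0 => hne (Multiplicative.toAdd.injective e0)
      have h' : sgn F e • ((A : M₂) * Multiplicative.toAdd w * (tw A : M₂)ᵀ) = Multiplicative.toAdd w :=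
        congrArg Multiplicative.toAdd hw
      refine h46 (fixed_cases hm1 (s := sgn F e) ?_ hX ?_)
      · rcases Int.units_eq_one_or e with rfl | rfl <;> simp [sgn]
      · conv_rhs => rw [← h', smul_smul, ← map_mul, Int.units_mul_self, map_one, one_smul]
    have hodd : Odd ((Fintype.card F - 1) / 2) := Nat.odd_iff.2 (by omega)
    rcases pow_pm A ht with hp | hp
    · right; right; left
      refine pow_eq_one_of_fixfree v (e, A) _ ?_ hff
      rw [Prod.pow_mk, hp, show Fintype.card F - 1 = 2 * ((Fintype.card F - 1) / 2) by omega, pow_mul, he2, one_pow]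
      exact actHom_eq_one (Or.inl rfl)
    · right; right; right
      refine pow_eq_one_of_fixfree v (e, A) _ ?_ hff
      have hA2 := eq_one_or_neg_one_of_sq (show A ^ ((Fintype.card F + 1) / 2) * A ^ ((Fintype.card F + 1) / 2) = 1 by
        rw [← pow_add, show (Fintype.card F + 1) / 2 + (Fintype.card F + 1) / 2 = Fintype.card F + 1 by omega]; exact hp)
      rw [Prod.pow_mk, show e ^ ((Fintype.card F + 1) / 2) = 1 by
        rw [show (Fintype.card F + 1) / 2 = 2 * ((Fintype.card F + 1) / 4) by omega, pow_mul, he2, one_pow]]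
      exact actHom_eq_one hA2

/-- The unipotent element. -/
def unip : SL₂ := ⟨!![1, 1; 0, 1], by simp [det_fin_two]⟩

omit [Fintype F] in
theorem lin_unip (X : M₂) : lin ((1 : ℤˣ), (unip : SL₂)) X = !![1, 1; 0, 1] * X * (!![1, 1; 0, 1] : M₂)ᵀ := by
  have : (tw (unip : SL₂) : M₂) = !![1, 1; 0, 1] := by
    ext i j
    rw [tw_apply]
    fin_cases i <;> fin_cases j <;> simp [unip]
  rw [lin, this, map_one, one_smul]
  rfl

theorem exists_order_nine : ∃ h : Ext F, orderOf h = 9 := by
  have h3 : (3 : F) = 0 := CharP.cast_eq_zero F 3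
  refine ⟨mkE (Multiplicative.ofAdd !![0, 0; 0, 1]) (1, unip), ?_⟩
  haveI : Fact (Nat.Prime 3) := ⟨Nat.prime_three⟩
  refine orderOf_eq_prime_pow (p := 3) (n := 1) ?_ ?_
  · intro h
    have := congrArg SemidirectProduct.left h
    rw [pow_one, pow_succ, pow_two, SemidirectProduct.mul_left, SemidirectProduct.mul_left,
      SemidirectProduct.mul_right, map_mul, MulAut.mul_apply, SemidirectProduct.one_left] at this
    have h' : (!![0, 0; 0, 1] + lin ((1 : ℤˣ), unip) !![0, 0; 0, 1] +
        lin ((1 : ℤˣ), unip) (lin ((1 : ℤˣ), unip) !![0, 0; 0, 1]) : M₂) 0 0 = 0 :=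
      congrFun (congrFun (congrArg Multiplicative.toAdd this) 0) 0
    rw [lin_unip, lin_unip] at h'
    simp [mul_apply, Fin.sum_univ_two, transpose_apply] at h'
    norm_num [vecHead, vecMul, dotProduct, Fin.sum_univ_two, transpose_apply] at h'
    exact one_ne_zero (show (1 : F) = 0 by linear_combination (2 : F) * h' - (3 : F) * h3)
  · rcases pow_fixed (Multiplicative.ofAdd !![(0 : F), 0; 0, 1]) (1, unip) 3 (by
      have hu : (unip : SL₂) ^ 3 = 1 := by
        apply Subtype.ext
        rw [Matrix.SpecialLinearGroup.coe_pow, Matrix.SpecialLinearGroup.coe_one]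
        ext i j
        fin_cases i <;> fin_cases j <;> simp [unip, pow_succ, mul_apply, Fin.sum_univ_two] <;>
          linear_combination h3
      rw [Prod.pow_mk, one_pow, hu]
      exact actHom_eq_one (Or.inl rfl)) with ⟨w, hw, -⟩
    rw [show 3 ^ (1 + 1) = 3 * 3 by norm_num, pow_mul, hw, inl_pow_three]

theorem orderOf_inr (g : ℤˣ × SL₂) (N : ℕ) (hN : ∀ j, actHom (g ^ j) = 1 ↔ N ∣ j) :
    orderOf (SemidirectProduct.inr ⟨actHom g, g, rfl⟩ : Ext F) = N := by
  have hkey : ∀ j, (SemidirectProduct.inr ⟨actHom g, g, rfl⟩ : Ext F) ^ j = 1 ↔ N ∣ j := by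
    intro j
    rw [← hN, ← map_pow, map_eq_one_iff _ SemidirectProduct.inr_injective, Subtype.ext_iff, Subgroup.coe_pow,
      Subgroup.coe_one, map_pow]
  exact Nat.dvd_antisymm (orderOf_dvd_iff_pow_eq_one.2 ((hkey N).2 dvd_rfl))
    ((hkey _).1 (pow_orderOf_eq_one _))

theorem exists_order_six (hq : Fintype.card F % 4 = 3) : ∃ h : Ext F, orderOf h = 6 := by
  have h3 : (3 : F) = 0 := CharP.cast_eq_zero F 3
  refine ⟨_, orderOf_inr ((-1 : ℤˣ), unip) 6 fun j => ?_⟩
  have hu : ∀ n : ℕ, ((unip : SL₂) ^ n : SL₂) = (⟨!![1, (n : F); 0, 1], by simp [det_fin_two]⟩ : SL₂) := by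
    intro n
    induction n with
    | zero => apply Subtype.ext; ext i j; fin_cases i <;> fin_cases j <;> simp
    | succ n ih =>
      rw [pow_succ, ih]
      apply Subtype.ext
      show (!![1, (n : F); 0, 1] : M₂) * !![1, 1; 0, 1] = !![1, ((n + 1 : ℕ) : F); 0, 1]
      ext i j
      fin_cases i <;> fin_cases j <;> simp [mul_apply, Fin.sum_univ_two, add_comm]
  rw [Prod.pow_mk]
  constructor
  · intro h
    obtain ⟨he, hA⟩ := kernel_eq (not_sq_neg_one hq) h
    have h2 : 2 ∣ j := by
      have := orderOf_dvd_of_pow_eq_one he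
      rwa [orderOf_eq_prime (p := 2) (by decide) (by decide)] at this
    rw [hu] at hA
    have hj : (j : F) = 0 := by
      rcases hA with e | e <;> simpa using congrFun (congrFun (congrArg Subtype.val e) 0) 1
    exact Nat.Coprime.mul_dvd_of_dvd_of_dvd (show Nat.Coprime 2 3 by norm_num) h2
      ((CharP.cast_eq_zero_iff F 3 j).1 hj)
  · intro h
    obtain ⟨c, rfl⟩ := h
    rw [pow_mul, show (-1 : ℤˣ) ^ 6 = 1 by decide, one_pow, hu]
    refine actHom_eq_one (Or.inl (Subtype.ext ?_))
    ext i k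
    fin_cases i <;> fin_cases k <;> simp
    exact Or.inl (by linear_combination (2 : F) * h3)

theorem exists_order_split (hq : Fintype.card F % 4 = 3) (h3q : ¬ 3 ∣ Fintype.card F - 1) :
    ∃ h : Ext F, orderOf h = Fintype.card F - 1 := by
  obtain ⟨u, hu⟩ := IsCyclic.exists_generator (α := Fˣ)
  have hou : orderOf u = Fintype.card F - 1 := by
    rw [orderOf_eq_card_of_forall_mem_zpowers hu, Nat.card_units, Nat.card_eq_fintype_card]
  let A : SL₂ := ⟨!![(u : F), 0; 0, ((u⁻¹ : Fˣ) : F)], by simp [det_fin_two]⟩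
  have hA : ∀ n : ℕ, (A ^ n : SL₂) = (⟨!![((u ^ n : Fˣ) : F), 0; 0, (((u ^ n)⁻¹ : Fˣ) : F)], by simp [det_fin_two]⟩ : SL₂) := by
    intro n
    induction n with
    | zero => apply Subtype.ext; ext i j; fin_cases i <;> fin_cases j <;> simp
    | succ n ih =>
      rw [pow_succ, ih]
      apply Subtype.ext
      show (!![((u ^ n : Fˣ) : F), 0; 0, (((u ^ n)⁻¹ : Fˣ) : F)] : M₂) * !![(u : F), 0; 0, ((u⁻¹ : Fˣ) : F)] =
        !![((u ^ (n + 1) : Fˣ) : F), 0; 0, (((u ^ (n + 1))⁻¹ : Fˣ) : F)]
      ext i j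
      fin_cases i <;> fin_cases j <;> simp [mul_apply, Fin.sum_univ_two, pow_succ, mul_comm]
  refine ⟨_, orderOf_inr ((-1 : ℤˣ), A) _ fun j => ?_⟩
  rw [Prod.pow_mk]
  constructor
  · intro h
    obtain ⟨he, hB⟩ := kernel_eq (not_sq_neg_one hq) h
    have h2 : 2 ∣ j := by
      have := orderOf_dvd_of_pow_eq_one he
      rwa [orderOf_eq_prime (p := 2) (by decide) (by decide)] at this
    rw [hA] at hB
    have h2j : u ^ (2 * j) = 1 := by
      refine Units.ext ?_
      rw [mul_comm, pow_mul, Units.val_pow_eq_pow_val, Units.val_one]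
      rcases hB with e | e <;> have e0 := congrFun (congrFun (congrArg Subtype.val e) 0) 0 <;> simp at e0 <;>
        rw [Units.val_pow_eq_pow_val, e0] <;> simp
    have hd := orderOf_dvd_of_pow_eq_one h2j
    rw [hou] at hd
    obtain ⟨i, rfl⟩ := h2
    have ho : Nat.Coprime ((Fintype.card F - 1) / 2) 2 :=
      Nat.coprime_two_right.2 (Nat.odd_iff.2 (by omega))
    have hd2 : (Fintype.card F - 1) / 2 ∣ 2 * i := by
      refine Nat.dvd_of_mul_dvd_mul_left (show 0 < 2 by norm_num) ?_
      rwa [Nat.mul_div_cancel' (show 2 ∣ Fintype.card F - 1 by omega)]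
    have := Nat.mul_dvd_mul_left 2 (ho.dvd_of_dvd_mul_left hd2)
    rwa [Nat.mul_div_cancel' (show 2 ∣ Fintype.card F - 1 by omega)] at this
  · intro h
    obtain ⟨c, hc⟩ := h
    have h1 : u ^ j = 1 := orderOf_dvd_iff_pow_eq_one.1 (hou ▸ ⟨c, hc⟩)
    have h2 : (-1 : ℤˣ) ^ j = 1 :=
      orderOf_dvd_iff_pow_eq_one.1 (by
        rw [orderOf_eq_prime (p := 2) (by decide) (by decide), hc]
        exact dvd_mul_of_dvd_left (by omega) c)
    rw [h2, hA]
    refine actHom_eq_one (Or.inl (Subtype.ext ?_))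
    simp [h1, one_fin_two]

theorem exists_order_nonsplit (hq : Fintype.card F % 4 = 3) :
    ∃ h : Ext F, orderOf h = (Fintype.card F + 1) / 2 := by
  obtain ⟨t, ht⟩ := exists_rootCount_zero (F := F)
  let g : SL₂ := ⟨comp2 t 1, by simp [comp2, det_fin_two]⟩
  have hg : rootCount (g : M₂).trace = 0 := by
    rw [show (g : M₂).trace = t by simp [g, comp2, trace_fin_two]]
    exact ht
  have hC := isNonsplit_centralizer hg
  obtain ⟨x, hx⟩ := hC.ns_cyclic.exists_generator
  have hxo : orderOf (x : SL₂) = Fintype.card F + 1 := by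
    rw [Subgroup.orderOf_coe, orderOf_eq_card_of_forall_mem_zpowers hx, hC.ns_card]
  refine ⟨_, orderOf_inr ((1 : ℤˣ), (x : SL₂)) _ fun j => ?_⟩
  rw [Prod.pow_mk, one_pow]
  constructor
  · intro h
    obtain ⟨-, hB⟩ := kernel_eq (not_sq_neg_one hq) h
    have h2j : (x : SL₂) ^ (2 * j) = 1 := by
      rw [mul_comm, pow_mul]
      rcases hB with e | e <;> rw [e] <;> simp
    have hd := orderOf_dvd_of_pow_eq_one h2j
    rw [hxo] at hd
    refine Nat.dvd_of_mul_dvd_mul_left (show 0 < 2 by norm_num) ?_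
    rwa [Nat.mul_div_cancel' (show 2 ∣ Fintype.card F + 1 by omega)]
  · rintro ⟨c, rfl⟩
    refine actHom_eq_one (eq_one_or_neg_one_of_sq ?_)
    rw [← pow_add, show (Fintype.card F + 1) / 2 * c + (Fintype.card F + 1) / 2 * c = (Fintype.card F + 1) * c by
      rw [← add_mul]; congr 1; omega, pow_mul, ← hxo, pow_orderOf_eq_one, one_pow]

end Cfsg.Agent.H37.Twisted
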